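import Cfsg.Agent.Lib.BSW.Count
import Cfsg.Agent.Lib.Char.TI
import Cfsg.Agent.Lib.Char.Constituent
import Cfsg.Agent.Lib.Char.Integral

/-!
# Abstract Brauer–Suzuki–Wall: characters induced from `K`
-/

set_option autoImplicit false
set_option linter.unusedSectionVars false
set_option linter.unusedVariables false
set_option linter.unusedSimpArgs false
set_option linter.unnecessarySimpa false

open scoped ComplexConjugate

namespace Cfsg.Agent.Lib.BSW

open Classical Finset
open Cfsg (classInner IsCharacter IsIrrCharacter IrrCharacter IsClassFunction indFun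
  extendByZero charDegree IsGeneralizedCharacter)
open Cfsg.Agent.Lib.Char

universe u

variable {G : Type u} [Group G] [Fintype G]

namespace Setup

variable (S : Setup G) [Fintype S.K]

/-! ### Linear characters of `K` -/

theorem Kcomm (a b : S.K) : a * b = b * a := Subtype.ext (S.hab a a.2 b b.2)

theorem irr_one (μ : IrrCharacter S.K) : μ.1 1 = 1 := charDegree_eq_one_of_comm S.Kcomm μ.2

theorem exists_lam (μ : IrrCharacter S.K) : ∃ lam : S.K →* ℂˣ, μ.1 = fun a => (lam a : ℂ) :=
  exists_hom_of_character_one (IsIrrCharacter.isCharacter μ.2) (S.irr_one μ)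

theorem irr_mul (μ : IrrCharacter S.K) (a b : S.K) : μ.1 (a * b) = μ.1 a * μ.1 b := by
  obtain ⟨lam, hlam⟩ := S.exists_lam μ
  rw [hlam]
  simp

theorem irr_conj (μ : IrrCharacter S.K) (a : S.K) : conj (μ.1 a) = μ.1 a⁻¹ :=
  (IsCharacter.map_inv' (IsIrrCharacter.isCharacter μ.2) a).symm

/-- The complex conjugate character. -/
noncomputable def bar (μ : IrrCharacter S.K) : IrrCharacter S.K :=
  ⟨fun a => μ.1 a⁻¹, by
    obtain ⟨lam, hlam⟩ := S.exists_lam μ
    have := isIrrCharacter_of_hom lam⁻¹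
    rw [hlam]
    simpa using this⟩

theorem bar_apply (μ : IrrCharacter S.K) (a : S.K) : (S.bar μ).1 a = μ.1 a⁻¹ := rfl

theorem bar_bar (μ : IrrCharacter S.K) : S.bar (S.bar μ) = μ := by
  apply Subtype.ext
  funext a
  simp [bar]

/-- The principal character of `K`. -/
noncomputable def ee : IrrCharacter S.K := ⟨fun _ => 1, isIrrCharacter_one⟩

theorem bar_ee : S.bar S.ee = S.ee := rfl

/-! ### Values of induced functions -/

theorem ks_iff {x : G} : (x * S.t = S.t * x) ↔ (x ∈ S.K ∨ x * S.s ∈ S.K) := by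
  have hss := mul_self_of_two S.hs
  constructor
  · intro h
    rcases S.hH x h with h1 | ⟨a, ha, rfl⟩
    · exact Or.inl h1
    · right
      rw [mul_assoc, hss, mul_one]
      exact ha
  · rintro (h | h)
    · exact S.hKt x h
    · have : x = (x * S.s) * S.s := by
        rw [mul_assoc, hss, mul_one]
      rw [this]
      exact S.ks_comm h

theorem ind_K (θ : S.K → ℂ) (a : S.K) (ha : a ≠ 1) :
    indFun S.K θ a = θ a + θ a⁻¹ := by
  have hss := mul_self_of_two S.hs
  have hsi := inv_of_two S.hs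
  have ha1 : (a : G) ≠ 1 := fun h => ha (Subtype.ext h)
  have h1 : ∀ x : G, extendByZero S.K θ (x⁻¹ * a * x) =
      (if x ∈ S.K then θ a else 0) + (if x * S.s ∈ S.K then θ a⁻¹ else 0) := by
    intro x
    by_cases hx : x ∈ S.K
    · have hxs : x * S.s ∉ S.K := S.ks_not_mem hx
      rw [if_pos hx, if_neg hxs, add_zero]
      have e : x⁻¹ * (a : G) * x = a := by
        rw [mul_assoc, S.hab a a.2 x hx]
        group
      rw [e, extendByZero_coe]
    · rw [if_neg hx, zero_add]
      by_cases hxs : x * S.s ∈ S.K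
      · rw [if_pos hxs]
        have e : x⁻¹ * (a : G) * x = ((a⁻¹ : S.K) : G) := by
          have h2 : x = (x * S.s) * S.s := by rw [mul_assoc, hss, mul_one]
          have h3 : (x * S.s)⁻¹ * (a : G) * (x * S.s) = a := by
            rw [mul_assoc, S.hab a a.2 _ hxs]
            group
          calc x⁻¹ * (a : G) * x = S.s * ((x * S.s)⁻¹ * (a : G) * (x * S.s)) * S.s := by
                rw [mul_inv_rev, hsi]
                have : S.s * (S.s * x⁻¹ * (a : G) * (x * S.s)) * S.s =
                    (S.s * S.s) * (x⁻¹ * (a : G) * x) * (S.s * S.s) := by group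
                rw [this, hss]
                group
            _ = S.s * a * S.s := by rw [h3]
            _ = _ := by rw [S.hinv a a.2]; simp
        rw [e, extendByZero_coe]
      · rw [if_neg hxs]
        apply extendByZero_of_not_mem
        intro hmem
        have h4 := S.comm_of_conj_mem (y := x⁻¹) a.2 ha1 (by simpa using hmem)
        have h5 : x * S.t = S.t * x := by
          have : x * (x⁻¹ * S.t) * x = x * (S.t * x⁻¹) * x := by rw [h4]
          have e1 : x * (x⁻¹ * S.t) * x = S.t * x := by group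
          have e2 : x * (S.t * x⁻¹) * x = x * S.t := by group
          rw [e1, e2] at this
          exact this.symm
        rcases S.ks_iff.mp h5 with h6 | h6
        · exact hx h6
        · exact hxs h6
  rw [indFun_apply, Finset.sum_congr rfl (fun x _ => h1 x), Finset.sum_add_distrib]
  have h2 : ∑ x : G, (if x ∈ S.K then θ a else 0) = (Nat.card S.K : ℂ) * θ a := by
    rw [← Finset.sum_filter, Finset.sum_const, card_filter_mem, nsmul_eq_mul]
  have h3 : ∑ x : G, (if x * S.s ∈ S.K then θ a⁻¹ else 0) = (Nat.card S.K : ℂ) * θ a⁻¹ := by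
    have := Equiv.sum_comp (Equiv.mulRight S.s) (fun x : G => if x ∈ S.K then θ a⁻¹ else 0)
    have h4 : ∑ x : G, (if x ∈ S.K then θ a⁻¹ else 0) = (Nat.card S.K : ℂ) * θ a⁻¹ := by
      rw [← Finset.sum_filter, Finset.sum_const, card_filter_mem, nsmul_eq_mul]
    exact this.trans h4
  rw [h2, h3]
  have hk : (Nat.card S.K : ℂ) ≠ 0 := card_subgroup_ne_zero S.K
  field_simp

theorem ind_one (θ : S.K → ℂ) : indFun S.K θ 1 = 2 * (mm G : ℂ) * θ 1 := by
  have h1 : ∀ x : G, extendByZero S.K θ (x⁻¹ * 1 * x) = θ 1 := by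
    intro x
    have e : x⁻¹ * 1 * x = ((1 : S.K) : G) := by simp
    rw [e, extendByZero_coe]
  rw [indFun_apply, Finset.sum_congr rfl (fun x _ => h1 x), Finset.sum_const, card_univ,
    S.card_G, nsmul_eq_mul]
  have hk : (Nat.card S.K : ℂ) ≠ 0 := card_subgroup_ne_zero S.K
  push_cast
  field_simp

theorem ind_A (θ : S.K → ℂ) {g : G} (hg : S.IsA g) : indFun S.K θ g = 0 := by
  rw [indFun_apply]
  rw [Finset.sum_eq_zero, mul_zero]
  intro x _
  exact extendByZero_of_not_mem _ _ (hg x)

theorem ind_conj (θ : S.K → ℂ) (g y : G) : indFun S.K θ (y * g * y⁻¹) = indFun S.K θ g :=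
  indFun_isClassFunction S.K θ g y

/-- Two functions on `K` with the same symmetrized values induce the same function. -/
theorem ind_ext {θ θ' : S.K → ℂ} (h1 : θ 1 = θ' 1)
    (h2 : ∀ a : S.K, a ≠ 1 → θ a + θ a⁻¹ = θ' a + θ' a⁻¹) : indFun S.K θ = indFun S.K θ' := by
  funext g
  by_cases hg : S.IsA g
  · rw [S.ind_A θ hg, S.ind_A θ' hg]
  · unfold IsA at hg
    push Not at hg
    obtain ⟨y, hy⟩ := hg
    have e1 := S.ind_conj θ g y⁻¹
    have e2 := S.ind_conj θ' g y⁻¹
    simp only [inv_inv] at e1 e2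
    rw [← e1, ← e2]
    have e3 : y⁻¹ * g * y = ((⟨_, hy⟩ : S.K) : G) := rfl
    rw [e3]
    by_cases h0 : (⟨_, hy⟩ : S.K) = 1
    · rw [h0]
      simp only [Subgroup.coe_one]
      rw [S.ind_one, S.ind_one, h1]
    · rw [S.ind_K θ _ h0, S.ind_K θ' _ h0]
      exact h2 _ h0

/-- `I₁ - I_μ`. -/
noncomputable def EE (μ : S.K → ℂ) : G → ℂ := indFun S.K (fun _ => 1) - indFun S.K μ

theorem EE_class (μ : S.K → ℂ) : IsClassFunction G (S.EE μ) := by
  intro g h
  simp only [EE, Pi.sub_apply]
  rw [S.ind_conj, S.ind_conj]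

theorem EE_A (μ : S.K → ℂ) {g : G} (hg : S.IsA g) : S.EE μ g = 0 := by
  simp only [EE, Pi.sub_apply]
  rw [S.ind_A _ hg, S.ind_A _ hg, sub_zero]

theorem EE_K (μ : IrrCharacter S.K) (a : S.K) :
    S.EE μ.1 a = 2 - μ.1 a - μ.1 a⁻¹ := by
  simp only [EE, Pi.sub_apply]
  by_cases ha : a = 1
  · subst ha
    simp only [Subgroup.coe_one]
    rw [S.ind_one, S.ind_one, S.irr_one μ, inv_one, S.irr_one μ]
    ring
  · rw [S.ind_K _ _ ha, S.ind_K _ _ ha]
    ring

theorem EE_one (μ : IrrCharacter S.K) : S.EE μ.1 1 = 0 := by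
  have := S.EE_K μ 1
  simp only [Subgroup.coe_one, inv_one, S.irr_one μ] at this
  rw [this]
  ring

theorem ind_bar (μ : IrrCharacter S.K) : indFun S.K (S.bar μ).1 = indFun S.K μ.1 := by
  apply S.ind_ext
  · simp [bar]
  · intro a _
    simp [bar, add_comm]

theorem EE_bar (μ : IrrCharacter S.K) : S.EE (S.bar μ).1 = S.EE μ.1 := by
  simp only [EE, S.ind_bar]

theorem EE_ee : S.EE S.ee.1 = 0 := by
  simp only [EE, ee, sub_self]

/-! ### Inner products -/

theorem inner_ind_EE (μ ν : IrrCharacter S.K) :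
    classInner (indFun S.K μ.1) (S.EE ν.1) =
      2 * (if μ = S.ee then 1 else 0) - (if μ = ν then 1 else 0) - (if μ = S.bar ν then 1 else 0) := by
  rw [frobenius_reciprocity S.K μ.1 _ (S.EE_class ν.1)]
  have h1 : (fun a : S.K => S.EE ν.1 a) =
      (2 : ℂ) • S.ee.1 - ν.1 - (S.bar ν).1 := by
    funext a
    rw [S.EE_K ν a]
    simp [ee, bar]
  rw [h1, classInner_sub_right, classInner_sub_right, classInner_smul_right,
    classInner_irr μ.2 S.ee.2, classInner_irr μ.2 ν.2, classInner_irr μ.2 (S.bar ν).2]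
  simp only [Subtype.ext_iff, map_ofNat]

theorem inner_EE_EE {μ ν : IrrCharacter S.K} (hμ : μ ≠ S.ee) (hν : ν ≠ S.ee) :
    classInner (S.EE μ.1) (S.EE ν.1) =
      2 + (if μ = ν then 1 else 0) + (if μ = S.bar ν then 1 else 0) := by
  have h0 := S.inner_ind_EE S.ee ν
  have h1 := S.inner_ind_EE μ ν
  have h2 : S.ee ≠ S.bar ν := by
    intro h
    apply hν
    rw [← S.bar_bar ν, ← h, S.bar_ee]
  unfold EE at h0 h1 ⊢
  rw [classInner_sub_left]
  rw [if_pos rfl, if_neg (Ne.symm hν), if_neg h2] at h0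
  rw [if_neg hμ] at h1
  have h0' : classInner (indFun S.K (fun _ => (1 : ℂ)))
      (indFun S.K (fun _ => (1 : ℂ)) - indFun S.K ν.1) = 2 * 1 - 0 - 0 := h0
  rw [h0', h1]
  ring

theorem inner_EE_one {μ : IrrCharacter S.K} (hμ : μ ≠ S.ee) :
    classInner (S.EE μ.1) (fun _ : G => 1) = 1 := by
  have hc : IsClassFunction G (fun _ : G => (1 : ℂ)) := fun _ _ => rfl
  unfold EE
  rw [classInner_sub_left, frobenius_reciprocity S.K _ _ hc, frobenius_reciprocity S.K _ _ hc]
  have h3 : (fun _ : S.K => (1 : ℂ)) = S.ee.1 := rfl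
  rw [h3, classInner_irr S.ee.2 S.ee.2, classInner_irr μ.2 S.ee.2]
  have : μ.1 ≠ S.ee.1 := fun h => hμ (Subtype.ext h)
  simp [this]

theorem EE_gen (μ : IrrCharacter S.K) : IsGeneralizedCharacter G (S.EE μ.1) := by
  refine IsGeneralizedCharacter.sub (IsGeneralizedCharacter.of_isCharacter ?_)
    (IsGeneralizedCharacter.of_isCharacter ?_)
  · exact indFun_isCharacter S.K (IsIrrCharacter.isCharacter (isIrrCharacter_one (G := S.K)))
  · exact indFun_isCharacter S.K (IsIrrCharacter.isCharacter μ.2)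

end Setup

end Cfsg.Agent.Lib.BSW
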