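import Cfsg.Agent.Lib.BSW.Gram

/-!
# Abstract Brauer–Suzuki–Wall: the Gram matrix analysis, second part
-/

set_option autoImplicit false
set_option linter.unusedSectionVars false
set_option linter.unusedVariables false

namespace Cfsg.Agent.Lib.BSW

open Finset

/-- The elementary arithmetic for the two remaining constituents. -/
theorem two_degrees (da db f e₁ e₂ ε : ℤ) (hda : 0 < da) (hdb : 0 < db) (hf : 0 < f)
    (he₁ : e₁ = 1 ∨ e₁ = -1) (he₂ : e₂ = 1 ∨ e₂ = -1) (hε : ε = 1 ∨ ε = -1)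
    (h1 : e₁ * da + e₂ * db = -ε * f)
    (h2 : (e₁ : ℚ) * (1 / (da : ℚ)) + (e₂ : ℚ) * (1 / (db : ℚ)) = -4 * ε / (f : ℚ)) :
    e₁ = -ε ∧ e₂ = -ε ∧ 2 * da = f ∧ 2 * db = f := by
  have hda' : (da : ℚ) ≠ 0 := by exact_mod_cast hda.ne'
  have hdb' : (db : ℚ) ≠ 0 := by exact_mod_cast hdb.ne'
  have hf' : (f : ℚ) ≠ 0 := by exact_mod_cast hf.ne'
  have h3 : (e₁ * db + e₂ * da) * f = -4 * ε * (da * db) := by
    have : ((e₁ : ℚ) * db + e₂ * da) * f = -4 * ε * (da * db) := by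
      field_simp at h2
      linarith
    exact_mod_cast this
  have hpos : 0 < da * db := mul_pos hda hdb
  rcases he₁ with rfl | rfl <;> rcases he₂ with rfl | rfl <;> rcases hε with rfl | rfl
  · exfalso; linarith
  · refine ⟨rfl, rfl, ?_, ?_⟩ <;> · have : da = db := by nlinarith [sq_nonneg (da - db)]
                                    subst this; linarith
  · exfalso; nlinarith
  · exfalso; nlinarith
  · exfalso; nlinarith
  · exfalso; nlinarith
  · refine ⟨rfl, rfl, ?_, ?_⟩ <;> · have : da = db := by nlinarith [sq_nonneg (da - db)]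
                                    subst this; linarith
  · exfalso; linarith

namespace GD

variable {ι Λ : Type*} [Fintype ι] [DecidableEq ι] [Fintype Λ] [DecidableEq Λ] (D : GD ι Λ)

theorem card_NRf : (Fintype.card Λ : ℤ) = D.NRf.card + 2 := by
  have := D.sum_split (fun _ => (1 : ℤ))
  simp only [Finset.sum_const, nsmul_eq_mul, mul_one, Finset.card_univ] at this
  rw [this]
  ring

/-- The sum of all `x_μ(χ)`. -/
def Xs (χ : ι) : ℤ := ∑ l, D.x l χ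

theorem Xs_eq {χ : ι} (h : χ ≠ D.one) : D.Xs χ = D.y D.r₀ χ + ∑ l ∈ D.NRf, D.y l χ := by
  unfold Xs
  rw [D.sum_split, D.x_e, zero_add, D.x_eq_y h]
  congr 1
  exact Finset.sum_congr rfl fun ν _ => by rw [D.x_eq_y h]

theorem Xs_one : D.Xs D.one = (Fintype.card Λ : ℤ) - 1 := by
  unfold Xs
  rw [D.sum_split, D.x_e, zero_add, D.x_one _ D.r₀_ne,
    Finset.sum_congr rfl (fun ν hν => D.x_one ν (D.mem_NRf.mp hν).1), D.card_NRf]
  simp only [Finset.sum_const, nsmul_eq_mul, mul_one]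
  ring

section Center

variable {D} {St : ι} {ε : ℤ} {P : Λ → ι} (hc : D.IsCenter St ε P) (hw : D.y D.r₀ St = ε)

include hc

theorem eps_sq : ε * ε = 1 := by rcases hc.he with h | h <;> rw [h] <;> norm_num

theorem eps_ne : ε ≠ 0 := by rcases hc.he with h | h <;> rw [h] <;> norm_num

theorem y_St {l : Λ} (hl : D.NR l) : D.y l St = ε := by
  rw [(hc.hP l hl).2.2.2, dl_self, dl_of_ne (hc.hP l hl).1.symm]
  ring

theorem y_P_of_ne {l : Λ} (hl : D.NR l) {χ : ι} (h1 : χ ≠ St) (h2 : χ ≠ P l) : D.y l χ = 0 := by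
  rw [(hc.hP l hl).2.2.2, dl_of_ne h1, dl_of_ne h2]
  ring

include hw

theorem w_P {ν : Λ} (hν : D.NR ν) : D.y D.r₀ (P ν) = 0 := by
  have h1 := D.w_rel hc hν
  rw [hw] at h1
  have h2 := eps_sq hc
  have h3 : ε * D.y D.r₀ (P ν) = 0 := by linarith
  exact (mul_eq_zero.mp h3).resolve_left (eps_ne hc)

theorem T_St : ∑ l, D.x l St * D.v l = -ε := by
  rw [D.T_eq hc.hne, hw, Finset.sum_congr rfl (fun l hl => by rw [y_St hc (D.mem_NRf.mp hl)]),
    ← Finset.mul_sum, D.sum_v_NR]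
  ring

theorem F_St : D.F St = 1 / (D.d St : ℚ) := by
  unfold F
  rw [T_St hc hw]
  have h2 := eps_sq hc
  have : (-ε) ^ 2 = 1 := by
    rw [neg_pow_two, pow_two]; exact h2
  rw [this]
  simp

theorem T_P' {ν : Λ} (hν : D.NR ν) : ∑ l, D.x l (P ν) * D.v l = - 2 * ε * D.v ν := by
  rw [D.T_P hc hν, w_P hc hw hν]
  ring

theorem F_P {ν : Λ} (hν : D.NR ν) : D.F (P ν) = 4 / ((D.d St + ε : ℤ) : ℚ) := by
  unfold F
  rw [T_P' hc hw hν, (hc.hP ν hν).2.2.1]
  have h2 := eps_sq hc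
  have h3 := D.sq_v ν
  have : (-2 * ε * D.v ν) ^ 2 = 4 := by
    calc (-2 * ε * D.v ν) ^ 2 = 4 * (ε * ε) * (D.v ν * D.v ν) := by ring
      _ = 4 := by rw [h2, h3]; ring
  rw [this]
  norm_num

theorem C_eq {ν : Λ} (hν : D.NR ν) :
    D.C = 1 + ε * (1 / (D.d St : ℚ)) - ε * (4 / ((D.d St + ε : ℤ) : ℚ)) := by
  have h1 := D.L' hν.1
  rw [D.sum_x_center hc hν, F_one, F_St hc hw, F_P hc hw hν] at h1
  exact h1.symm

end Center

/-- The main output of the analysis. -/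
theorem main {μ₀ : Λ} (h₀ : D.NR μ₀) :
    ∃ (St : ι) (ε r : ℤ), St ≠ D.one ∧ (ε = 1 ∨ ε = -1) ∧
      D.d St = r * (Fintype.card Λ : ℤ) + ε ∧ 0 < D.d St + ε ∧
      D.C = 1 + ε * (1 / (D.d St : ℚ)) - ε * (4 / ((D.d St + ε : ℤ) : ℚ)) ∧
      ∀ φ : ι → ℂ, (∀ μ, μ ≠ D.e → ∑ χ, (D.x μ χ : ℂ) * φ χ = 0) →
        ∑ χ, ((D.F χ : ℚ) : ℂ) * φ χ =
          φ D.one * (1 + 2 * ε * ((Fintype.card Λ : ℂ) - 1) / ((D.d St : ℂ) + ε)) +
          φ St * (1 / (D.d St : ℂ) + 2 * ((Fintype.card Λ : ℂ) - 1) / ((D.d St : ℂ) + ε)) := by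
  obtain ⟨St, ε, P, hc, hw⟩ := D.exists_center h₀
  have hεε := eps_sq hc
  have hSt := hc.hne
  set q := D.d St with hq
  have hf : 0 < q + ε := by
    have := D.dpos (P μ₀)
    rw [(hc.hP μ₀ h₀).2.2.1] at this
    exact this
  have hq0 := D.dpos St
  have hC : D.C = 1 + ε * (1 / (q : ℚ)) - ε * (4 / ((q + ε : ℤ) : ℚ)) := C_eq hc hw h₀
  have hFSt : D.F St = 1 / (q : ℚ) := F_St hc hw
  -- the X-values
  have hXSt : D.Xs St = ε * ((Fintype.card Λ : ℤ) - 1) := by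
    rw [D.Xs_eq hSt, hw, Finset.sum_congr rfl (fun l hl => y_St hc (D.mem_NRf.mp hl)), D.card_NRf]
    simp only [Finset.sum_const, nsmul_eq_mul]
    ring
  have hdeg : q = (D.n₁ St - ε) * (Fintype.card Λ : ℤ) + ε := by
    have h1 := D.deg' St
    have h2 : ∑ μ, D.x μ St = ε * ((Fintype.card Λ : ℤ) - 1) := hXSt
    rw [h2] at h1
    rw [hq, h1]
    ring
  -- the remaining two terms
  have hw2 : ∑ χ, (D.y D.r₀ χ - ε * dl St χ) ^ 2 = 2 := by
    have h1 : ∀ χ, (D.y D.r₀ χ - ε * dl St χ) ^ 2 =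
        D.y D.r₀ χ ^ 2 - 2 * ε * (dl St χ * D.y D.r₀ χ) + (ε * ε) * (dl St χ * dl St χ) := by
      intro χ
      ring
    simp only [h1, Finset.sum_add_distrib, Finset.sum_sub_distrib, ← Finset.mul_sum, sum_dl_mul,
      D.sq_y_r₀, hw, dl_self, hεε]
    nlinarith
  obtain ⟨a, b, e₁, e₂, hab, he₁, he₂, hfab⟩ := two_terms _ hw2
  have hwval : ∀ χ, D.y D.r₀ χ = ε * dl St χ + e₁ * dl a χ + e₂ * dl b χ := by
    intro χ
    have := hfab χ
    linarith
  have he₁0 : e₁ ≠ 0 := by rcases he₁ with h | h <;> rw [h] <;> norm_num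
  have he₂0 : e₂ ≠ 0 := by rcases he₂ with h | h <;> rw [h] <;> norm_num
  have hv1 : ∀ {c : ι}, (e₁ * dl a c + e₂ * dl b c = 0) → c ≠ a ∧ c ≠ b := by
    intro c h
    constructor
    · rintro rfl
      rw [dl_self, dl_of_ne hab] at h
      rcases he₁ with rfl | rfl <;> omega
    · rintro rfl
      rw [dl_self, dl_of_ne hab.symm] at h
      rcases he₂ with rfl | rfl <;> omega
  have hone : D.one ≠ a ∧ D.one ≠ b := by
    apply hv1
    have h1 := hwval D.one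
    rw [D.y_one D.r₀_ne, dl_of_ne hSt.symm] at h1
    linarith
  have hSt' : St ≠ a ∧ St ≠ b := by
    apply hv1
    have h1 := hwval St
    rw [hw, dl_self] at h1
    linarith
  have hwa : D.y D.r₀ a = e₁ := by
    rw [hwval a, dl_self, dl_of_ne hab, dl_of_ne hSt'.1.symm]
    ring
  have hwb : D.y D.r₀ b = e₂ := by
    rw [hwval b, dl_self, dl_of_ne hab.symm, dl_of_ne hSt'.2.symm]
    ring
  have hPa : ∀ ν, D.NR ν → a ≠ P ν := by
    intro ν hν h0
    have := w_P hc hw hν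
    rw [← h0, hwa] at this
    exact he₁0 this
  have hPb : ∀ ν, D.NR ν → b ≠ P ν := by
    intro ν hν h0
    have := w_P hc hw hν
    rw [← h0, hwb] at this
    exact he₂0 this
  have hτ := D.sq_v D.r₀
  -- values at `a`, `b`
  have hTgen : ∀ c : ι, c ≠ D.one → c ≠ St → (∀ ν, D.NR ν → c ≠ P ν) →
      ∑ l, D.x l c * D.v l = D.y D.r₀ c * D.v D.r₀ := by
    intro c h1 h2 h3
    rw [D.T_eq h1, Finset.sum_eq_zero, add_zero]
    intro l hl
    rw [y_P_of_ne hc (D.mem_NRf.mp hl) h2 (h3 l (D.mem_NRf.mp hl)), zero_mul]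
  have hXgen : ∀ c : ι, c ≠ D.one → c ≠ St → (∀ ν, D.NR ν → c ≠ P ν) →
      D.Xs c = D.y D.r₀ c := by
    intro c h1 h2 h3
    rw [D.Xs_eq h1, Finset.sum_eq_zero, add_zero]
    intro l hl
    exact y_P_of_ne hc (D.mem_NRf.mp hl) h2 (h3 l (D.mem_NRf.mp hl))
  have hFa : D.F a = 1 / (D.d a : ℚ) := by
    unfold F
    rw [hTgen a hone.1.symm hSt'.1.symm hPa, hwa]
    have : (e₁ * D.v D.r₀) ^ 2 = 1 := by
      have : e₁ * e₁ = 1 := by rcases he₁ with rfl | rfl <;> norm_num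
      calc (e₁ * D.v D.r₀) ^ 2 = (e₁ * e₁) * (D.v D.r₀ * D.v D.r₀) := by ring
        _ = 1 := by rw [this, hτ]; norm_num
    rw [this]
    norm_num
  have hFb : D.F b = 1 / (D.d b : ℚ) := by
    unfold F
    rw [hTgen b hone.2.symm hSt'.2.symm hPb, hwb]
    have : (e₂ * D.v D.r₀) ^ 2 = 1 := by
      have : e₂ * e₂ = 1 := by rcases he₂ with rfl | rfl <;> norm_num
      calc (e₂ * D.v D.r₀) ^ 2 = (e₂ * e₂) * (D.v D.r₀ * D.v D.r₀) := by ring
        _ = 1 := by rw [this, hτ]; norm_num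
    rw [this]
    norm_num
  -- the degree relation
  have hdeg₀ : ε * q + e₁ * D.d a + e₂ * D.d b = -1 := by
    have h1 := D.deg_y (μ := D.r₀)
    have h2 : ∀ χ, D.y D.r₀ χ * D.d χ = ε * (dl St χ * D.d χ) + e₁ * (dl a χ * D.d χ) +
        e₂ * (dl b χ * D.d χ) := by
      intro χ
      rw [hwval χ]
      ring
    simp only [h2, Finset.sum_add_distrib, ← Finset.mul_sum, sum_dl_mul] at h1
    exact h1
  -- the `L` relation at the real character
  have hL₀ : D.C = 1 + ε * (1 / (q : ℚ)) + e₁ * (1 / (D.d a : ℚ)) + e₂ * (1 / (D.d b : ℚ)) := by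
    have h1 := D.L' D.r₀_ne
    have h2 : ∀ χ, (D.x D.r₀ χ : ℚ) * D.F χ = (dl D.one χ : ℚ) * D.F χ +
        ε * ((dl St χ : ℚ) * D.F χ) + e₁ * ((dl a χ : ℚ) * D.F χ) + e₂ * ((dl b χ : ℚ) * D.F χ) := by
      intro χ
      have h3 : D.x D.r₀ χ = dl D.one χ + D.y D.r₀ χ := by simp [y]
      rw [h3, hwval χ]
      push_cast
      ring
    simp only [h2, Finset.sum_add_distrib, ← Finset.mul_sum, sum_dl_mul_q] at h1
    rw [F_one, hFSt, hFa, hFb] at h1
    exact h1.symm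
  -- so the two degrees are half of `f`
  have hq' : (q : ℚ) ≠ 0 := by exact_mod_cast hq0.ne'
  have hfq : ((q + ε : ℤ) : ℚ) ≠ 0 := by exact_mod_cast hf.ne'
  obtain ⟨h1e, h2e, hda, hdb⟩ := two_degrees (D.d a) (D.d b) (q + ε) e₁ e₂ ε (D.dpos a) (D.dpos b) hf
    he₁ he₂ hc.he (by
      have : -ε * (q + ε) = -(ε * q) - ε * ε := by ring
      rw [this, hεε]
      linarith) (by
      have h3 : (e₁ : ℚ) * (1 / (D.d a : ℚ)) + (e₂ : ℚ) * (1 / (D.d b : ℚ)) =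
          - (ε * (4 / ((q + ε : ℤ) : ℚ))) := by
        rw [hC] at hL₀
        linarith
      rw [h3]
      ring)
  -- the key uniform formula
  have hkey : ∀ χ, χ ≠ D.one → χ ≠ St →
      D.F χ + 2 * ε / ((q + ε : ℤ) : ℚ) * (D.Xs χ : ℚ) = 0 := by
    intro χ h1 h2
    by_cases h3 : ∃ ν, D.NR ν ∧ χ = P ν
    · obtain ⟨ν, hν, rfl⟩ := h3
      have hFP : D.F (P ν) = 4 / ((q + ε : ℤ) : ℚ) := F_P hc hw hν
      rw [hFP]
      have hX : D.Xs (P ν) = -2 * ε := by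
        rw [D.Xs_eq h1, w_P hc hw hν, zero_add]
        have h4 : ∀ l ∈ D.NRf, D.y l (P ν) = -ε * (dl (P l) (P ν) * 1) := by
          intro l hl
          rw [(hc.hP l (D.mem_NRf.mp hl)).2.2.2, dl_of_ne h2]
          ring
        rw [Finset.sum_congr rfl h4, ← Finset.mul_sum, D.sum_NR_dl_P hc hν (fun _ => 1)]
        ring
      rw [hX]
      have hεq : (ε : ℚ) * ε = 1 := by exact_mod_cast hεε
      push_cast
      rw [show (4 : ℚ) / ((q : ℚ) + ε) + 2 * ε / ((q : ℚ) + ε) * (-2 * ε) =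
        (4 - 4 * ((ε : ℚ) * ε)) / ((q : ℚ) + ε) by ring, hεq]
      simp
    · push Not at h3
      by_cases h4 : χ = a
      · subst h4
        rw [hFa, hXgen χ h1 h2 hPa, hwa, h1e]
        have h5 : (D.d χ : ℚ) = ((q + ε : ℤ) : ℚ) / 2 := by
          rw [← hda]; push_cast; ring
        rw [h5]
        have hεq : (ε : ℚ) * ε = 1 := by exact_mod_cast hεε
        push_cast at hfq ⊢
        rw [show (1 : ℚ) / (((q : ℚ) + ε) / 2) = 2 / ((q : ℚ) + ε) by field_simp]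
        rw [show (2 : ℚ) / ((q : ℚ) + ε) + 2 * ε / ((q : ℚ) + ε) * (-ε) =
          (2 - 2 * ((ε : ℚ) * ε)) / ((q : ℚ) + ε) by ring, hεq]
        simp
      by_cases h5 : χ = b
      · subst h5
        rw [hFb, hXgen χ h1 h2 hPb, hwb, h2e]
        have h5 : (D.d χ : ℚ) = ((q + ε : ℤ) : ℚ) / 2 := by
          rw [← hdb]; push_cast; ring
        rw [h5]
        have hεq : (ε : ℚ) * ε = 1 := by exact_mod_cast hεε
        push_cast at hfq ⊢
        rw [show (1 : ℚ) / (((q : ℚ) + ε) / 2) = 2 / ((q : ℚ) + ε) by field_simp]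
        rw [show (2 : ℚ) / ((q : ℚ) + ε) + 2 * ε / ((q : ℚ) + ε) * (-ε) =
          (2 - 2 * ((ε : ℚ) * ε)) / ((q : ℚ) + ε) by ring, hεq]
        simp
      · have h6 : D.y D.r₀ χ = 0 := by
          rw [hwval χ, dl_of_ne h2, dl_of_ne h4, dl_of_ne h5]
          ring
        have h7 : D.F χ = 0 := by
          unfold F
          rw [hTgen χ h1 h2 h3, h6]
          simp
        rw [h7, hXgen χ h1 h2 h3, h6]
        simp
  refine ⟨St, ε, D.n₁ St - ε, hSt, hc.he, hdeg, hf, hC, ?_⟩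
  intro φ hφ
  -- sum of `Xs χ φ χ` vanishes
  have hX0 : ∑ χ, (D.Xs χ : ℂ) * φ χ = 0 := by
    have h1 : ∀ χ, (D.Xs χ : ℂ) * φ χ = ∑ l, (D.x l χ : ℂ) * φ χ := by
      intro χ
      unfold Xs
      push_cast
      rw [Finset.sum_mul]
    simp only [h1]
    rw [Finset.sum_comm]
    refine Finset.sum_eq_zero fun l _ => ?_
    by_cases hl : l = D.e
    · subst hl
      simp [D.x_e]
    · exact hφ l hl
  have hqc : (q : ℂ) ≠ 0 := by exact_mod_cast hq0.ne'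
  have hfc : ((q : ℂ) + ε) ≠ 0 := by
    have : ((q + ε : ℤ) : ℂ) ≠ 0 := by exact_mod_cast hf.ne'
    simpa using this
  have hεc : (ε : ℂ) * ε = 1 := by exact_mod_cast hεε
  -- the function `H`
  set H : ι → ℂ := fun χ => ((D.F χ : ℚ) : ℂ) + 2 * ε / ((q : ℂ) + ε) * (D.Xs χ : ℂ) with hH
  have hH0 : ∀ χ, χ ≠ D.one → χ ≠ St → H χ = 0 := by
    intro χ h1 h2
    have := hkey χ h1 h2
    have h3 : (((D.F χ + 2 * ε / ((q + ε : ℤ) : ℚ) * (D.Xs χ : ℚ) : ℚ)) : ℂ) = 0 := by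
      rw [this]; simp
    push_cast at h3
    exact h3
  have hsum : ∑ χ, H χ * φ χ = H D.one * φ D.one + H St * φ St := by
    have hsub : ({D.one, St} : Finset ι) ⊆ univ := subset_univ _
    rw [← Finset.sum_subset hsub, Finset.sum_pair hSt.symm]
    intro χ _ hχ
    simp only [mem_insert, mem_singleton, not_or] at hχ
    rw [hH0 χ hχ.1 hχ.2, zero_mul]
  have hexp : ∑ χ, H χ * φ χ = ∑ χ, ((D.F χ : ℚ) : ℂ) * φ χ := by
    have h1 : ∀ χ, H χ * φ χ = ((D.F χ : ℚ) : ℂ) * φ χ +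
        2 * ε / ((q : ℂ) + ε) * ((D.Xs χ : ℂ) * φ χ) := by
      intro χ
      simp only [hH]
      ring
    simp only [h1, Finset.sum_add_distrib, ← Finset.mul_sum, hX0, mul_zero, add_zero]
  rw [← hexp, hsum]
  simp only [hH]
  rw [D.F_one, hFSt, D.Xs_one, hXSt]
  push_cast
  have h6 : 2 * (ε : ℂ) / ((q : ℂ) + ε) * ((ε : ℂ) * ((Fintype.card Λ : ℂ) - 1)) =
      2 * ((Fintype.card Λ : ℂ) - 1) / ((q : ℂ) + ε) := by
    rw [show 2 * (ε : ℂ) / ((q : ℂ) + ε) * ((ε : ℂ) * ((Fintype.card Λ : ℂ) - 1)) =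
      2 * ((ε : ℂ) * ε) * ((Fintype.card Λ : ℂ) - 1) / ((q : ℂ) + ε) by ring, hεc]
    ring
  rw [h6]
  ring

end GD

end Cfsg.Agent.Lib.BSW
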