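import Cfsg.Agent.Lib.BSW.CharA
import Cfsg.Agent.Lib.BSW.Gram2

/-!
# Abstract Brauer–Suzuki–Wall: the character-theoretic input
-/

set_option autoImplicit false
set_option linter.unusedSectionVars false
set_option linter.unusedVariables false
set_option linter.unusedSimpArgs false
set_option linter.unnecessarySimpa false

open scoped ComplexConjugate

namespace Cfsg.Agent.Lib.BSW

open Classical Finset
open Cfsg (classInner IsCharacter IsIrrCharacter IrrCharacter IsClassFunction indFun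
  extendByZero charDegree IsGeneralizedCharacter)
open Cfsg.Agent.Lib.Char

universe u

/-- The numerical consequence. -/
theorem bsw_numeric (k m q ε r : ℤ) (hk : 4 ≤ k) (hm : Odd m) (hmpos : 0 < m)
    (hε : ε = 1 ∨ ε = -1) (hq : q = r * k + ε) (hq0 : 0 < q) (hf : 0 < q + ε)
    (hC : (2 * (k : ℚ) ^ 2 / (m : ℚ)) = 1 + ε * (1 / (q : ℚ)) - ε * (4 / ((q + ε : ℤ) : ℚ))) :
    r = 2 ∧ m = (2 * k + ε) * (k + ε) := by
  have hεε : ε * ε = 1 := by rcases hε with h | h <;> rw [h] <;> norm_num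
  have hk0 : k ≠ 0 := by omega
  have hq' : (q : ℚ) ≠ 0 := by exact_mod_cast hq0.ne'
  have hf' : ((q : ℚ) + ε) ≠ 0 := by
    have : ((q + ε : ℤ) : ℚ) ≠ 0 := by exact_mod_cast hf.ne'
    simpa using this
  have hm' : (m : ℚ) ≠ 0 := by exact_mod_cast hmpos.ne'
  have hεq : (ε : ℚ) * ε = 1 := by exact_mod_cast hεε
  have h1 : 2 * k ^ 2 * (q * (q + ε)) = m * (q - ε) ^ 2 := by
    have : 2 * (k : ℚ) ^ 2 * (q * (q + ε)) = m * (q - ε) ^ 2 := by
      push_cast at hC
      field_simp at hC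
      have e : ((q : ℚ) - ε) ^ 2 = q * (q + ε) + ε * (q + ε) - 4 * ε * q := by
        have : ((q : ℚ) - ε) ^ 2 = q ^ 2 - 2 * q * ε + ε * ε := by ring
        rw [this, hεq]
        have : (ε : ℚ) * (q + ε) = ε * q + ε * ε := by ring
        rw [this, hεq]
        ring
      rw [e]
      linarith
    exact_mod_cast this
  have h2 : q - ε = r * k := by rw [hq]; ring
  rw [h2] at h1
  have h3 : 2 * (q * (q + ε)) = m * r ^ 2 := by
    have : k ^ 2 * (2 * (q * (q + ε))) = k ^ 2 * (m * r ^ 2) := by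
      calc k ^ 2 * (2 * (q * (q + ε))) = 2 * k ^ 2 * (q * (q + ε)) := by ring
        _ = m * (r * k) ^ 2 := h1
        _ = _ := by ring
    exact mul_left_cancel₀ (pow_ne_zero 2 hk0) this
  have h4 : r * (m * r - 2 * r * k ^ 2 - 6 * ε * k) = 4 := by
    rw [hq] at h3
    have e : 2 * ((r * k + ε) * (r * k + ε + ε)) =
        2 * r ^ 2 * k ^ 2 + 6 * ε * r * k + 4 * (ε * ε) := by ring
    rw [e, hεε] at h3
    linear_combination -h3
  have hrpos : 0 < r := by
    by_contra hc
    push Not at hc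
    have : r * k ≤ -k + 0 ∨ r = 0 := by
      rcases hc.lt_or_eq with h | h
      · left; nlinarith
      · right; exact h
    rcases this with h | h
    · rcases hε with rfl | rfl <;> omega
    · rw [h] at h4
      simp at h4
  have hrdvd : r ∣ 4 := ⟨_, h4.symm⟩
  have hrle : r ≤ 4 := Int.le_of_dvd (by norm_num) hrdvd
  rw [hq] at h3
  rcases hm with ⟨c, hc⟩
  interval_cases r
  · exfalso
    have e : 2 * ((1 * k + ε) * (1 * k + ε + ε)) = 2 * (k * k + 3 * (ε * k) + 2 * (ε * ε)) := by ring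
    rw [e, hεε] at h3
    omega
  · refine ⟨rfl, ?_⟩
    have e : 2 * ((2 * k + ε) * (2 * k + ε + ε)) = 4 * ((2 * k + ε) * (k + ε)) := by ring
    rw [e] at h3
    linarith
  · exfalso
    norm_num at hrdvd
  · exfalso
    have e : 2 * ((4 * k + ε) * (4 * k + ε + ε)) = 4 * (8 * (k * k) + 6 * (ε * k) + ε * ε) := by ring
    rw [e, hεε] at h3
    omega

variable {G : Type u} [Group G] [Fintype G]

/-- The principal character. -/
noncomputable def oneG (G : Type u) [Group G] [Fintype G] : IrrCharacter G := ⟨fun _ => 1, isIrrCharacter_one⟩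

/-- The degree of an irreducible character as an integer. -/
noncomputable def dd (χ : IrrCharacter G) : ℤ := (charDegree χ.1 : ℕ)

theorem dd_spec (χ : IrrCharacter G) : χ.1 1 = (dd χ : ℂ) := by
  rw [map_one_eq_charDegree (IsIrrCharacter.isCharacter χ.2)]
  simp [dd]

theorem dd_pos (χ : IrrCharacter G) : 0 < dd χ := by
  have := charDegree_pos_of_irr χ.2
  unfold dd
  exact_mod_cast this

theorem dd_one : dd (oneG G) = 1 := by
  have h := dd_spec (oneG G)
  have h1 : (oneG G).1 1 = 1 := rfl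
  rw [h1] at h
  exact_mod_cast h.symm

namespace Setup

variable (S : Setup G) [Fintype S.K]

theorem exists_xx (μ : IrrCharacter S.K) (χ : IrrCharacter G) :
    ∃ n : ℤ, classInner (S.EE μ.1) χ.1 = n :=
  classInner_isGeneralized_int (S.EE_gen μ)
    (IsGeneralizedCharacter.of_isCharacter (IsIrrCharacter.isCharacter χ.2))

/-- The coefficients of `I₁ - I_μ`. -/
noncomputable def xx (μ : IrrCharacter S.K) (χ : IrrCharacter G) : ℤ := (S.exists_xx μ χ).choose

theorem xx_spec (μ : IrrCharacter S.K) (χ : IrrCharacter G) :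
    classInner (S.EE μ.1) χ.1 = (S.xx μ χ : ℂ) := (S.exists_xx μ χ).choose_spec

theorem EE_expand (μ : IrrCharacter S.K) (g : G) :
    S.EE μ.1 g = ∑ χ : IrrCharacter G, (S.xx μ χ : ℂ) * χ.1 g := by
  have h := classFunction_eq_sum (S.EE μ.1) (S.EE_class μ.1)
  conv_lhs => rw [h]
  simp only [Finset.sum_apply, Pi.smul_apply, smul_eq_mul, S.xx_spec]

theorem gram_xx {μ ν : IrrCharacter S.K} (hμ : μ ≠ S.ee) (hν : ν ≠ S.ee) :
    ∑ χ : IrrCharacter G, S.xx μ χ * S.xx ν χ =
      2 + (if μ = ν then 1 else 0) + (if μ = S.bar ν then 1 else 0) := by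
  have h := classInner_eq_sum (S.EE μ.1) (S.EE ν.1) (S.EE_class _) (S.EE_class _)
  rw [S.inner_EE_EE hμ hν] at h
  simp only [S.xx_spec, map_intCast] at h
  have h2 : ((∑ χ : IrrCharacter G, S.xx μ χ * S.xx ν χ : ℤ) : ℂ) =
      ((2 + (if μ = ν then 1 else 0) + (if μ = S.bar ν then 1 else 0) : ℤ) : ℂ) := by
    push_cast
    rw [← h]
  exact_mod_cast h2

theorem xx_one {μ : IrrCharacter S.K} (hμ : μ ≠ S.ee) : S.xx μ (oneG G) = 1 := by
  have h := S.xx_spec μ (oneG G)
  have h1 : classInner (S.EE μ.1) (oneG G).1 = 1 := S.inner_EE_one hμ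
  rw [h1] at h
  exact_mod_cast h.symm

theorem xx_ee (χ : IrrCharacter G) : S.xx S.ee χ = 0 := by
  have h := S.xx_spec S.ee χ
  rw [S.EE_ee, classInner_zero_left] at h
  exact_mod_cast h.symm

theorem xx_bar (μ : IrrCharacter S.K) (χ : IrrCharacter G) : S.xx (S.bar μ) χ = S.xx μ χ := by
  have h := S.xx_spec (S.bar μ) χ
  rw [S.EE_bar, S.xx_spec] at h
  exact_mod_cast h.symm

theorem deg_xx (μ : IrrCharacter S.K) : ∑ χ : IrrCharacter G, S.xx μ χ * dd χ = 0 := by
  have h := S.EE_expand μ 1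
  rw [S.EE_one] at h
  simp only [dd_spec] at h
  exact_mod_cast h.symm

/-! ### Values at `t` -/

/-- `t` as an element of `K`. -/
def tt : S.K := ⟨S.t, S.htK⟩

theorem tt_sq : S.tt * S.tt = 1 := Subtype.ext (mul_self_of_two S.ht)

theorem tt_ne : S.tt ≠ 1 := fun h => S.t_ne_one (congrArg Subtype.val h)

theorem val_t (μ : IrrCharacter S.K) : μ.1 S.tt = 1 ∨ μ.1 S.tt = -1 := by
  have h := S.irr_mul μ S.tt S.tt
  rw [S.tt_sq, S.irr_one] at h
  have h2 : (μ.1 S.tt - 1) * (μ.1 S.tt + 1) = 0 := by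
    linear_combination -h
  rcases mul_eq_zero.mp h2 with h3 | h3
  · left; linear_combination h3
  · right; linear_combination h3

/-- The value of `μ` at `t`, as an integer. -/
noncomputable def vv (μ : IrrCharacter S.K) : ℤ := if μ.1 S.tt = 1 then 1 else -1

theorem vv_spec (μ : IrrCharacter S.K) : μ.1 S.tt = (S.vv μ : ℂ) := by
  unfold vv
  split_ifs with h
  · rw [h]; simp
  · rcases S.val_t μ with h1 | h1
    · exact absurd h1 h
    · rw [h1]; simp

theorem vv_sq (μ : IrrCharacter S.K) : S.vv μ = 1 ∨ S.vv μ = -1 := by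
  unfold vv
  split_ifs <;> simp

theorem vv_ee : S.vv S.ee = 1 := by
  unfold vv
  exact if_pos rfl

theorem vv_bar (μ : IrrCharacter S.K) : S.vv (S.bar μ) = S.vv μ := by
  have h : (S.bar μ).1 S.tt = μ.1 S.tt := by
    rw [S.bar_apply, inv_eq_of_mul_eq_one_left S.tt_sq]
  unfold vv
  rw [h]

theorem sum_irr_apply {a : S.K} (ha : a ≠ 1) : ∑ μ : IrrCharacter S.K, μ.1 a = 0 := by
  have h := second_orthogonality a (1 : S.K)
  have hnc : ¬ IsConj a (1 : S.K) := fun h0 => ha (isConj_one_right.mp h0.symm)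
  rw [if_neg hnc] at h
  have h1 : ∀ μ : IrrCharacter S.K, μ.1 a * conj (μ.1 1) = μ.1 a := by
    intro μ
    rw [S.irr_one]
    simp
  simpa [h1] using h

theorem sum_vv : ∑ μ : IrrCharacter S.K, S.vv μ = 0 := by
  have h := S.sum_irr_apply S.tt_ne
  simp only [vv_spec] at h
  exact_mod_cast h

theorem card_irr : Fintype.card (IrrCharacter S.K) = Nat.card S.K := by
  have h := sum_degree_sq (G := S.K)
  simp only [S.irr_one, one_pow] at h
  rw [Finset.sum_const, card_univ, nsmul_eq_mul, mul_one] at h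
  exact_mod_cast h

/-- The number of involutions in `K` and one. -/
theorem card_sq_one : (univ.filter fun a : S.K => a * a = 1).card = 2 := by
  have h : (univ.filter fun a : S.K => a * a = 1) = {1, S.tt} := by
    ext a
    simp only [mem_filter, mem_univ, true_and, mem_insert, mem_singleton]
    constructor
    · intro h
      by_cases h1 : a = 1
      · exact Or.inl h1
      · right
        apply Subtype.ext
        have h2 : orderOf (a : G) = 2 := by
          rw [Subgroup.orderOf_coe]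
          exact two_of_mul_self h h1
        exact S.eq_of_two_mem a.2 h2
    · rintro (rfl | rfl)
      · simp
      · exact S.tt_sq
  rw [h, card_pair (Ne.symm S.tt_ne)]

theorem card_real : (univ.filter fun μ : IrrCharacter S.K => S.bar μ = μ).card = 2 := by
  have hk : (Nat.card S.K : ℂ) ≠ 0 := card_subgroup_ne_zero S.K
  have h1 : ∀ μ : IrrCharacter S.K, (if S.bar μ = μ then (1 : ℂ) else 0) =
      (Nat.card S.K : ℂ)⁻¹ * ∑ a : S.K, μ.1 (a * a) := by
    intro μ
    have h2 := classInner_irr μ.2 (S.bar μ).2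
    rw [classInner_def] at h2
    have h3 : ∀ a : S.K, μ.1 a * conj ((S.bar μ).1 a) = μ.1 (a * a) := by
      intro a
      rw [S.irr_conj, S.bar_apply, inv_inv, S.irr_mul]
    simp only [h3] at h2
    rw [h2]
    by_cases h4 : S.bar μ = μ
    · rw [if_pos h4, if_pos (by rw [h4])]
    · rw [if_neg h4, if_neg (fun h5 => h4 (Subtype.ext h5.symm))]
  have h2 : ∀ a : S.K, ∑ μ : IrrCharacter S.K, μ.1 (a * a) =
      if a * a = 1 then (Nat.card S.K : ℂ) else 0 := by
    intro a
    by_cases ha : a * a = 1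
    · rw [if_pos ha, ha]
      simp only [S.irr_one, Finset.sum_const, card_univ, nsmul_eq_mul, mul_one, S.card_irr]
    · rw [if_neg ha]
      exact S.sum_irr_apply ha
  have h3 : (((univ.filter fun μ : IrrCharacter S.K => S.bar μ = μ).card : ℕ) : ℂ) = 2 := by
    rw [Finset.card_filter]
    push_cast
    simp only [h1]
    rw [← Finset.mul_sum, Finset.sum_comm, Finset.sum_congr rfl (fun a _ => h2 a)]
    rw [← Finset.sum_filter, Finset.sum_const, S.card_sq_one]
    simp only [nsmul_eq_mul]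
    field_simp
    norm_num
  exact_mod_cast h3

theorem exists_r₀ : ∃ r₀ : IrrCharacter S.K, r₀ ≠ S.ee ∧ S.bar r₀ = r₀ ∧
    ∀ μ, S.bar μ = μ → μ = S.ee ∨ μ = r₀ := by
  obtain ⟨a, b, hab, h⟩ := Finset.card_eq_two.mp S.card_real
  have hmem : ∀ μ, S.bar μ = μ ↔ μ = a ∨ μ = b := by
    intro μ
    have : μ ∈ (univ.filter fun μ : IrrCharacter S.K => S.bar μ = μ) ↔ μ ∈ ({a, b} : Finset _) := by
      rw [h]
    simpa using this
  have hee := (hmem S.ee).mp S.bar_ee
  rcases hee with h1 | h1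
  · refine ⟨b, ?_, (hmem b).mpr (Or.inr rfl), ?_⟩
    · rw [h1]; exact hab.symm
    · intro μ hμ
      rcases (hmem μ).mp hμ with h2 | h2
      · left; rw [h2, h1]
      · right; exact h2
  · refine ⟨a, ?_, (hmem a).mpr (Or.inl rfl), ?_⟩
    · rw [h1]; exact hab
    · intro μ hμ
      rcases (hmem μ).mp hμ with h2 | h2
      · right; exact h2
      · left; rw [h2, h1]

/-! ### Restriction to `K` -/

theorem exists_n₁ (χ : IrrCharacter G) : ∃ n : ℤ, classInner (indFun S.K (fun _ => (1 : ℂ))) χ.1 = n := by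
  refine classInner_isGeneralized_int ?_ (IsGeneralizedCharacter.of_isCharacter (IsIrrCharacter.isCharacter χ.2))
  exact IsGeneralizedCharacter.of_isCharacter
    (indFun_isCharacter S.K (IsIrrCharacter.isCharacter (isIrrCharacter_one (G := S.K))))

/-- The multiplicity of the principal character of `K`. -/
noncomputable def nn (χ : IrrCharacter G) : ℤ := (S.exists_n₁ χ).choose

theorem nn_spec (χ : IrrCharacter G) :
    classInner (indFun S.K (fun _ => (1 : ℂ))) χ.1 = (S.nn χ : ℂ) := (S.exists_n₁ χ).choose_spec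

theorem restrict_expand (χ : IrrCharacter G) (a : S.K) :
    χ.1 a = ∑ μ : IrrCharacter S.K, ((S.nn χ - S.xx μ χ : ℤ) : ℂ) * μ.1 a := by
  have hcl : IsClassFunction S.K (fun a : S.K => χ.1 a) :=
    IsCharacter.isClassFunction (IsCharacter.restrict S.K (IsIrrCharacter.isCharacter χ.2))
  have h := classFunction_eq_sum (fun a : S.K => χ.1 a) hcl
  have h1 := congrFun h a
  simp only [Finset.sum_apply, Pi.smul_apply, smul_eq_mul] at h1
  rw [h1]
  refine Finset.sum_congr rfl fun μ _ => ?_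
  congr 1
  have h2 : classInner (indFun S.K μ.1) χ.1 = ((S.nn χ - S.xx μ χ : ℤ) : ℂ) := by
    have h3 := S.xx_spec μ χ
    unfold EE at h3
    rw [classInner_sub_left, S.nn_spec] at h3
    push_cast
    rw [← h3]
    ring
  rw [← conj_classInner, ← frobenius_reciprocity S.K μ.1 _ (IsCharacter.isClassFunction (IsIrrCharacter.isCharacter χ.2)), h2,
    map_intCast]

/-- The integer `-χ(t)`. -/
noncomputable def TT' (χ : IrrCharacter G) : ℤ := ∑ ν, S.xx ν χ * S.vv ν

theorem val_t_eq (χ : IrrCharacter G) : χ.1 S.t = -(S.TT' χ : ℂ) := by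
  have h := S.restrict_expand χ S.tt
  have e : ((S.tt : S.K) : G) = S.t := rfl
  rw [e] at h
  rw [h]
  simp only [vv_spec]
  have h2 : ((∑ μ : IrrCharacter S.K, (S.nn χ - S.xx μ χ) * S.vv μ : ℤ)) = - S.TT' χ := by
    unfold TT'
    simp only [sub_mul, Finset.sum_sub_distrib, ← Finset.mul_sum, S.sum_vv]
    ring
  have h3 := congrArg (Int.cast : ℤ → ℂ) h2
  push_cast at h3 ⊢
  exact h3

theorem deg_eq (χ : IrrCharacter G) :
    dd χ = S.nn χ * (Fintype.card (IrrCharacter S.K) : ℤ) - ∑ μ, S.xx μ χ := by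
  have h := S.restrict_expand χ 1
  simp only [Subgroup.coe_one, S.irr_one, mul_one, dd_spec] at h
  have h2 : ∑ μ : IrrCharacter S.K, (S.nn χ - S.xx μ χ) =
      S.nn χ * (Fintype.card (IrrCharacter S.K) : ℤ) - ∑ μ, S.xx μ χ := by
    rw [Finset.sum_sub_distrib, Finset.sum_const, card_univ, nsmul_eq_mul]
    ring
  rw [← h2]
  exact_mod_cast h

/-! ### The class function `BB` and characters -/

/-- The function `BB` with complex values. -/
noncomputable def BBc (g : G) : ℂ := (BB g : ℂ)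

theorem BBc_class : IsClassFunction G (BBc (G := G)) := by
  intro g h
  unfold BBc
  rw [BB_conj]

theorem sum_invs_char (χ : IrrCharacter G) :
    ∑ x ∈ Invs G, ∑ y ∈ Invs G, χ.1 (x * y) = (mm G : ℂ) ^ 2 * (χ.1 S.t) ^ 2 / χ.1 1 := by
  obtain ⟨χ, hχ⟩ := χ
  have hne := map_one_ne_zero_of_irr hχ
  obtain ⟨n, ρ, hρ, rfl⟩ := hχ
  have hsc := classSum_eq_scalar ρ hρ S.t
  have h1 : ρ.character 1 = (Module.finrank ℂ (Fin n → ℂ) : ℂ) := Representation.char_one ρ
  rw [← h1] at hsc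
  have hidx : (Subgroup.centralizer ({S.t} : Set G)).index = mm G := by
    rw [mm, S.Invs_eq, card_filter_isConj]
  rw [hidx] at hsc
  have hT : ∑ x ∈ Invs G, ρ x = ((mm G : ℂ) * ρ.character S.t / ρ.character 1) • (1 : Module.End ℂ (Fin n → ℂ)) := by
    rw [← hsc, S.Invs_eq, Finset.sum_filter]
    refine Finset.sum_congr rfl fun y _ => ?_
    split_ifs <;> simp
  have hT2 : (∑ x ∈ Invs G, ρ x) * (∑ y ∈ Invs G, ρ y) =
      ∑ x ∈ Invs G, ∑ y ∈ Invs G, ρ (x * y) := by
    rw [Finset.sum_mul_sum]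
    simp only [map_mul]
  have h3 := congrArg (LinearMap.trace ℂ (Fin n → ℂ)) hT2
  rw [hT, smul_mul_smul_comm, map_smul, mul_one, LinearMap.trace_one] at h3
  simp only [map_sum] at h3
  have h4 : ∑ x ∈ Invs G, ∑ y ∈ Invs G, ρ.character (x * y) =
      ∑ x ∈ Invs G, ∑ y ∈ Invs G, LinearMap.trace ℂ (Fin n → ℂ) (ρ (x * y)) := rfl
  rw [h4, ← h3, smul_eq_mul, ← h1]
  field_simp

theorem sum_BB_conj (χ : IrrCharacter G) :
    ∑ g : G, (BB g : ℂ) * conj (χ.1 g) = ∑ x ∈ Invs G, ∑ y ∈ Invs G, conj (χ.1 (x * y)) := by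
  have h1 : ∀ g : G, (BB g : ℂ) * conj (χ.1 g) =
      ∑ x ∈ Invs G, (if orderOf (x * g) = 2 then conj (χ.1 g) else 0) := by
    intro g
    unfold BB
    rw [Finset.card_filter]
    push_cast
    rw [Finset.sum_mul]
    refine Finset.sum_congr rfl fun x _ => ?_
    split_ifs <;> simp
  simp only [h1]
  rw [Finset.sum_comm]
  refine Finset.sum_congr rfl fun x hx => ?_
  have hxx := mul_self_of_two (mem_Invs.mp hx)
  have h2 := Equiv.sum_comp (Equiv.mulLeft x)
    (fun y : G => if orderOf y = 2 then conj (χ.1 (x * y)) else 0)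
  have h3 : ∑ y ∈ Invs G, conj (χ.1 (x * y)) =
      ∑ y : G, (if orderOf y = 2 then conj (χ.1 (x * y)) else 0) := by
    unfold Invs
    rw [Finset.sum_filter]
  rw [h3, ← h2]
  refine Finset.sum_congr rfl fun g _ => ?_
  simp only [Equiv.coe_mulLeft]
  have : x * (x * g) = g := by rw [← mul_assoc, hxx, one_mul]
  rw [this]
  by_cases hc : orderOf (x * g) = 2 <;> simp [hc]

theorem inner_BB (χ : IrrCharacter G) :
    classInner BBc χ.1 = (Nat.card G : ℂ)⁻¹ * ((mm G : ℂ) ^ 2 * ((S.TT' χ ^ 2 : ℤ) : ℂ) / (dd χ : ℂ)) := by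
  rw [classInner_def]
  congr 1
  have h1 : ∑ g : G, BBc g * conj (χ.1 g) = ∑ g : G, (BB g : ℂ) * conj (χ.1 g) := rfl
  rw [h1, sum_BB_conj]
  have h2 : ∑ x ∈ Invs G, ∑ y ∈ Invs G, conj (χ.1 (x * y)) =
      conj (∑ x ∈ Invs G, ∑ y ∈ Invs G, χ.1 (x * y)) := by
    simp only [map_sum]
  rw [h2, S.sum_invs_char, S.val_t_eq, dd_spec]
  simp only [map_div₀, map_mul, map_pow, map_neg, map_natCast, map_intCast]
  push_cast
  ring

theorem inner_BB_EE {μ : IrrCharacter S.K} (hμ : μ ≠ S.ee) :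
    classInner BBc (S.EE μ.1) = (Nat.card S.K : ℂ) := by
  have h1 : ∀ g : G, BBc g * conj (S.EE μ.1 g) = (Nat.card S.K : ℂ) * conj (S.EE μ.1 g) := by
    intro g
    by_cases hg : S.IsA g
    · rw [S.EE_A _ hg]
      simp
    by_cases h1 : g = 1
    · subst h1
      rw [S.EE_one]
      simp
    · have hT : g ∈ S.TT := by
        simp only [TT, mem_filter, mem_univ, true_and]
        exact ⟨h1, hg⟩
      unfold BBc
      rw [S.BB_TT hT]
  rw [classInner_def]
  simp only [h1]
  rw [← Finset.mul_sum]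
  have h2 := S.inner_EE_one hμ
  have h3 : classInner (fun _ : G => (1 : ℂ)) (S.EE μ.1) = 1 := by
    rw [← conj_classInner, h2]
    simp
  rw [classInner_def] at h3
  simp only [one_mul] at h3
  calc (Nat.card G : ℂ)⁻¹ * ((Nat.card S.K : ℂ) * ∑ g, conj (S.EE μ.1 g))
      = (Nat.card S.K : ℂ) * ((Nat.card G : ℂ)⁻¹ * ∑ g, conj (S.EE μ.1 g)) := by ring
    _ = _ := by rw [h3, mul_one]

/-- The `L`-formula. -/
theorem L_formula {μ : IrrCharacter S.K} (hμ : μ ≠ S.ee) :
    ∑ χ : IrrCharacter G, (S.xx μ χ : ℂ) * (((S.TT' χ ^ 2 : ℤ) : ℂ) / (dd χ : ℂ)) =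
      2 * (Nat.card S.K : ℂ) ^ 2 / (mm G : ℂ) := by
  have h := classInner_eq_sum BBc (S.EE μ.1) BBc_class (S.EE_class _)
  rw [S.inner_BB_EE hμ] at h
  simp only [S.inner_BB, S.xx_spec, map_intCast] at h
  have hm : (mm G : ℂ) ≠ 0 := by exact_mod_cast S.mm_pos.ne'
  have hk : (Nat.card S.K : ℂ) ≠ 0 := card_subgroup_ne_zero S.K
  have hG : (Nat.card G : ℂ) = 2 * (Nat.card S.K : ℂ) * (mm G : ℂ) := by
    rw [Nat.card_eq_fintype_card, S.card_G]
    push_cast
    ring
  rw [hG] at h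
  have h2 : (Nat.card S.K : ℂ) = (mm G : ℂ) / (2 * (Nat.card S.K : ℂ)) *
      ∑ χ : IrrCharacter G, (S.xx μ χ : ℂ) * (((S.TT' χ ^ 2 : ℤ) : ℂ) / (dd χ : ℂ)) := by
    conv_lhs => rw [h]
    rw [Finset.mul_sum]
    refine Finset.sum_congr rfl fun χ _ => ?_
    field_simp
  rw [eq_div_iff hm]
  generalize (∑ χ : IrrCharacter G, (S.xx μ χ : ℂ) * (((S.TT' χ ^ 2 : ℤ) : ℂ) / (dd χ : ℂ))) = Z at h2 ⊢
  have h3 : (Nat.card S.K : ℂ) * (2 * (Nat.card S.K : ℂ)) = (mm G : ℂ) * Z := by
    calc (Nat.card S.K : ℂ) * (2 * (Nat.card S.K : ℂ))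
        = ((mm G : ℂ) / (2 * (Nat.card S.K : ℂ)) * Z) * (2 * (Nat.card S.K : ℂ)) := by rw [← h2]
      _ = _ := by field_simp
  linear_combination -h3

end Setup

end Cfsg.Agent.Lib.BSW
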