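import Cfsg.Agent.Lib.BSW.CharB

/-!
# Abstract Brauer–Suzuki–Wall: the output of the character theory
-/

set_option autoImplicit false
set_option linter.unusedSectionVars false
set_option linter.unusedVariables false
set_option linter.unusedSimpArgs false
set_option linter.unnecessarySimpa false

open scoped ComplexConjugate

namespace Cfsg.Agent.Lib.BSW

open Classical Finset
open Cfsg (classInner IsCharacter IsIrrCharacter IrrCharacter IsClassFunction indFun
  extendByZero charDegree IsGeneralizedCharacter)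
open Cfsg.Agent.Lib.Char

universe u

variable {G : Type u} [Group G] [Fintype G]

namespace Setup

variable (S : Setup G) [Fintype S.K]

/-- The combinatorial data of the configuration. -/
noncomputable def gd (r₀ : IrrCharacter S.K) (h1 : r₀ ≠ S.ee) (h2 : S.bar r₀ = r₀)
    (h3 : ∀ μ, S.bar μ = μ → μ = S.ee ∨ μ = r₀) : GD (IrrCharacter G) (IrrCharacter S.K) where
  one := oneG G
  d := dd
  dpos := dd_pos
  done := dd_one
  e := S.ee
  bar := S.bar
  barbar := S.bar_bar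
  bar_e := S.bar_ee
  x := S.xx
  x_e := S.xx_ee
  x_one := fun μ h => S.xx_one h
  x_bar := S.xx_bar
  gram := fun μ ν hμ hν => S.gram_xx hμ hν
  deg := S.deg_xx
  v := S.vv
  v_sq := S.vv_sq
  v_e := S.vv_ee
  v_bar := S.vv_bar
  v_sum := S.sum_vv
  r₀ := r₀
  r₀_ne := h1
  r₀_bar := h2
  real := h3
  C := 2 * (Nat.card S.K : ℚ) ^ 2 / (mm G : ℚ)
  L := by
    intro μ hμ
    have h := S.L_formula hμ
    unfold TT' at h
    apply Rat.cast_injective (α := ℂ)
    push_cast
    push_cast at h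
    exact h
  n₁ := S.nn
  deg' := S.deg_eq

/-- The main output: the degree formula and the class function formula on `A`. -/
theorem char_main (hk : 4 ≤ Nat.card S.K) :
    ∃ (St : IrrCharacter G) (ε : ℤ), St ≠ oneG G ∧ (ε = 1 ∨ ε = -1) ∧
      (mm G : ℤ) = (2 * (Nat.card S.K : ℤ) + ε) * ((Nat.card S.K : ℤ) + ε) ∧
      dd St = 2 * (Nat.card S.K : ℤ) + ε ∧
      ∀ g, S.IsA g → (BB g : ℂ) =
        if ε = 1 then (2 * (Nat.card S.K : ℂ) + 1) + (Nat.card S.K : ℂ) * St.1 g
        else ((Nat.card S.K : ℂ) - 1) * St.1 g := by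
  obtain ⟨r₀, h1, h2, h3⟩ := S.exists_r₀
  obtain ⟨μ₀, hμ₁, hμ₂⟩ : ∃ μ₀ : IrrCharacter S.K, μ₀ ≠ S.ee ∧ μ₀ ≠ r₀ := by
    by_contra hc
    push Not at hc
    have hsub : (univ : Finset (IrrCharacter S.K)) ⊆ {S.ee, r₀} := by
      intro μ _
      simp only [mem_insert, mem_singleton]
      by_cases h : μ = S.ee
      · exact Or.inl h
      · exact Or.inr (hc μ h)
    have := card_le_card hsub
    rw [card_univ, S.card_irr] at this
    have h5 := Finset.card_le_two (a := S.ee) (b := r₀)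
    omega
  let D := S.gd r₀ h1 h2 h3
  have h₀ : D.NR μ₀ := ⟨hμ₁, hμ₂⟩
  obtain ⟨St, ε, r, hSt, hε, hdeg, hf, hC, hφ⟩ := D.main h₀
  have hcard : (Fintype.card (IrrCharacter S.K) : ℤ) = (Nat.card S.K : ℤ) := by rw [S.card_irr]
  have hcardc : (Fintype.card (IrrCharacter S.K) : ℂ) = (Nat.card S.K : ℂ) := by rw [S.card_irr]
  rw [hcard] at hdeg
  have hd : ∀ χ, D.d χ = dd χ := fun _ => rfl
  have hx : ∀ μ χ, D.x μ χ = S.xx μ χ := fun _ _ => rfl
  have hq0 := dd_pos St
  rw [hd] at hdeg hf hC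
  simp only [hd, hcardc] at hφ
  have hCC : D.C = 2 * (Nat.card S.K : ℚ) ^ 2 / (mm G : ℚ) := rfl
  rw [hCC] at hC
  have hmodd : Odd (mm G : ℤ) := by exact_mod_cast S.mm_odd
  have hmpos : (0 : ℤ) < mm G := by exact_mod_cast S.mm_pos
  obtain ⟨hr, hm⟩ := bsw_numeric (Nat.card S.K : ℤ) (mm G : ℤ) (dd St) ε r (by exact_mod_cast hk) hmodd hmpos
    hε hdeg hq0 hf (by simpa only [Int.cast_natCast] using hC)
  have hdq : dd St = 2 * (Nat.card S.K : ℤ) + ε := by rw [hdeg, hr]
  refine ⟨St, ε, hSt, hε, hm, hdq, ?_⟩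
  intro g hg
  have hφ' := hφ (fun χ => χ.1 g) (by
    intro μ hμ
    have h4 := S.EE_expand μ g
    rw [S.EE_A _ hg] at h4
    exact h4.symm)
  have hBB : (BB g : ℂ) = (mm G : ℂ) / (2 * (Nat.card S.K : ℂ)) *
      ∑ χ : IrrCharacter G, ((D.F χ : ℚ) : ℂ) * χ.1 g := by
    have h5 := classFunction_eq_sum BBc (BBc_class (G := G))
    have h6 := congrFun h5 g
    simp only [Finset.sum_apply, Pi.smul_apply, smul_eq_mul, S.inner_BB] at h6
    have h7 : BBc g = (BB g : ℂ) := rfl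
    rw [h7] at h6
    rw [h6, Finset.mul_sum]
    refine Finset.sum_congr rfl fun χ _ => ?_
    have hG : (Nat.card G : ℂ) = 2 * (Nat.card S.K : ℂ) * (mm G : ℂ) := by
      rw [Nat.card_eq_fintype_card, S.card_G]
      push_cast
      ring
    have hm0 : (mm G : ℂ) ≠ 0 := by exact_mod_cast S.mm_pos.ne'
    have hk0 : (Nat.card S.K : ℂ) ≠ 0 := card_subgroup_ne_zero S.K
    have hF : ((D.F χ : ℚ) : ℂ) = ((S.TT' χ ^ 2 : ℤ) : ℂ) / (dd χ : ℂ) := by
      have e : (S.TT' χ : ℂ) = ∑ x, (D.x x χ : ℂ) * (D.v x : ℂ) := by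
        unfold TT'
        push_cast
        rfl
      unfold GD.F
      push_cast
      rw [e]
      rfl
    rw [hF, hG]
    field_simp
  rw [hBB, hφ']
  have hone : (D.one : IrrCharacter G).1 g = 1 := rfl
  rw [hone]
  have hdqc : (dd St : ℂ) = 2 * (Nat.card S.K : ℂ) + ε := by
    rw [hdq]; push_cast; rfl
  have hmc : (mm G : ℂ) = (2 * (Nat.card S.K : ℂ) + ε) * ((Nat.card S.K : ℂ) + ε) := by
    have := congrArg (Int.cast : ℤ → ℂ) hm
    push_cast at this
    exact this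
  rw [hmc, hdqc]
  have hk0 : (Nat.card S.K : ℂ) ≠ 0 := card_subgroup_ne_zero S.K
  have hkge : (4 : ℝ) ≤ (Nat.card S.K : ℝ) := by exact_mod_cast hk
  generalize hK : (Nat.card S.K : ℂ) = c at hk0 ⊢
  have hcr : c = ((Nat.card S.K : ℝ) : ℂ) := by rw [← hK]; simp
  rcases hε with rfl | rfl
  · rw [if_pos rfl]
    push_cast
    have h8 : 2 * c + 1 ≠ 0 := by
      rw [hcr]
      have : (2 * (Nat.card S.K : ℝ) + 1) ≠ 0 := by linarith
      exact_mod_cast this
    have h9 : c + 1 ≠ 0 := by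
      rw [hcr]
      have : ((Nat.card S.K : ℝ) + 1) ≠ 0 := by linarith
      exact_mod_cast this
    have h10 : 2 * c + 1 + 1 ≠ 0 := by
      rw [hcr]
      have : (2 * (Nat.card S.K : ℝ) + 1 + 1) ≠ 0 := by linarith
      exact_mod_cast this
    field_simp
    ring
  · rw [if_neg (by norm_num)]
    push_cast
    have h8 : 2 * c + -1 ≠ 0 := by
      rw [hcr]
      have : (2 * (Nat.card S.K : ℝ) + -1) ≠ 0 := by linarith
      exact_mod_cast this
    have h9 : c + -1 ≠ 0 := by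
      rw [hcr]
      have : ((Nat.card S.K : ℝ) + -1) ≠ 0 := by linarith
      exact_mod_cast this
    have h10 : 2 * c + -1 + -1 ≠ 0 := by
      rw [hcr]
      have : (2 * (Nat.card S.K : ℝ) + -1 + -1) ≠ 0 := by linarith
      exact_mod_cast this
    field_simp
    ring

/-- The column bound. -/
theorem column_bound (St : IrrCharacter G) (hSt : St ≠ oneG G) (g : G) :
    1 + ‖St.1 g‖ ^ 2 ≤ (Nat.card (Cn g) : ℝ) := by
  have h := second_orthogonality g g
  rw [if_pos (IsConj.refl g)] at h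
  have h1 : ∀ χ : IrrCharacter G, χ.1 g * conj (χ.1 g) = ((‖χ.1 g‖ ^ 2 : ℝ) : ℂ) := by
    intro χ
    rw [Complex.mul_conj, Complex.normSq_eq_norm_sq]
  simp only [h1] at h
  have h2 : ∑ χ : IrrCharacter G, ‖χ.1 g‖ ^ 2 = (Nat.card (Cn g) : ℝ) := by
    exact_mod_cast h
  rw [← h2]
  have h3 := Finset.add_le_sum (f := fun χ : IrrCharacter G => ‖χ.1 g‖ ^ 2) (s := univ)
    (i := oneG G) (j := St) (fun _ _ => by positivity) (mem_univ _) (mem_univ _) (Ne.symm hSt)
  have h4 : ‖(oneG G).1 g‖ = 1 := by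
    simp [oneG]
  simp only [h4] at h3
  simpa using h3

end Setup

end Cfsg.Agent.Lib.BSW
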