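import Cfsg.Agent.Lib.BSW.Setup
import Cfsg.Agent.Lib.Char.Complete

/-!
# Abstract Brauer–Suzuki–Wall: counting involutions and products of involutions
-/

set_option autoImplicit false
set_option linter.unusedSectionVars false
set_option linter.unusedVariables false

namespace Cfsg.Agent.Lib.BSW

open Classical Finset

variable {G : Type*} [Group G] [Fintype G]

/-- The involutions. -/
noncomputable def Invs (G : Type*) [Group G] [Fintype G] : Finset G :=
  univ.filter fun x => orderOf x = 2

/-- The number of involutions. -/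
noncomputable def mm (G : Type*) [Group G] [Fintype G] : ℕ := (Invs G).card

/-- The number of ways of writing `g` as a product of two involutions. -/
noncomputable def BB (g : G) : ℕ := ((Invs G).filter fun x => orderOf (x * g) = 2).card

theorem mem_Invs {x : G} : x ∈ Invs G ↔ orderOf x = 2 := by simp [Invs]

theorem card_filter_mem (L : Subgroup G) : (univ.filter (· ∈ L)).card = Nat.card L := by
  rw [Nat.card_eq_fintype_card, Fintype.card_subtype]

namespace Setup

variable (S : Setup G)

theorem card_Cn_t : Nat.card (Cn S.t) = 2 * Nat.card S.K := by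
  let f : S.K ⊕ S.K → Cn S.t := fun u => match u with
    | Sum.inl a => ⟨a, mem_Cn.mpr (S.hKt a a.2)⟩
    | Sum.inr a => ⟨a * S.s, mem_Cn.mpr (S.ks_comm a.2)⟩
  have hf : Function.Bijective f := by
    constructor
    · rintro (a | a) (b | b) h
      · have : (a : G) = b := congrArg (fun u : Cn S.t => (u : G)) h
        rw [Subtype.ext this]
      · have : (a : G) = b * S.s := congrArg (fun u : Cn S.t => (u : G)) h
        exact absurd (this ▸ a.2) (S.ks_not_mem b.2)
      · have : (a : G) * S.s = b := congrArg (fun u : Cn S.t => (u : G)) h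
        exact absurd (this.symm ▸ b.2) (S.ks_not_mem a.2)
      · have : (a : G) * S.s = b * S.s := congrArg (fun u : Cn S.t => (u : G)) h
        rw [Subtype.ext (mul_right_cancel this)]
    · rintro ⟨y, hy⟩
      rcases S.hH y (mem_Cn.mp hy) with h | ⟨a, ha, rfl⟩
      · exact ⟨Sum.inl ⟨y, h⟩, rfl⟩
      · exact ⟨Sum.inr ⟨a, ha⟩, rfl⟩
  rw [← Nat.card_congr (Equiv.ofBijective f hf), Nat.card_sum]
  ring

theorem Invs_eq : Invs G = univ.filter (fun x => IsConj S.t x) := by
  ext x
  simp only [Invs, mem_filter, mem_univ, true_and]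
  constructor
  · intro h
    exact S.hconj _ _ S.ht h
  · intro h
    obtain ⟨c, rfl⟩ := isConj_iff.mp h
    rw [orderOf_conj']
    exact S.ht

/-- `|G| = 2 k m`. -/
theorem card_G : Fintype.card G = 2 * Nat.card S.K * mm G := by
  have h1 := Char.card_filter_isConj S.t
  have h2 := Char.index_mul_card_centralizer S.t
  rw [mm, S.Invs_eq, h1, mul_comm, ← Nat.card_eq_fintype_card, ← h2]
  have := S.card_Cn_t
  unfold Cn at this
  rw [this]

theorem k_pos : 0 < Nat.card S.K := Nat.card_pos

include S in
theorem mm_pos : 0 < mm G := Finset.card_pos.mpr ⟨S.t, mem_Invs.mpr S.ht⟩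

theorem two_dvd_k : 2 ∣ Nat.card S.K := by
  have : orderOf (⟨S.t, S.htK⟩ : S.K) = 2 := by
    rw [Subgroup.orderOf_mk]; exact S.ht
  rw [← this]
  exact orderOf_dvd_natCard _

/-- The involutions commuting with `t`. -/
theorem invs_comm : ((Invs G).filter fun x => x * S.t = S.t * x).card = Nat.card S.K + 1 := by
  have h : (Invs G).filter (fun x => x * S.t = S.t * x) =
      insert S.t ((univ.filter (· ∈ S.K)).image (· * S.s)) := by
    ext x
    simp only [mem_filter, mem_Invs, mem_insert, mem_image, mem_univ, true_and]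
    constructor
    · rintro ⟨hx, hc⟩
      rcases S.hH x hc with h | ⟨a, ha, rfl⟩
      · exact Or.inl (S.eq_of_two_mem h hx)
      · exact Or.inr ⟨a, ha, rfl⟩
    · rintro (rfl | ⟨a, ha, rfl⟩)
      · exact ⟨S.ht, rfl⟩
      · exact ⟨S.ks_two ha, S.ks_comm ha⟩
  rw [h, card_insert_of_notMem, card_image_of_injective _ (mul_left_injective _), card_filter_mem]
  simp only [mem_image, mem_filter, mem_univ, true_and, not_exists, not_and]
  intro a ha h
  exact S.ks_not_mem ha (h ▸ S.htK)

include S in
theorem mm_odd : Odd (mm G) := by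
  have hsplit := Finset.card_filter_add_card_filter_not (s := Invs G) (fun x => x * S.t = S.t * x)
  have hcomm := S.invs_comm
  have htt := mul_self_of_two S.ht
  have hti := inv_of_two S.ht
  -- the non-commuting involutions come in pairs
  have heven : ((Invs G).filter fun x => ¬ x * S.t = S.t * x).card % 2 = 0 := by
    have h0 : ∑ x ∈ (Invs G).filter (fun x => ¬ x * S.t = S.t * x), (1 : ZMod 2) = 0 := by
      refine Finset.sum_involution (fun x _ => S.t * x * S.t) ?_ ?_ ?_ ?_
      · intro x _
        decide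
      · intro x hx _ h
        rw [mem_filter] at hx
        apply hx.2
        calc x * S.t = S.t * x * S.t * S.t := by rw [h]
          _ = S.t * x * (S.t * S.t) := by group
          _ = S.t * x := by rw [htt, mul_one]
      · intro x hx
        rw [mem_filter, mem_Invs] at hx ⊢
        refine ⟨?_, ?_⟩
        · have := orderOf_conj' S.t x
          rw [hti] at this
          rw [this]; exact hx.1
        · intro h
          apply hx.2
          have h3 : S.t * x * (S.t * S.t) = S.t * (S.t * x * S.t) := by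
            have := h
            calc S.t * x * (S.t * S.t) = (S.t * x * S.t) * S.t := by group
              _ = S.t * (S.t * x * S.t) := h
          rw [htt, mul_one] at h3
          calc x * S.t = (S.t * S.t) * x * S.t := by rw [htt, one_mul]
            _ = S.t * (S.t * x * S.t) := by group
            _ = S.t * x := h3.symm
      · intro x _
        calc S.t * (S.t * x * S.t) * S.t = (S.t * S.t) * x * (S.t * S.t) := by group
          _ = x := by rw [htt]; simp
    rw [Finset.sum_const, nsmul_eq_mul, mul_one] at h0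
    have := (ZMod.natCast_eq_zero_iff _ 2).mp h0
    omega
  obtain ⟨c, hc⟩ := S.two_dvd_k
  have : mm G = (Nat.card S.K + 1) + ((Invs G).filter fun x => ¬ x * S.t = S.t * x).card := by
    rw [mm, ← hsplit, hcomm]
  rw [Nat.odd_iff]
  omega

/-! ### The function `BB` -/

theorem BB_conj (h g : G) : BB (h * g * h⁻¹) = BB g := by
  unfold BB
  symm
  refine Finset.card_bij (fun x _ => h * x * h⁻¹) ?_ ?_ ?_
  · intro x hx
    rw [mem_filter, mem_Invs] at hx ⊢
    refine ⟨by rw [orderOf_conj']; exact hx.1, ?_⟩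
    have : h * x * h⁻¹ * (h * g * h⁻¹) = h * (x * g) * h⁻¹ := by group
    rw [this, orderOf_conj']; exact hx.2
  · intro a _ b _ hab
    exact mul_left_cancel (mul_right_cancel hab)
  · intro y hy
    rw [mem_filter, mem_Invs] at hy
    refine ⟨h⁻¹ * y * h, ?_, by group⟩
    rw [mem_filter, mem_Invs]
    refine ⟨?_, ?_⟩
    · have := orderOf_conj' h⁻¹ y
      simp only [inv_inv] at this
      rw [this]; exact hy.1
    · have e : h⁻¹ * y * h * g = h⁻¹ * (y * (h * g * h⁻¹)) * h⁻¹⁻¹ := by group
      rw [e, orderOf_conj']; exact hy.2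

theorem BB_one : BB (1 : G) = mm G := by
  unfold BB mm
  congr 1
  ext x
  simp only [mem_filter, mem_Invs, mul_one]
  tauto

theorem sum_BB : ∑ g : G, BB g = mm G ^ 2 := by
  unfold BB
  have h1 : ∀ g : G, ((Invs G).filter fun x => orderOf (x * g) = 2).card =
      ∑ x ∈ Invs G, if orderOf (x * g) = 2 then 1 else 0 := fun g => by
    rw [Finset.card_filter]
  simp only [h1]
  rw [Finset.sum_comm]
  have h2 : ∀ x ∈ Invs G, ∑ g : G, (if orderOf (x * g) = 2 then 1 else 0) = mm G := by
    intro x _
    rw [← Finset.card_filter]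
    unfold mm Invs
    refine Finset.card_bij (fun g _ => x * g) ?_ ?_ ?_
    · intro g hg
      simpa using hg
    · intro a _ b _ hab
      exact mul_left_cancel hab
    · intro y hy
      refine ⟨x⁻¹ * y, ?_, by group⟩
      simpa using hy
  rw [Finset.sum_congr rfl h2, Finset.sum_const, smul_eq_mul, pow_two]
  rfl

theorem BB_K {a : G} (ha : a ∈ S.K) (ha1 : a ≠ 1) : BB a = Nat.card S.K := by
  have hss := mul_self_of_two S.hs
  have hsi := inv_of_two S.hs
  have h : (Invs G).filter (fun x => orderOf (x * a) = 2) =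
      (univ.filter (· ∈ S.K)).image (· * S.s) := by
    ext x
    simp only [mem_filter, mem_Invs, mem_image, mem_univ, true_and]
    constructor
    · rintro ⟨hx, hxa⟩
      have hxx := mul_self_of_two hx
      have hxi := inv_of_two hx
      have h1 := mul_self_of_two hxa
      have h2 : x * a * x = a⁻¹ := by
        calc x * a * x = (x * a * x) * (a * a⁻¹) := by group
          _ = (x * a * (x * a)) * a⁻¹ := by group
          _ = a⁻¹ := by rw [h1, one_mul]
      have h3 : x * a * x⁻¹ ∈ S.K := by
        rw [hxi, h2]; exact S.K.inv_mem ha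
      have h4 := S.comm_of_conj_mem ha ha1 h3
      rcases S.hH x h4 with hk | ⟨b, hb, rfl⟩
      · exfalso
        have hxt := S.eq_of_two_mem hk hx
        rw [hxt] at h2 hxa
        have h5 : S.t * a * S.t = a := by
          rw [S.hKt a ha |>.symm, mul_assoc, mul_self_of_two S.ht, mul_one]
        rw [h5] at h2
        -- `a` is an involution in `K`
        have h6 : a * a = 1 := by
          calc a * a = a * a⁻¹ := by rw [← h2]
            _ = 1 := by group
        have h7 : a = S.t := S.eq_of_two_mem ha (two_of_mul_self h6 ha1)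
        rw [h7, mul_self_of_two S.ht] at hxa
        simp at hxa
      · exact ⟨b, hb, rfl⟩
    · rintro ⟨b, hb, rfl⟩
      refine ⟨S.ks_two hb, ?_⟩
      have e : b * S.s * a = (b * a⁻¹) * S.s := by
        have h5 := S.hinv a ha
        calc b * S.s * a = b * (S.s * a * S.s) * S.s := by
              calc b * S.s * a = b * S.s * a * (S.s * S.s) := by rw [hss, mul_one]
                _ = _ := by group
          _ = _ := by rw [h5]
      rw [e]
      exact S.ks_two (S.K.mul_mem hb (S.K.inv_mem ha))
  unfold BB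
  rw [h, card_image_of_injective _ (mul_left_injective _), card_filter_mem]

/-- On `A` the function counts the inverting involutions. -/
theorem BB_A {g : G} (hg : S.IsA g) :
    BB g = ((Invs G).filter fun x => x * g * x = g⁻¹).card := by
  unfold BB
  congr 1
  ext x
  simp only [mem_filter, mem_Invs]
  constructor
  · rintro ⟨hx, hxg⟩
    refine ⟨hx, ?_⟩
    have h1 := mul_self_of_two hxg
    calc x * g * x = (x * g * x) * (g * g⁻¹) := by group
      _ = (x * g * (x * g)) * g⁻¹ := by group
      _ = g⁻¹ := by rw [h1, one_mul]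
  · rintro ⟨hx, hxg⟩
    refine ⟨hx, ?_⟩
    refine two_of_mul_self ?_ ?_
    · calc x * g * (x * g) = (x * g * x) * g := by group
        _ = 1 := by rw [hxg]; group
    · intro h0
      have h1 : g = x⁻¹ := eq_inv_of_mul_eq_one_right h0
      rw [inv_of_two hx] at h1
      apply hg.not_two
      rw [h1]; exact hx

theorem BB_A_eq_card {g x : G} (hg : S.IsA g) (hx : orderOf x = 2) (hxg : x * g * x = g⁻¹) :
    BB g = Nat.card (Cn g) := by
  rw [S.BB_A hg, ← card_filter_mem]
  refine Finset.card_bij (fun y _ => x * y) ?_ ?_ ?_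
  · intro y hy
    rw [mem_filter, mem_Invs] at hy
    simp only [mem_filter, mem_univ, true_and]
    exact (hg.inverter_iff hx hxg).mp hy
  · intro a _ b _ hab
    exact mul_left_cancel hab
  · intro w hw
    simp only [mem_filter, mem_univ, true_and] at hw
    have hxx := mul_self_of_two hx
    have e : x * (x * w) = w := by
      calc x * (x * w) = (x * x) * w := by group
        _ = w := by rw [hxx, one_mul]
    refine ⟨x * w, ?_, e⟩
    rw [mem_filter, mem_Invs]
    exact (hg.inverter_iff hx hxg).mpr (by rw [e]; exact hw)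

theorem BB_A_eq_zero {g : G} (hg : S.IsA g) (h : ∀ x, orderOf x = 2 → x * g * x ≠ g⁻¹) :
    BB g = 0 := by
  rw [S.BB_A hg]
  apply Finset.card_eq_zero.mpr
  apply Finset.filter_eq_empty_iff.mpr
  intro x hx
  exact h x (mem_Invs.mp hx)

/-- `C(g)` has odd order for `g ∈ A`. -/
theorem IsA.odd_card {S : Setup G} {g : G} (hg : S.IsA g) : ¬ 2 ∣ Nat.card (Cn g) := by
  intro h2
  haveI : Fact (Nat.Prime 2) := ⟨Nat.prime_two⟩
  obtain ⟨z, hz⟩ := exists_prime_orderOf_dvd_card' (G := Cn g) 2 h2
  have hz' : orderOf (z : G) = 2 := by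
    rw [Subgroup.orderOf_coe]; exact hz
  exact hg.no_invol hz' (mem_Cn.mp z.2)

/-- The non-identity elements outside `A`. -/
noncomputable def TT : Finset G := univ.filter fun g => g ≠ 1 ∧ ¬ S.IsA g

/-- The elements of `A`. -/
noncomputable def AA : Finset G := univ.filter fun g => S.IsA g

theorem mem_TT {g : G} : g ∈ S.TT ↔ g ≠ 1 ∧ ∃ y, y⁻¹ * g * y ∈ S.K := by
  simp [TT, IsA]

theorem mem_AA {g : G} : g ∈ S.AA ↔ S.IsA g := by simp [AA]

theorem BB_TT {g : G} (hg : g ∈ S.TT) : BB g = Nat.card S.K := by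
  obtain ⟨h1, y, hy⟩ := S.mem_TT.mp hg
  have e : BB g = BB (y⁻¹ * g * y) := by
    have := BB_conj y⁻¹ g
    simpa using this.symm
  rw [e]
  refine S.BB_K hy ?_
  intro h0
  apply h1
  have : g = y * (y⁻¹ * g * y) * y⁻¹ := by group
  rw [this, h0]; group

theorem card_TT : S.TT.card = mm G * (Nat.card S.K - 1) := by
  -- double count the pairs `(g, y)` with `y⁻¹ g y ∈ K^#`
  let r : G → G → Prop := fun g y => y⁻¹ * g * y ∈ S.K ∧ y⁻¹ * g * y ≠ 1
  have hdc := Finset.sum_card_bipartiteAbove_eq_sum_card_bipartiteBelow (s := S.TT)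
    (t := (univ : Finset G)) r
  have hk1 : (univ.filter (fun a : G => a ∈ S.K ∧ a ≠ 1)).card = Nat.card S.K - 1 := by
    have h0 : (univ.filter (fun a : G => a ∈ S.K ∧ a ≠ 1)) = (univ.filter (· ∈ S.K)).erase 1 := by
      ext a
      simp only [mem_filter, mem_univ, true_and, mem_erase]
      tauto
    rw [h0, card_erase_of_mem (by simp [S.K.one_mem]), card_filter_mem]
  have h1 : ∀ y : G, (S.TT.filter fun g => r g y).card = Nat.card S.K - 1 := by
    intro y
    rw [← hk1]
    refine Finset.card_bij (fun g _ => y⁻¹ * g * y) ?_ ?_ ?_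
    · intro g hg
      rw [mem_filter] at hg
      simp only [mem_filter, mem_univ, true_and]
      exact hg.2
    · intro a _ b _ hab
      exact mul_left_cancel (mul_right_cancel hab)
    · intro a ha
      simp only [mem_filter, mem_univ, true_and] at ha
      refine ⟨y * a * y⁻¹, ?_, by group⟩
      have e : y⁻¹ * (y * a * y⁻¹) * y = a := by group
      rw [mem_filter, S.mem_TT]
      refine ⟨⟨?_, y, by rw [e]; exact ha.1⟩, by simp only [r, e]; exact ha⟩
      intro h0
      apply ha.2
      calc a = y⁻¹ * (y * a * y⁻¹) * y := e.symm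
        _ = 1 := by rw [h0]; group
  have h2 : ∀ g ∈ S.TT, (univ.filter fun y => r g y).card = 2 * Nat.card S.K := by
    intro g hg
    obtain ⟨h1, y₀, hy₀⟩ := S.mem_TT.mp hg
    rw [← S.card_Cn_t, ← card_filter_mem]
    symm
    have ha1 : y₀⁻¹ * g * y₀ ≠ 1 := by
      intro h0
      apply h1
      have : g = y₀ * (y₀⁻¹ * g * y₀) * y₀⁻¹ := by group
      rw [this, h0]; group
    refine Finset.card_bij (fun h _ => y₀ * h) ?_ ?_ ?_
    · intro h hh
      simp only [mem_filter, mem_univ, true_and] at hh ⊢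
      have e : (y₀ * h)⁻¹ * g * (y₀ * h) = h⁻¹ * (y₀⁻¹ * g * y₀) * h := by group
      have hht := mem_Cn.mp hh
      have h3 : h⁻¹ * (y₀⁻¹ * g * y₀) * h ∈ S.K := by
        rcases S.hH h hht with hk | ⟨b, hb, rfl⟩
        · have := S.K.mul_mem (S.K.mul_mem (S.K.inv_mem hk) hy₀) hk
          exact this
        · have hss := mul_self_of_two S.hs
          have hsi := inv_of_two S.hs
          have h4 := S.hinv _ hy₀
          have h5 : (b * S.s)⁻¹ * (y₀⁻¹ * g * y₀) * (b * S.s) =
              S.s * (b⁻¹ * (y₀⁻¹ * g * y₀) * b) * S.s := by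
            rw [mul_inv_rev, hsi]; group
          rw [h5, S.hinv _ (S.K.mul_mem (S.K.mul_mem (S.K.inv_mem hb) hy₀) hb)]
          exact S.K.inv_mem (S.K.mul_mem (S.K.mul_mem (S.K.inv_mem hb) hy₀) hb)
      simp only [r, e]
      refine ⟨h3, ?_⟩
      intro h0
      apply ha1
      have : y₀⁻¹ * g * y₀ = h * (h⁻¹ * (y₀⁻¹ * g * y₀) * h) * h⁻¹ := by group
      rw [this, h0]; group
    · intro a _ b _ hab
      exact mul_left_cancel hab
    · intro y hy
      simp only [mem_filter, mem_univ, true_and, r] at hy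
      refine ⟨y₀⁻¹ * y, ?_, by group⟩
      simp only [mem_filter, mem_univ, true_and]
      rw [mem_Cn]
      -- `y₀⁻¹ y` conjugates a nontrivial element of `K` into `K`
      have h3 := S.comm_of_conj_mem (y := (y₀⁻¹ * y)⁻¹) (a := y₀⁻¹ * g * y₀) hy₀ ha1 (by
        have e : (y₀⁻¹ * y)⁻¹ * (y₀⁻¹ * g * y₀) * (y₀⁻¹ * y)⁻¹⁻¹ = y⁻¹ * g * y := by group
        rw [e]; exact hy.1)
      have h4 : S.t * (y₀⁻¹ * y) = (y₀⁻¹ * y) * S.t := by
        have h5 : (y₀⁻¹ * y) * ((y₀⁻¹ * y)⁻¹ * S.t) * (y₀⁻¹ * y) = (y₀⁻¹ * y) * (S.t * (y₀⁻¹ * y)⁻¹) * (y₀⁻¹ * y) := by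
          rw [h3]
        have e1 : (y₀⁻¹ * y) * ((y₀⁻¹ * y)⁻¹ * S.t) * (y₀⁻¹ * y) = S.t * (y₀⁻¹ * y) := by group
        have e2 : (y₀⁻¹ * y) * (S.t * (y₀⁻¹ * y)⁻¹) * (y₀⁻¹ * y) = (y₀⁻¹ * y) * S.t := by group
        rw [e1, e2] at h5
        exact h5
      exact h4.symm
  have hdc' : ∑ g ∈ S.TT, (univ.filter fun y => r g y).card =
      ∑ y : G, (S.TT.filter fun g => r g y).card := hdc
  rw [Finset.sum_const_nat h2, Finset.sum_congr rfl (fun y _ => h1 y), Finset.sum_const, card_univ,
    S.card_G, smul_eq_mul] at hdc'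
  have hk := S.k_pos
  have h3 : 2 * Nat.card S.K * S.TT.card = 2 * Nat.card S.K * (mm G * (Nat.card S.K - 1)) := by
    rw [← mul_assoc (2 * Nat.card S.K), ← hdc']
    ring
  exact Nat.eq_of_mul_eq_mul_left (by positivity) h3

theorem card_AA : S.AA.card + 1 + mm G * (Nat.card S.K - 1) = Fintype.card G := by
  rw [← S.card_TT]
  have h : (univ : Finset G) = insert 1 (S.AA ∪ S.TT) := by
    ext g
    simp only [mem_univ, mem_insert, mem_union, TT, AA, mem_filter, true_and, true_iff]
    tauto
  have hd : Disjoint S.AA S.TT := by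
    rw [Finset.disjoint_left]
    intro g hg hg'
    simp only [TT, AA, mem_filter, mem_univ, true_and] at hg hg'
    exact hg'.2 hg
  have h1 : (1 : G) ∉ S.AA ∪ S.TT := by
    simp only [mem_union, TT, AA, mem_filter, mem_univ, true_and]
    rintro (h | h)
    · exact h.ne_one rfl
    · exact h.1 rfl
  rw [← Finset.card_univ, h, card_insert_of_notMem h1, card_union_of_disjoint hd]
  omega

/-- The sum of `BB` over `A`. -/
theorem sum_AA_BB : ∑ g ∈ S.AA, BB g + mm G + mm G * (Nat.card S.K - 1) * Nat.card S.K = mm G ^ 2 := by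
  rw [← sum_BB, ← S.card_TT]
  have h : (univ : Finset G) = insert 1 (S.AA ∪ S.TT) := by
    ext g
    simp only [mem_univ, mem_insert, mem_union, TT, AA, mem_filter, true_and, true_iff]
    tauto
  have hd : Disjoint S.AA S.TT := by
    rw [Finset.disjoint_left]
    intro g hg hg'
    simp only [TT, AA, mem_filter, mem_univ, true_and] at hg hg'
    exact hg'.2 hg
  have h1 : (1 : G) ∉ S.AA ∪ S.TT := by
    simp only [mem_union, TT, AA, mem_filter, mem_univ, true_and]
    rintro (h | h)
    · exact h.ne_one rfl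
    · exact h.1 rfl
  rw [h, sum_insert h1, sum_union hd, BB_one, Finset.sum_congr rfl (fun g hg => S.BB_TT hg),
    Finset.sum_const, smul_eq_mul]
  ring

/-- The elements of `A` inverted by `t`. -/
noncomputable def WW : Finset G := univ.filter fun g => S.IsA g ∧ S.t * g * S.t = g⁻¹

theorem mem_WW {g : G} : g ∈ S.WW ↔ S.IsA g ∧ S.t * g * S.t = g⁻¹ := by simp [WW]

/-- Double counting of inverting pairs. -/
theorem sum_AA_BB_smul {R : Type*} [AddCommMonoid R] (F : G → R)
    (hF : ∀ h g, F (h * g * h⁻¹) = F g) :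
    ∑ g ∈ S.AA, BB g • F g = mm G • ∑ g ∈ S.WW, F g := by
  have h1 : ∀ g ∈ S.AA, BB g • F g = ∑ x ∈ Invs G, if x * g * x = g⁻¹ then F g else 0 := by
    intro g hg
    rw [S.BB_A (S.mem_AA.mp hg), ← Finset.sum_filter, Finset.sum_const]
  rw [Finset.sum_congr rfl h1, Finset.sum_comm]
  have h2 : ∀ x ∈ Invs G, (∑ g ∈ S.AA, if x * g * x = g⁻¹ then F g else 0) = ∑ g ∈ S.WW, F g := by
    intro x hx
    obtain ⟨y, rfl⟩ := S.exists_conj (mem_Invs.mp hx)
    rw [← Finset.sum_filter]
    refine Finset.sum_bij (fun g _ => y⁻¹ * g * y) ?_ ?_ ?_ ?_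
    · intro g hg
      rw [mem_filter, S.mem_AA] at hg
      rw [S.mem_WW]
      refine ⟨by simpa using hg.1.conj y⁻¹, ?_⟩
      have := hg.2
      calc S.t * (y⁻¹ * g * y) * S.t = y⁻¹ * (y * S.t * y⁻¹ * g * (y * S.t * y⁻¹)) * y := by group
        _ = y⁻¹ * g⁻¹ * y := by rw [this]
        _ = _ := by group
    · intro a _ b _ hab
      exact mul_left_cancel (mul_right_cancel hab)
    · intro w hw
      rw [S.mem_WW] at hw
      refine ⟨y * w * y⁻¹, ?_, by group⟩
      rw [mem_filter, S.mem_AA]
      refine ⟨hw.1.conj y, ?_⟩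
      calc y * S.t * y⁻¹ * (y * w * y⁻¹) * (y * S.t * y⁻¹) = y * (S.t * w * S.t) * y⁻¹ := by group
        _ = y * w⁻¹ * y⁻¹ := by rw [hw.2]
        _ = _ := by group
    · intro g _
      have := hF y⁻¹ g
      simpa using this.symm
  rw [Finset.sum_congr rfl h2, Finset.sum_const]
  rfl

end Setup

end Cfsg.Agent.Lib.BSW
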