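import Cfsg.Agent.Lib.BSW.Struct

/-!
# Abstract Brauer–Suzuki–Wall: the case `D = K`
-/

set_option autoImplicit false
set_option linter.unusedSectionVars false
set_option linter.unusedVariables false
set_option linter.unusedSimpArgs false
set_option linter.unnecessarySimpa false

open scoped ComplexConjugate

namespace Cfsg.Agent.Lib.BSW

open Classical Finset
open Cfsg (classInner IsCharacter IsIrrCharacter IrrCharacter IsClassFunction indFun
  extendByZero charDegree IsGeneralizedCharacter)
open Cfsg.Agent.Lib.Char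

universe u

variable {G : Type u} [Group G]

namespace Setup

theorem normalizer_K (S : Setup G) {X : Subgroup G} (hX : X ≤ S.K) (hX1 : X ≠ ⊥) :
    Subgroup.normalizer (X : Set G) = Cn S.t := by
  have hss := mul_self_of_two S.hs
  have hsi := inv_of_two S.hs
  obtain ⟨⟨a, ha⟩, ha1⟩ := (Subgroup.ne_bot_iff_exists_ne_one).mp hX1
  have ha1' : a ≠ 1 := fun h => ha1 (Subtype.ext h)
  apply le_antisymm
  · intro y hy
    rw [mem_Cn]
    have h1 := (Subgroup.mem_normalizer_iff.mp hy a).mp ha
    exact S.comm_of_conj_mem (hX ha) ha1' (hX h1)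
  · intro y hy
    rw [mem_Cn] at hy
    rw [Subgroup.mem_normalizer_iff]
    intro x
    rcases S.hH y hy with hk | ⟨b, hb, rfl⟩
    · constructor
      · intro hx
        have hx' : x ∈ X := hx
        have e : y * x * y⁻¹ = x := by
          rw [S.hab y hk x (hX hx')]
          group
        rw [e]
        exact hx
      · intro hx
        by_cases h0 : x ∈ S.K
        · have e : y * x * y⁻¹ = x := by
            rw [S.hab y hk x h0]
            group
          rw [e] at hx
          exact hx
        · exfalso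
          apply h0
          have hx' : y * x * y⁻¹ ∈ S.K := hX hx
          have : x = y⁻¹ * (y * x * y⁻¹) * y := by group
          rw [this]
          exact S.K.mul_mem (S.K.mul_mem (S.K.inv_mem hk) hx') hk
    · have key : ∀ x ∈ S.K, (b * S.s) * x * (b * S.s)⁻¹ = x⁻¹ := by
        intro x hx
        have e : (b * S.s) * x * (b * S.s)⁻¹ = b * (S.s * x * S.s) * b⁻¹ := by
          rw [mul_inv_rev, hsi]
          group
        rw [e, S.hinv x hx, S.hab b hb _ (S.K.inv_mem hx)]
        group
      constructor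
      · intro hx
        have hx' : x ∈ X := hx
        rw [key x (hX hx')]
        exact X.inv_mem hx'
      · intro hx
        have hx' : (b * S.s) * x * (b * S.s)⁻¹ ∈ X := hx
        have h0 : x ∈ S.K := by
          have h1 := hX hx'
          have h2 := key _ h1
          have e : (b * S.s) * ((b * S.s) * x * (b * S.s)⁻¹) * (b * S.s)⁻¹ = x := by
            have h3 := S.ks_sq hb
            have h4 : (b * S.s)⁻¹ = b * S.s := inv_eq_of_mul_eq_one_left h3
            rw [h4]
            calc (b * S.s) * ((b * S.s) * x * (b * S.s)) * (b * S.s) =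
                ((b * S.s) * (b * S.s)) * x * ((b * S.s) * (b * S.s)) := by group
              _ = x := by rw [h3]; simp
          rw [e] at h2
          rw [h2]
          exact S.K.inv_mem h1
        rw [key x h0] at hx'
        have := X.inv_mem hx'
        rw [inv_inv] at this
        exact this

theorem sup_s (S : Setup G) : S.K ⊔ Subgroup.zpowers S.s = Cn S.t := by
  apply le_antisymm
  · refine sup_le (fun a ha => mem_Cn.mpr (S.hKt a ha)) ?_
    rw [Subgroup.zpowers_le]
    exact mem_Cn.mpr S.hst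
  · intro y hy
    rcases S.hH y (mem_Cn.mp hy) with h | ⟨a, ha, rfl⟩
    · exact Subgroup.mem_sup_left h
    · exact Subgroup.mul_mem _ (Subgroup.mem_sup_left ha)
        (Subgroup.mem_sup_right (Subgroup.mem_zpowers _))

theorem K_ne_bot (S : Setup G) : S.K ≠ ⊥ := by
  intro h
  have := S.htK
  rw [h, Subgroup.mem_bot] at this
  exact S.t_ne_one this

/-- The last clauses when `D = K`. -/
theorem last_K (S : Setup G) (X : Subgroup G) (hX : X ≤ S.K) (hX1 : X ≠ ⊥) :
    Subgroup.normalizer (X : Set G) = Subgroup.normalizer (S.K : Set G) ∧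
      ∃ u : G, orderOf u = 2 ∧ u ∉ S.K ∧ (∀ d ∈ S.K, u * d * u⁻¹ = d⁻¹) ∧
        Subgroup.normalizer (S.K : Set G) = S.K ⊔ Subgroup.zpowers u := by
  rw [S.normalizer_K hX hX1, S.normalizer_K le_rfl S.K_ne_bot]
  refine ⟨rfl, S.s, S.hs, S.hsK, ?_, S.sup_s.symm⟩
  intro d hd
  rw [inv_of_two S.hs]
  exact S.hinv d hd

variable [Fintype G]

/-- The final assembly when `D = K`. -/
theorem final_plus (S : Setup G) {g : G} (hg : S.IsA g) (ht : S.t * g * S.t = g⁻¹)
    (hcard : Nat.card (Cn g) = 2 * Nat.card S.K + 1)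
    (hKn : ∀ a ∈ S.K, Cn (a * g * a⁻¹) = Cn g)
    (hm : mm G = (2 * Nat.card S.K + 1) * (Nat.card S.K + 1)) : Concl G := by
  refine ⟨Cn g, S.K, ?_, ?_, ⟨⟨fun a b => Subtype.ext (S.hab a a.2 b b.2)⟩⟩, hcard.symm, ?_, ?_,
    fun X hX hX1 => S.last_K X hX hX1⟩
  · rw [hcard, Nat.card_eq_fintype_card, S.card_G, hm]
    simp only [Nat.add_sub_cancel]
    ring
  · intro x hx hx1
    exact hg.cn_eq S.ht ht hx hx1
  · rw [eq_bot_iff]
    rintro x ⟨h1, h2⟩
    rw [Subgroup.mem_bot]
    by_contra h0
    exact hg.not_comm_K h2 h0 (mem_Cn.mp h1).symm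
  · apply le_antisymm
    · intro y hy
      obtain ⟨v, hv, hc⟩ := hg.frattini S.ht ht hy
      have hvN : v ∈ Subgroup.normalizer ((Cn g : Subgroup G) : Set G) := Subgroup.le_normalizer hv
      have h1 : v⁻¹ * y ∈ S.K := hg.normalizer_comm ht
        (Subgroup.mul_mem _ (Subgroup.inv_mem _ hvN) hy) hc
      have : y = v * (v⁻¹ * y) := by group
      rw [this]
      exact Subgroup.mul_mem _ (Subgroup.mem_sup_left hv) (Subgroup.mem_sup_right h1)
    · refine sup_le Subgroup.le_normalizer ?_
      intro a ha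
      exact normalizer_of_Cn_eq (hKn a ha)

/-- Elements on which a character is constant. -/
theorem card_dvd_sub {L : Subgroup G} (χ : IrrCharacter G) (s : ℤ)
    (h : ∀ w ∈ L, w ≠ 1 → χ.1 w = s) : (Nat.card L : ℤ) ∣ dd χ - s := by
  haveI : Fintype L := Fintype.ofFinite L
  obtain ⟨n, hn⟩ := classInner_isCharacter_nat
    (IsCharacter.restrict L (IsIrrCharacter.isCharacter χ.2))
    (IsIrrCharacter.isCharacter (isIrrCharacter_one (G := L)))
  rw [classInner_def] at hn
  have hL : (Nat.card L : ℂ) ≠ 0 := card_subgroup_ne_zero L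
  have h1 : ∑ w : L, χ.1 w * conj (1 : ℂ) = (dd χ : ℂ) + ((Nat.card L : ℂ) - 1) * s := by
    have h2 : ∀ w ∈ (univ : Finset L).erase 1, χ.1 w * conj (1 : ℂ) = (s : ℂ) := by
      intro w hw
      have hw1 : w ≠ 1 := (mem_erase.mp hw).1
      rw [h w w.2 (fun h0 => hw1 (Subtype.ext h0))]
      simp
    rw [← Finset.add_sum_erase univ _ (mem_univ (1 : L)), Finset.sum_congr rfl h2]
    simp only [Subgroup.coe_one, map_one, mul_one, Finset.sum_const, nsmul_eq_mul, dd_spec]
    rw [card_erase_of_mem (mem_univ _), card_univ, ← Nat.card_eq_fintype_card,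
      Nat.cast_sub Nat.card_pos]
    simp
  rw [h1] at hn
  have h3 : (dd χ : ℂ) - s = (Nat.card L : ℂ) * ((n : ℂ) - s) := by
    field_simp at hn
    linear_combination hn
  refine ⟨(n : ℤ) - s, ?_⟩
  exact_mod_cast h3

/-- An algebraic integer with an integer multiple an integer is an integer. -/
theorem int_of_mul {z : ℂ} (hz : IsIntegral ℤ z) {c : ℕ} (hc : c ≠ 0) {N : ℤ}
    (h : (c : ℂ) * z = N) : ∃ s : ℤ, z = s := by
  have hc' : (c : ℂ) ≠ 0 := by exact_mod_cast hc
  have h1 : z = (((N : ℚ) / (c : ℚ) : ℚ) : ℂ) := by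
    push_cast
    field_simp
    linear_combination h
  rw [h1] at hz
  obtain ⟨n, hn⟩ := (isIntegral_ratCast_iff _).mp hz
  refine ⟨n, ?_⟩
  rw [h1, hn]
  simp

end Setup

end Cfsg.Agent.Lib.BSW
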