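import Mathlib

/-!
# Abstract Brauer–Suzuki–Wall: the Gram matrix analysis

Purely combinatorial: an integer matrix `x μ χ` with the Gram matrix of the virtual characters
`I₁ - I_μ`, and what it forces.
-/

set_option autoImplicit false
set_option linter.unusedSectionVars false
set_option linter.unusedVariables false

namespace Cfsg.Agent.Lib.BSW

open Finset

section Delta

variable {ι : Type*} [Fintype ι] [DecidableEq ι]

/-- Kronecker delta. -/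
def dl (a χ : ι) : ℤ := if χ = a then 1 else 0

@[simp] theorem dl_self (a : ι) : dl a a = 1 := by simp [dl]

theorem dl_of_ne {a χ : ι} (h : χ ≠ a) : dl a χ = 0 := by simp [dl, h]

theorem sum_dl_mul (a : ι) (F : ι → ℤ) : ∑ χ, dl a χ * F χ = F a := by
  simp [dl]

theorem sum_dl_mul_q (a : ι) (F : ι → ℚ) : ∑ χ, (dl a χ : ℚ) * F χ = F a := by
  simp [dl]

/-- A vector of norm two. -/
theorem two_terms (f : ι → ℤ) (h2 : ∑ χ, f χ ^ 2 = 2) :
    ∃ a b : ι, ∃ e₁ e₂ : ℤ, a ≠ b ∧ (e₁ = 1 ∨ e₁ = -1) ∧ (e₂ = 1 ∨ e₂ = -1) ∧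
      ∀ χ, f χ = e₁ * dl a χ + e₂ * dl b χ := by
  have hle : ∀ c, f c ^ 2 ≤ 2 := fun c => by
    rw [← h2]
    exact single_le_sum (f := fun χ => f χ ^ 2) (fun _ _ => sq_nonneg _) (mem_univ c)
  have hunit : ∀ c, f c ≠ 0 → f c = 1 ∨ f c = -1 := by
    intro c hc
    have h3 := hle c
    have h4 : f c ≤ 1 := by nlinarith
    have h5 : -1 ≤ f c := by nlinarith
    omega
  have hsq : ∀ c, f c ≠ 0 → f c ^ 2 = 1 := by
    intro c hc
    rcases hunit c hc with h | h <;> rw [h] <;> norm_num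
  obtain ⟨a, ha⟩ : ∃ a, f a ≠ 0 := by
    by_contra hc
    push Not at hc
    simp [hc] at h2
  have h3 : ∑ χ ∈ univ.erase a, f χ ^ 2 = 1 := by
    have := Finset.add_sum_erase univ (fun χ => f χ ^ 2) (mem_univ a)
    rw [h2, hsq a ha] at this
    linarith
  obtain ⟨b, hb, hb0⟩ : ∃ b ∈ univ.erase a, f b ≠ 0 := by
    by_contra hc
    push Not at hc
    rw [Finset.sum_eq_zero (fun χ hχ => by rw [hc χ hχ]; norm_num)] at h3
    norm_num at h3
  have hba : b ≠ a := (mem_erase.mp hb).1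
  have h4 : ∀ c, c ≠ a → c ≠ b → f c = 0 := by
    intro c hca hcb
    by_contra hc
    have h5 := Finset.add_sum_erase (univ.erase a) (fun χ => f χ ^ 2) hb
    rw [h3, hsq b hb0] at h5
    have h6 : c ∈ (univ.erase a).erase b := by simp [hca, hcb]
    have h7 := single_le_sum (f := fun χ => f χ ^ 2) (fun _ _ => sq_nonneg _) h6
    rw [hsq c hc] at h7
    linarith
  refine ⟨a, b, f a, f b, hba.symm, hunit a ha, hunit b hb0, ?_⟩
  intro χ
  by_cases h1 : χ = a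
  · subst h1
    simp [dl, hba.symm]
  by_cases h5 : χ = b
  · subst h5
    simp [dl, hba]
  simp [dl, h1, h5, h4 χ h1 h5]

/-- The sum of a two-term vector against a function. -/
theorem sum_two_terms {R : Type*} [CommRing R] (a b : ι) (e₁ e₂ : ℤ) (F : ι → R) :
    ∑ χ, (((e₁ * dl a χ + e₂ * dl b χ : ℤ)) : R) * F χ = (e₁ : R) * F a + (e₂ : R) * F b := by
  have h : ∀ χ, (((e₁ * dl a χ + e₂ * dl b χ : ℤ)) : R) * F χ =
      (e₁ : R) * (if χ = a then F χ else 0) + (e₂ : R) * (if χ = b then F χ else 0) := by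
    intro χ
    push_cast
    unfold dl
    split_ifs <;> simp <;> ring
  rw [Finset.sum_congr rfl (fun χ _ => h χ), Finset.sum_add_distrib, ← Finset.mul_sum,
    ← Finset.mul_sum]
  simp

theorem dl_sub_inj {a b a' b' : ι} (hab : a ≠ b) (h : ∀ χ, dl a χ - dl b χ = dl a' χ - dl b' χ) :
    a = a' ∧ b = b' := by
  have h1 := h a
  have h2 := h b
  simp only [dl, if_true, if_neg hab, if_neg hab.symm] at h1 h2
  constructor
  · by_contra hc
    rw [if_neg hc] at h1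
    split_ifs at h1 <;> omega
  · by_contra hc
    rw [if_neg hc] at h2
    split_ifs at h2 <;> omega

end Delta

/-- The combinatorial data. -/
structure GD (ι Λ : Type*) [Fintype ι] [DecidableEq ι] [Fintype Λ] [DecidableEq Λ] where
  one : ι
  d : ι → ℤ
  dpos : ∀ χ, 0 < d χ
  done : d one = 1
  e : Λ
  bar : Λ → Λ
  barbar : ∀ μ, bar (bar μ) = μ
  bar_e : bar e = e
  x : Λ → ι → ℤ
  x_e : ∀ χ, x e χ = 0
  x_one : ∀ μ, μ ≠ e → x μ one = 1
  x_bar : ∀ μ χ, x (bar μ) χ = x μ χ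
  gram : ∀ μ ν, μ ≠ e → ν ≠ e →
    ∑ χ, x μ χ * x ν χ = 2 + (if μ = ν then 1 else 0) + (if μ = bar ν then 1 else 0)
  deg : ∀ μ, ∑ χ, x μ χ * d χ = 0
  v : Λ → ℤ
  v_sq : ∀ μ, v μ = 1 ∨ v μ = -1
  v_e : v e = 1
  v_bar : ∀ μ, v (bar μ) = v μ
  v_sum : ∑ μ, v μ = 0
  r₀ : Λ
  r₀_ne : r₀ ≠ e
  r₀_bar : bar r₀ = r₀
  real : ∀ μ, bar μ = μ → μ = e ∨ μ = r₀
  C : ℚ
  L : ∀ μ, μ ≠ e → ∑ χ, (x μ χ : ℚ) * (((∑ ν, x ν χ * v ν) ^ 2 : ℤ) / (d χ : ℚ)) = C
  n₁ : ι → ℤ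
  deg' : ∀ χ, d χ = n₁ χ * (Fintype.card Λ : ℤ) - ∑ μ, x μ χ

namespace GD

variable {ι Λ : Type*} [Fintype ι] [DecidableEq ι] [Fintype Λ] [DecidableEq Λ] (D : GD ι Λ)

/-- Remove the principal character. -/
def y (μ : Λ) (χ : ι) : ℤ := D.x μ χ - dl D.one χ

/-- Nonreal. -/
def NR (μ : Λ) : Prop := μ ≠ D.e ∧ μ ≠ D.r₀

/-- The weight `χ(t)² / χ(1)`. -/
def F (χ : ι) : ℚ := (((∑ ν, D.x ν χ * D.v ν) ^ 2 : ℤ) : ℚ) / (D.d χ : ℚ)

theorem y_one {μ : Λ} (h : μ ≠ D.e) : D.y μ D.one = 0 := by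
  simp [y, D.x_one μ h]

theorem x_eq_y {μ : Λ} {χ : ι} (h : χ ≠ D.one) : D.x μ χ = D.y μ χ := by
  simp [y, dl_of_ne h]

theorem y_bar (μ : Λ) (χ : ι) : D.y (D.bar μ) χ = D.y μ χ := by
  simp [y, D.x_bar]

theorem gram_y {μ ν : Λ} (hμ : μ ≠ D.e) (hν : ν ≠ D.e) :
    ∑ χ, D.y μ χ * D.y ν χ = 1 + (if μ = ν then 1 else 0) + (if μ = D.bar ν then 1 else 0) := by
  have h1 : ∀ χ, D.y μ χ * D.y ν χ = D.x μ χ * D.x ν χ - dl D.one χ * D.x μ χ
      - dl D.one χ * D.x ν χ + dl D.one χ * dl D.one χ := by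
    intro χ
    simp only [y]
    ring
  simp only [h1, Finset.sum_add_distrib, Finset.sum_sub_distrib, sum_dl_mul, D.gram μ ν hμ hν,
    D.x_one μ hμ, D.x_one ν hν, dl_self]
  ring

theorem deg_y {μ : Λ} : ∑ χ, D.y μ χ * D.d χ = -1 := by
  have h1 : ∀ χ, D.y μ χ * D.d χ = D.x μ χ * D.d χ - dl D.one χ * D.d χ := by
    intro χ
    simp only [y]
    ring
  simp only [h1, Finset.sum_sub_distrib, sum_dl_mul, D.deg μ, D.done]
  ring

theorem NR_bar {μ : Λ} (h : D.NR μ) : D.NR (D.bar μ) := by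
  constructor
  · intro h0
    apply h.1
    rw [← D.barbar μ, h0, D.bar_e]
  · intro h0
    apply h.2
    rw [← D.barbar μ, h0, D.r₀_bar]

theorem bar_ne {μ : Λ} (h : D.NR μ) : D.bar μ ≠ μ := by
  intro h0
  rcases D.real μ h0 with h1 | h1
  · exact h.1 h1
  · exact h.2 h1

theorem sq_y {μ : Λ} (h : D.NR μ) : ∑ χ, D.y μ χ ^ 2 = 2 := by
  have := D.gram_y h.1 h.1
  simp only [pow_two]
  rw [this, if_pos rfl, if_neg (fun h0 => D.bar_ne h h0.symm)]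
  norm_num

theorem sq_y_r₀ : ∑ χ, D.y D.r₀ χ ^ 2 = 3 := by
  have := D.gram_y D.r₀_ne D.r₀_ne
  simp only [pow_two]
  rw [this, if_pos rfl, if_pos D.r₀_bar.symm]
  norm_num

theorem exists_pair {μ : Λ} (h : D.NR μ) : ∃ β γ : ι, β ≠ γ ∧ β ≠ D.one ∧ γ ≠ D.one ∧
    D.d γ = D.d β + 1 ∧ ∀ χ, D.y μ χ = dl β χ - dl γ χ := by
  obtain ⟨a, b, e₁, e₂, hab, he₁, he₂, hf⟩ := two_terms (D.y μ) (D.sq_y h)
  have hdeg := D.deg_y (μ := μ)
  have h1 : ∑ χ, D.y μ χ * D.d χ = e₁ * D.d a + e₂ * D.d b := by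
    have := sum_two_terms (R := ℤ) a b e₁ e₂ D.d
    simp only [Int.cast_id] at this
    rw [← this]
    exact Finset.sum_congr rfl fun χ _ => by rw [hf χ]
  rw [h1] at hdeg
  have ha0 : 0 < D.d a := D.dpos a
  have hb0 : 0 < D.d b := D.dpos b
  have hone := D.y_one h.1
  rw [hf D.one] at hone
  have hna : a ≠ D.one := by
    rintro rfl
    simp only [dl_self, dl_of_ne hab, mul_one, mul_zero, add_zero] at hone
    rcases he₁ with rfl | rfl <;> omega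
  have hnb : b ≠ D.one := by
    rintro rfl
    simp only [dl_self, dl_of_ne hab.symm, mul_one, mul_zero, zero_add] at hone
    rcases he₂ with rfl | rfl <;> omega
  rcases he₁ with rfl | rfl <;> rcases he₂ with rfl | rfl
  · exfalso; omega
  · refine ⟨a, b, hab, hna, hnb, by omega, fun χ => ?_⟩
    rw [hf χ]; ring
  · refine ⟨b, a, hab.symm, hnb, hna, by omega, fun χ => ?_⟩
    rw [hf χ]; ring
  · exfalso; omega

/-- The sum of `v` over the nonreal characters. -/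
noncomputable def NRf : Finset Λ := by
  classical exact univ.filter fun μ => D.NR μ

theorem mem_NRf {μ : Λ} : μ ∈ D.NRf ↔ D.NR μ := by
  simp [NRf]

theorem sum_split {R : Type*} [AddCommMonoid R] (G : Λ → R) :
    ∑ μ, G μ = G D.e + (G D.r₀ + ∑ μ ∈ D.NRf, G μ) := by
  have h : (univ : Finset Λ) = insert D.e (insert D.r₀ D.NRf) := by
    ext μ
    simp only [mem_univ, mem_insert, mem_NRf, NR, true_iff]
    tauto
  rw [h, sum_insert, sum_insert]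
  · simp [mem_NRf, NR]
  · simp only [mem_insert, mem_NRf, NR]
    rintro (h0 | h0)
    · exact D.r₀_ne h0.symm
    · exact h0.1 rfl

/-- `Σ_{μ ≠ 1} μ(t) = -1`. -/
theorem sum_v_NR : ∑ μ ∈ D.NRf, D.v μ = -1 - D.v D.r₀ := by
  have := D.sum_split D.v
  rw [D.v_sum, D.v_e] at this
  omega

/-- The value `Σ_μ x_μ(χ) μ(t)` away from the principal character. -/
theorem T_eq {χ : ι} (h : χ ≠ D.one) :
    ∑ ν, D.x ν χ * D.v ν = D.y D.r₀ χ * D.v D.r₀ + ∑ ν ∈ D.NRf, D.y ν χ * D.v ν := by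
  rw [D.sum_split, D.x_e, zero_mul, zero_add, D.x_eq_y h]
  congr 1
  exact Finset.sum_congr rfl fun ν _ => by rw [D.x_eq_y h]

theorem T_one : ∑ ν, D.x ν D.one * D.v ν = -1 := by
  rw [D.sum_split, D.x_e, zero_mul, zero_add, D.x_one _ D.r₀_ne, one_mul,
    Finset.sum_congr rfl (fun ν hν => by rw [D.x_one ν (D.mem_NRf.mp hν).1, one_mul]),
    D.sum_v_NR]
  ring

theorem F_one : D.F D.one = 1 := by
  simp [F, T_one, D.done]

theorem L' {μ : Λ} (h : μ ≠ D.e) : ∑ χ, (D.x μ χ : ℚ) * D.F χ = D.C := by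
  have := D.L μ h
  simpa [F] using this

/-- Structure of a sunflower center. -/
structure IsCenter (St : ι) (ε : ℤ) (P : Λ → ι) : Prop where
  he : ε = 1 ∨ ε = -1
  hne : St ≠ D.one
  hP : ∀ ν, D.NR ν → P ν ≠ St ∧ P ν ≠ D.one ∧ D.d (P ν) = D.d St + ε ∧
    ∀ χ, D.y ν χ = ε * (dl St χ - dl (P ν) χ)

/-- The expansion of `x` near a center. -/
theorem sum_x_center {St : ι} {ε : ℤ} {P : Λ → ι} (hc : D.IsCenter St ε P) {ν : Λ} (hν : D.NR ν)
    (G : ι → ℚ) : ∑ χ, (D.x ν χ : ℚ) * G χ = G D.one + ε * G St - ε * G (P ν) := by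
  have h1 : ∀ χ, (D.x ν χ : ℚ) * G χ =
      (dl D.one χ : ℚ) * G χ + ε * ((dl St χ : ℚ) * G χ) - ε * ((dl (P ν) χ : ℚ) * G χ) := by
    intro χ
    have h2 : D.x ν χ = dl D.one χ + D.y ν χ := by simp [y]
    rw [h2, (hc.hP ν hν).2.2.2 χ]
    push_cast
    ring
  simp only [h1, Finset.sum_add_distrib, Finset.sum_sub_distrib, ← Finset.mul_sum, sum_dl_mul_q]

theorem eq_or_bar_of_P {St : ι} {ε : ℤ} {P : Λ → ι} (hc : D.IsCenter St ε P) {ν l : Λ}
    (hν : D.NR ν) (hl : D.NR l) (h : P l = P ν) : l = ν ∨ l = D.bar ν := by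
  by_contra hcon
  push Not at hcon
  have h1 := D.gram_y hl.1 hν.1
  rw [if_neg hcon.1, if_neg hcon.2] at h1
  have h2 : ∀ χ, D.y l χ = D.y ν χ := by
    intro χ
    rw [(hc.hP l hl).2.2.2 χ, (hc.hP ν hν).2.2.2 χ, h]
  simp only [h2] at h1
  have h3 := D.sq_y hν
  simp only [pow_two] at h3
  rw [h3] at h1
  norm_num at h1

theorem P_bar {St : ι} {ε : ℤ} {P : Λ → ι} (hc : D.IsCenter St ε P) {ν : Λ} (hν : D.NR ν) :
    P (D.bar ν) = P ν := by
  have h1 := (hc.hP _ (D.NR_bar hν)).2.2.2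
  have h2 := (hc.hP _ hν).2.2.2
  have hs := (hc.hP _ hν).1
  have hε : ε ≠ 0 := by rcases hc.he with h | h <;> rw [h] <;> norm_num
  have h3 : ∀ χ, dl St χ - dl (P (D.bar ν)) χ = dl St χ - dl (P ν) χ := by
    intro χ
    have := D.y_bar ν χ
    rw [h1, h2] at this
    exact mul_left_cancel₀ hε this
  exact ((dl_sub_inj (Ne.symm (hc.hP _ (D.NR_bar hν)).1) h3).2)

/-- Sum over the nonreal characters of a delta at a petal. -/
theorem sum_NR_dl_P {St : ι} {ε : ℤ} {P : Λ → ι} (hc : D.IsCenter St ε P) {ν : Λ} (hν : D.NR ν)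
    (G : Λ → ℤ) : ∑ l ∈ D.NRf, dl (P l) (P ν) * G l = G ν + G (D.bar ν) := by
  have hsub : ({ν, D.bar ν} : Finset Λ) ⊆ D.NRf := by
    intro l hl
    simp only [mem_insert, mem_singleton] at hl
    rcases hl with rfl | rfl
    · exact D.mem_NRf.mpr hν
    · exact D.mem_NRf.mpr (D.NR_bar hν)
  rw [← Finset.sum_subset hsub, Finset.sum_pair (D.bar_ne hν).symm, D.P_bar hc hν]
  · simp
  · intro l hl hl'
    simp only [mem_insert, mem_singleton, not_or] at hl'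
    rw [dl_of_ne, zero_mul]
    intro h0
    rcases D.eq_or_bar_of_P hc hν (D.mem_NRf.mp hl) h0.symm with h1 | h1
    · exact hl'.1 h1
    · exact hl'.2 h1

/-- The value at a petal. -/
theorem T_P {St : ι} {ε : ℤ} {P : Λ → ι} (hc : D.IsCenter St ε P) {ν : Λ} (hν : D.NR ν) :
    ∑ l, D.x l (P ν) * D.v l = D.y D.r₀ (P ν) * D.v D.r₀ - 2 * ε * D.v ν := by
  rw [D.T_eq (hc.hP ν hν).2.1]
  congr 1
  have h1 : ∀ l ∈ D.NRf, D.y l (P ν) * D.v l = -ε * (dl (P l) (P ν) * D.v l) := by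
    intro l hl
    rw [(hc.hP l (D.mem_NRf.mp hl)).2.2.2, dl_of_ne (hc.hP ν hν).1]
    ring
  rw [Finset.sum_congr rfl h1, ← Finset.mul_sum, D.sum_NR_dl_P hc hν, D.v_bar]
  ring

theorem w_rel {St : ι} {ε : ℤ} {P : Λ → ι} (hc : D.IsCenter St ε P) {ν : Λ} (hν : D.NR ν) :
    ε * (D.y D.r₀ St - D.y D.r₀ (P ν)) = 1 := by
  have h1 := D.gram_y D.r₀_ne hν.1
  rw [if_neg (Ne.symm hν.2)] at h1
  have h2 : D.r₀ ≠ D.bar ν := by
    intro h0
    apply hν.2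
    rw [← D.barbar ν, ← h0, D.r₀_bar]
  rw [if_neg h2] at h1
  have h3 : ∑ χ, D.y D.r₀ χ * D.y ν χ = ε * (D.y D.r₀ St - D.y D.r₀ (P ν)) := by
    have h4 : ∀ χ, D.y D.r₀ χ * D.y ν χ = ε * (dl St χ * D.y D.r₀ χ - dl (P ν) χ * D.y D.r₀ χ) := by
      intro χ
      rw [(hc.hP ν hν).2.2.2 χ]
      ring
    simp only [h4, ← Finset.mul_sum, Finset.sum_sub_distrib, sum_dl_mul]
  rw [← h3, h1]
  norm_num

theorem w_bound (χ : ι) : D.y D.r₀ χ = -1 ∨ D.y D.r₀ χ = 0 ∨ D.y D.r₀ χ = 1 := by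
  have h1 : D.y D.r₀ χ ^ 2 ≤ 3 := by
    rw [← D.sq_y_r₀]
    exact single_le_sum (f := fun χ => D.y D.r₀ χ ^ 2) (fun _ _ => sq_nonneg _) (mem_univ χ)
  have h4 : D.y D.r₀ χ ≤ 1 := by nlinarith
  have h5 : -1 ≤ D.y D.r₀ χ := by nlinarith
  omega

theorem sq_v (μ : Λ) : D.v μ * D.v μ = 1 := by
  rcases D.v_sq μ with h | h <;> rw [h] <;> norm_num

/-- A weird center is impossible when two petals are different. -/
theorem weird_false {St : ι} {ε : ℤ} {P : Λ → ι} (hc : D.IsCenter St ε P)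
    (hw : ∀ ν, D.NR ν → D.y D.r₀ (P ν) = -ε) {ν₀ ν₁ : Λ} (h₀ : D.NR ν₀) (h₁ : D.NR ν₁)
    (hne : P ν₀ ≠ P ν₁) : False := by
  have hεsq : ε * ε = 1 := by rcases hc.he with h | h <;> rw [h] <;> norm_num
  set τ := D.v D.r₀ with hτ
  have hτsq : τ * τ = 1 := D.sq_v _
  -- the squares of the petal values are the same for all `ν`
  have hT : ∀ ν, D.NR ν → D.F (P ν) = ((1 + 4 * τ * D.v ν + 4 : ℤ) : ℚ) / ((D.d St + ε : ℤ) : ℚ) := by
    intro ν hν
    unfold F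
    rw [D.T_P hc hν, hw ν hν, (hc.hP ν hν).2.2.1]
    congr 2
    have : (-ε * τ - 2 * ε * D.v ν) ^ 2 =
        (ε * ε) * (τ * τ) + 4 * τ * D.v ν * (ε * ε) + 4 * (ε * ε) * (D.v ν * D.v ν) := by ring
    rw [this, hεsq, hτsq, D.sq_v]
    ring
  have hFeq : ∀ ν, D.NR ν → D.F (P ν) = D.F (P ν₀) := by
    intro ν hν
    have h1 := D.L' hν.1
    have h2 := D.L' h₀.1
    rw [D.sum_x_center hc hν] at h1
    rw [D.sum_x_center hc h₀] at h2
    have hε : (ε : ℚ) ≠ 0 := by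
      rcases hc.he with h | h <;> rw [h] <;> norm_num
    have h3 : (ε : ℚ) * D.F (P ν) = ε * D.F (P ν₀) := by linarith
    exact mul_left_cancel₀ hε h3
  have hpos : ((D.d St + ε : ℤ) : ℚ) ≠ 0 := by
    have := D.dpos (P ν₀)
    rw [(hc.hP ν₀ h₀).2.2.1] at this
    exact_mod_cast this.ne'
  have hveq : ∀ ν, D.NR ν → D.v ν = D.v ν₀ := by
    intro ν hν
    have h1 := hFeq ν hν
    rw [hT ν hν, hT ν₀ h₀, div_left_inj' hpos] at h1
    have h2 : 1 + 4 * τ * D.v ν + 4 = 1 + 4 * τ * D.v ν₀ + 4 := by exact_mod_cast h1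
    have h3 : τ * D.v ν = τ * D.v ν₀ := by linarith
    have hτ0 : τ ≠ 0 := by
      intro h0
      rw [h0] at hτsq
      norm_num at hτsq
    exact mul_left_cancel₀ hτ0 h3
  -- counting
  have hsum := D.sum_v_NR
  rw [Finset.sum_congr rfl (fun ν hν => hveq ν (D.mem_NRf.mp hν)), Finset.sum_const, nsmul_eq_mul] at hsum
  have hcard : 4 ≤ D.NRf.card := by
    have hsub : ({ν₀, D.bar ν₀, ν₁, D.bar ν₁} : Finset Λ) ⊆ D.NRf := by
      intro l hl
      simp only [mem_insert, mem_singleton] at hl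
      rcases hl with rfl | rfl | rfl | rfl
      · exact D.mem_NRf.mpr h₀
      · exact D.mem_NRf.mpr (D.NR_bar h₀)
      · exact D.mem_NRf.mpr h₁
      · exact D.mem_NRf.mpr (D.NR_bar h₁)
    have hc4 : ({ν₀, D.bar ν₀, ν₁, D.bar ν₁} : Finset Λ).card = 4 := by
      have n1 : ν₀ ≠ D.bar ν₀ := (D.bar_ne h₀).symm
      have n2 : ν₀ ≠ ν₁ := fun h => hne (by rw [h])
      have n3 : ν₀ ≠ D.bar ν₁ := fun h => hne (by rw [h, D.P_bar hc h₁])
      have n4 : D.bar ν₀ ≠ ν₁ := fun h => hne (by rw [← h, D.P_bar hc h₀])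
      have n5 : D.bar ν₀ ≠ D.bar ν₁ := fun h => hne (by rw [← D.P_bar hc h₀, h, D.P_bar hc h₁])
      have n6 : ν₁ ≠ D.bar ν₁ := (D.bar_ne h₁).symm
      rw [card_insert_of_notMem, card_insert_of_notMem, card_insert_of_notMem, card_singleton]
      · simpa using n6
      · simp [n4, n5]
      · simp [n1, n2, n3]
    rw [← hc4]
    exact card_le_card hsub
  rcases D.v_sq ν₀ with h | h <;> rcases D.v_sq D.r₀ with h' | h' <;> rw [h, h'] at hsum <;> omega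

/-- Existence of a good center. -/
theorem exists_center {μ₀ : Λ} (h₀ : D.NR μ₀) :
    ∃ (St : ι) (ε : ℤ) (P : Λ → ι), D.IsCenter St ε P ∧ D.y D.r₀ St = ε := by
  classical
  have hpair : ∀ μ, ∃ β γ : ι, D.NR μ → (β ≠ γ ∧ β ≠ D.one ∧ γ ≠ D.one ∧
      D.d γ = D.d β + 1 ∧ ∀ χ, D.y μ χ = dl β χ - dl γ χ) := by
    intro μ
    by_cases h : D.NR μ
    · obtain ⟨β, γ, h1⟩ := D.exists_pair h
      exact ⟨β, γ, fun _ => h1⟩
    · exact ⟨D.one, D.one, fun h' => absurd h' h⟩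
  choose β γ hβγ using hpair
  -- the pair structure
  have hsame : ∀ {ν}, D.NR ν → β (D.bar ν) = β ν ∧ γ (D.bar ν) = γ ν := by
    intro ν hν
    obtain ⟨h1, -, -, -, h5⟩ := hβγ _ (D.NR_bar hν)
    obtain ⟨_, -, -, -, h6⟩ := hβγ _ hν
    refine dl_sub_inj h1 fun χ => ?_
    rw [← h5, ← h6, D.y_bar]
  have hcases : ∀ {μ ν}, D.NR μ → D.NR ν → ν ≠ μ → ν ≠ D.bar μ →
      (β ν = β μ ∧ γ ν ≠ γ μ) ∨ (γ ν = γ μ ∧ β ν ≠ β μ) := by
    intro μ ν hμ hν h1 h2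
    have hg := D.gram_y hν.1 hμ.1
    rw [if_neg h1, if_neg h2] at hg
    obtain ⟨a1, -, -, -, a5⟩ := hβγ _ hμ
    obtain ⟨b1, -, -, -, b5⟩ := hβγ _ hν
    have h3 : ∑ χ, D.y ν χ * D.y μ χ = D.y ν (β μ) - D.y ν (γ μ) := by
      have h4 : ∀ χ, D.y ν χ * D.y μ χ = dl (β μ) χ * D.y ν χ - dl (γ μ) χ * D.y ν χ := by
        intro χ
        rw [a5 χ]
        ring
      simp only [h4, Finset.sum_sub_distrib, sum_dl_mul]
    rw [h3, b5, b5] at hg
    have hval : ∀ p q : ι, (p = q ∧ dl q p = 1) ∨ (p ≠ q ∧ dl q p = 0) := by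
      intro p q
      by_cases h : p = q
      · left
        exact ⟨h, by simp [dl, h]⟩
      · right
        exact ⟨h, by simp [dl, h]⟩
    rcases hval (β μ) (β ν) with ⟨e1, h1'⟩ | ⟨e1, h1'⟩ <;>
    rcases hval (β μ) (γ ν) with ⟨e2, h2'⟩ | ⟨e2, h2'⟩ <;>
    rcases hval (γ μ) (β ν) with ⟨e3, h3'⟩ | ⟨e3, h3'⟩ <;>
    rcases hval (γ μ) (γ ν) with ⟨e4, h4'⟩ | ⟨e4, h4'⟩ <;>
    rw [h1', h2', h3', h4'] at hg <;>
      first
        | omega
        | exact absurd (e1.trans e3.symm) a1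
        | exact absurd (e2.trans e4.symm) a1
        | exact absurd (e1.symm.trans e2) b1
        | exact absurd (e3.symm.trans e4) b1
        | (left; exact ⟨e1.symm, fun h => e4 h.symm⟩)
        | (right; exact ⟨e4.symm, fun h => e1 h.symm⟩)
  obtain ⟨a1, a2, a3, a4, a5⟩ := hβγ _ h₀
  have hA : (∀ ν, D.NR ν → β ν = β μ₀) → D.IsCenter (β μ₀) 1 γ := by
    intro h
    refine ⟨Or.inl rfl, a2, fun ν hν => ?_⟩
    obtain ⟨b1, b2, b3, b4, b5⟩ := hβγ _ hν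
    rw [← h ν hν]
    exact ⟨b1.symm, b3, b4, fun χ => by rw [b5]; ring⟩
  have hB : (∀ ν, D.NR ν → γ ν = γ μ₀) → D.IsCenter (γ μ₀) (-1) β := by
    intro h
    refine ⟨Or.inr rfl, a3, fun ν hν => ?_⟩
    obtain ⟨b1, b2, b3, b4, b5⟩ := hβγ _ hν
    rw [← h ν hν]
    exact ⟨b1, b2, by omega, fun χ => by rw [b5]; ring⟩
  -- a center exists
  have hex : ∃ (St : ι) (ε : ℤ) (P : Λ → ι), D.IsCenter St ε P := by
    by_cases h1 : ∀ ν, D.NR ν → β ν = β μ₀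
    · exact ⟨_, _, _, hA h1⟩
    · by_cases h2 : ∀ ν, D.NR ν → γ ν = γ μ₀
      · exact ⟨_, _, _, hB h2⟩
      · exfalso
        push Not at h1 h2
        obtain ⟨ν₁, h11, h12⟩ := h1
        obtain ⟨ν₂, h21, h22⟩ := h2
        have n1 : ν₁ ≠ μ₀ := fun h => h12 (by rw [h])
        have n2 : ν₁ ≠ D.bar μ₀ := fun h => h12 (by rw [h, (hsame h₀).1])
        have n3 : ν₂ ≠ μ₀ := fun h => h22 (by rw [h])
        have n4 : ν₂ ≠ D.bar μ₀ := fun h => h22 (by rw [h, (hsame h₀).2])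
        have c1 : γ ν₁ = γ μ₀ := by
          rcases hcases h₀ h11 n1 n2 with h | h
          · exact absurd h.1 h12
          · exact h.1
        have c2 : β ν₂ = β μ₀ := by
          rcases hcases h₀ h21 n3 n4 with h | h
          · exact h.1
          · exact absurd h.1 h22
        have n5 : ν₂ ≠ ν₁ := fun h => h12 (by rw [← h, c2])
        have n6 : ν₂ ≠ D.bar ν₁ := fun h => h12 (by rw [← (hsame h11).1, ← h, c2])
        rcases hcases h11 h21 n5 n6 with h | h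
        · exact h12 (by rw [← h.1, c2])
        · exact h22 (by rw [h.1, c1])
  obtain ⟨St, ε, P, hc⟩ := hex
  have hεsq : ε * ε = 1 := by rcases hc.he with h | h <;> rw [h] <;> norm_num
  by_cases hw : D.y D.r₀ St = ε
  · exact ⟨St, ε, P, hc, hw⟩
  -- otherwise weird
  have hW : D.y D.r₀ St = 0 ∧ ∀ ν, D.NR ν → D.y D.r₀ (P ν) = -ε := by
    have h1 := D.w_rel hc h₀
    have h2 := D.w_bound St
    have h3 := D.w_bound (P μ₀)
    have hSt0 : D.y D.r₀ St = 0 := by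
      rcases hc.he with h | h <;> rw [h] at h1 hw <;> omega
    refine ⟨hSt0, fun ν hν => ?_⟩
    have h4 := D.w_rel hc hν
    rw [hSt0] at h4
    rcases hc.he with h | h <;> rw [h] at h4 ⊢ <;> omega
  by_cases hall : ∀ ν, D.NR ν → P ν = P μ₀
  · -- swap the center
    have h5 := hc.hP μ₀ h₀
    refine ⟨P μ₀, -ε, fun _ => St, ⟨?_, h5.2.1, fun ν hν => ?_⟩, hW.2 μ₀ h₀⟩
    · rcases hc.he with h | h <;> rw [h] <;> simp
    · have h6 := hc.hP ν hν
      rw [hall ν hν] at h6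
      refine ⟨h5.1.symm, hc.hne, ?_, fun χ => ?_⟩
      · rw [h5.2.2.1]; ring
      · rw [h6.2.2.2 χ]; ring
  · exfalso
    push Not at hall
    obtain ⟨ν₁, h11, h12⟩ := hall
    exact D.weird_false hc hW.2 h₀ h11 (Ne.symm h12)

end GD

end Cfsg.Agent.Lib.BSW
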