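import Cfsg.Agent.Lib.BSW.Plus

/-!
# Abstract Brauer–Suzuki–Wall: general lemmas for the case `q = 2k - 1`
-/

set_option autoImplicit false
set_option linter.unusedSectionVars false
set_option linter.unusedVariables false
set_option linter.unusedSimpArgs false
set_option linter.unnecessarySimpa false

namespace Cfsg.Agent.Lib.BSW

open Classical Finset

universe u

section General

variable {G : Type u} [Group G] [Finite G]

/-- A `p`-subgroup conjugates into any subgroup of index prime to `p`. -/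
theorem exists_conj_le {r : ℕ} [Fact r.Prime] {T : Subgroup G} (hT : IsPGroup r T) (L : Subgroup G)
    (h : ¬ r ∣ L.index) : ∃ y : G, ∀ w ∈ T, y⁻¹ * w * y ∈ L := by
  have h1 : ¬ r ∣ Nat.card (G ⧸ L) := by
    rw [← Subgroup.index_eq_card]
    exact h
  obtain ⟨a, ha⟩ := hT.nonempty_fixed_point_of_prime_not_dvd_card (G ⧸ L) h1
  obtain ⟨y, rfl⟩ := QuotientGroup.mk_surjective a
  refine ⟨y, fun w hw => ?_⟩
  have h2 := ha ⟨w, hw⟩
  have h3 : ((w * y : G) : G ⧸ L) = (y : G ⧸ L) := h2
  rw [QuotientGroup.eq] at h3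
  have h4 : (w * y)⁻¹ * y = y⁻¹ * w⁻¹ * y := by group
  rw [h4] at h3
  have h5 := L.inv_mem h3
  have h6 : (y⁻¹ * w⁻¹ * y)⁻¹ = y⁻¹ * w * y := by group
  rwa [h6] at h5

/-- A free action of a finite group on a finite set. -/
theorem card_dvd_of_free {F X : Type*} [Group F] [Finite F] [MulAction F X] [Finite X]
    (h : ∀ (a : F) (x : X), a • x = x → a = 1) : Nat.card F ∣ Nat.card X := by
  have : Fintype X := Fintype.ofFinite X
  have : Fintype (Quotient (MulAction.orbitRel F X)) := Fintype.ofFinite _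
  have e := MulAction.selfEquivSigmaOrbits F X
  rw [Nat.card_congr e, Nat.card_sigma]
  refine Finset.dvd_sum fun ω _ => ?_
  have h1 : MulAction.stabilizer F (Quotient.out ω) = ⊥ := by
    rw [eq_bot_iff]
    intro a ha
    rw [Subgroup.mem_bot]
    exact h a _ ha
  have h2 := Subgroup.card_mul_index (MulAction.stabilizer F (Quotient.out ω))
  rw [MulAction.index_stabilizer, h1, Subgroup.card_bot, one_mul] at h2
  have h3 : Nat.card (MulAction.orbit F (Quotient.out ω)) = Nat.card F := by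
    rw [Nat.card_coe_set_eq]
    exact h2
  rw [h3]

/-- A proper subgroup of a `p`-group grows in its normalizer. -/
theorem exists_mem_normalizer_of_lt {p : ℕ} [Fact p.Prime] {P R : Subgroup G} (hP : IsPGroup p P)
    (hlt : R < P) : ∃ w ∈ P, w ∉ R ∧ w ∈ Subgroup.normalizer (R : Set G) := by
  haveI : Group.IsNilpotent P := hP.isNilpotent
  have hnc := normalizerCondition_of_isNilpotent (G := P)
  have hR : R.subgroupOf P < ⊤ := by
    rw [lt_top_iff_ne_top]
    intro h
    rw [Subgroup.subgroupOf_eq_top] at h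
    exact absurd h (not_le_of_gt hlt)
  have h1 := hnc _ hR
  obtain ⟨w, hw1, hw2⟩ := SetLike.exists_of_lt h1
  refine ⟨w, w.2, fun h => hw2 (Subgroup.mem_subgroupOf.mpr h), ?_⟩
  rw [Subgroup.mem_normalizer_iff]
  intro x
  have hR' := hlt.le
  constructor
  · intro hx
    have hx' : x ∈ R := hx
    let x' : P := ⟨x, hR' hx'⟩
    have h2 := (Subgroup.mem_normalizer_iff'.mp hw1)
    have h3 := (Subgroup.mem_normalizer_iff.mp hw1 x').mp (Subgroup.mem_subgroupOf.mpr hx')
    exact Subgroup.mem_subgroupOf.mp h3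
  · intro hx
    have hx' : (w : G) * x * (w : G)⁻¹ ∈ R := hx
    have hxP : x ∈ P := by
      have h4 := hR' hx'
      have e : x = (w : G)⁻¹ * ((w : G) * x * (w : G)⁻¹) * w := by group
      rw [e]
      exact P.mul_mem (P.mul_mem (P.inv_mem w.2) h4) w.2
    let x' : P := ⟨x, hxP⟩
    have h3 := (Subgroup.mem_normalizer_iff.mp hw1 x').mpr (Subgroup.mem_subgroupOf.mpr hx')
    exact Subgroup.mem_subgroupOf.mp h3

/-- Burnside for all primes but `p` gives a normal `p`-subgroup containing all elements of order `p`. -/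
theorem burnside_all {Y : Type*} [Group Y] [Finite Y] {p : ℕ} [Fact p.Prime]
    (h : ∀ r : ℕ, r.Prime → r ≠ p → ∀ R : Sylow r Y,
      Subgroup.normalizer (R : Set Y) ≤ Subgroup.centralizer (R : Set Y)) :
    ∃ N : Subgroup Y, IsPGroup p N ∧ ∀ w : Y, orderOf w = p → w ∈ N := by
  have hex : ∀ r : {r : ℕ // r.Prime ∧ r ≠ p}, ∃ N : Subgroup Y, ¬ r.1 ∣ Nat.card N ∧
      ∀ w : Y, orderOf w = p → w ∈ N := by
    rintro ⟨r, hr, hrp⟩
    haveI : Fact r.Prime := ⟨hr⟩
    obtain ⟨R⟩ : Nonempty (Sylow r Y) := inferInstance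
    have hR := h r hr hrp R
    refine ⟨(MonoidHom.transferSylow R hR).ker, MonoidHom.not_dvd_card_ker_transferSylow R hR, ?_⟩
    intro w hw
    rw [MonoidHom.mem_ker]
    set u := MonoidHom.transferSylow R hR w with hu
    have h1 : u ^ p = 1 := by
      rw [hu, ← map_pow, ← hw, pow_orderOf_eq_one, map_one]
    have h2 : IsPGroup r (R : Subgroup Y) := R.2
    obtain ⟨n, hn⟩ := h2 u
    have hcop : Nat.Coprime p (r ^ n) := by
      apply Nat.Coprime.pow_right
      exact (Nat.coprime_primes (Fact.out) hr).mpr (Ne.symm hrp)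
    have h3 : orderOf u ∣ p := orderOf_dvd_of_pow_eq_one h1
    have h4 : orderOf u ∣ r ^ n := orderOf_dvd_of_pow_eq_one hn
    have h5 : orderOf u = 1 := Nat.eq_one_of_dvd_coprimes hcop h3 h4
    exact orderOf_eq_one_iff.mp h5
  choose N hN1 hN2 using hex
  refine ⟨⨅ r, N r, ?_, ?_⟩
  · rw [IsPGroup.iff_orderOf]
    rintro ⟨x, hx⟩
    rw [Subgroup.orderOf_mk]
    have hall : ∀ q : ℕ, q.Prime → q ∣ orderOf x → q = p := by
      intro q hq hd
      by_contra hne
      have h1 := hN1 ⟨q, hq, hne⟩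
      apply h1
      have h2 : x ∈ N ⟨q, hq, hne⟩ := (Subgroup.mem_iInf.mp hx) _
      have h3 : orderOf (⟨x, h2⟩ : N ⟨q, hq, hne⟩) = orderOf x := Subgroup.orderOf_mk _ _
      rw [← h3] at hd
      exact hd.trans (orderOf_dvd_natCard _)
    have hpos : orderOf x ≠ 0 := (orderOf_pos x).ne'
    exact ⟨_, Nat.eq_prime_pow_of_unique_prime_dvd hpos (fun {d} hd h' => hall d hd h')⟩
  · intro w hw
    exact Subgroup.mem_iInf.mpr fun r => hN2 r w hw

end General

end Cfsg.Agent.Lib.BSW
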