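import Cfsg.Agent.Lib.BSW.Minus1

/-!
# Abstract Brauer–Suzuki–Wall: the case `q = 2k - 1`, the real and nonreal elements
-/

set_option autoImplicit false
set_option linter.unusedSectionVars false
set_option linter.unusedVariables false
set_option linter.unusedSimpArgs false
set_option linter.unnecessarySimpa false

open scoped ComplexConjugate

namespace Cfsg.Agent.Lib.BSW

open Classical Finset
open Cfsg (classInner IsCharacter IsIrrCharacter IrrCharacter IsClassFunction indFun
  extendByZero charDegree IsGeneralizedCharacter)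
open Cfsg.Agent.Lib.Char

universe u

variable {G : Type u} [Group G] [Fintype G]

/-- The numerical data in the case `q = 2k - 1`. -/
structure Minus (S : Setup G) (d : ℕ) (St : IrrCharacter G) : Prop where
  hk : Nat.card S.K = d + 1
  hd3 : 3 ≤ d
  hm : mm G = (2 * d + 1) * d
  hSt : St ≠ oneG G
  hdeg : dd St = 2 * (d : ℤ) + 1
  hB : ∀ g, S.IsA g → (BB g : ℂ) = (d : ℂ) * St.1 g

namespace Minus

variable {S : Setup G} {d : ℕ} {St : IrrCharacter G} (M : Minus S d St)

include M

theorem d_odd : Odd d := by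
  have h := S.mm_odd
  rw [M.hm] at h
  exact (Nat.odd_mul.mp h).2

theorem card_G : Fintype.card G = 2 * (d + 1) * ((2 * d + 1) * d) := by
  rw [S.card_G, M.hk, M.hm]

theorem val {g : G} (hg : S.IsA g) : ∃ s : ℤ, St.1 g = s ∧ (BB g : ℤ) = d * s := by
  have hd0 : d ≠ 0 := by have := M.hd3; omega
  obtain ⟨s, hs⟩ := Setup.int_of_mul (IsCharacter.isIntegral' (IsIrrCharacter.isCharacter St.2) g) hd0
    (N := (BB g : ℤ)) (by
      have := M.hB g hg
      push_cast
      rw [this])
  refine ⟨s, hs, ?_⟩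
  have h1 := M.hB g hg
  rw [hs] at h1
  exact_mod_cast h1

/-- Real elements have centralizers of order `d`. -/
theorem real_card {g x : G} (hg : S.IsA g) (hx : orderOf x = 2) (hxg : x * g * x = g⁻¹) :
    Nat.card (Cn g) = d := by
  have hd3 := M.hd3
  have hdz : (d : ℤ) ≠ 0 := by
    have : d ≠ 0 := by omega
    exact_mod_cast this
  have hdge : (3 : ℤ) ≤ d := by exact_mod_cast hd3
  have hBc := S.BB_A_eq_card hg hx hxg
  obtain ⟨s, hs, hBs⟩ := M.val hg
  have hconst : ∀ w ∈ Cn g, w ≠ 1 → St.1 w = s := by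
    intro w hw hw1
    have hwA := hg.of_mem (mem_Cn.mp hw) hw1
    obtain ⟨s', hs', hBs'⟩ := M.val hwA
    have h1 := S.BB_A_eq_card hwA hx (hg.inverts hx hxg w hw)
    rw [hg.cn_eq hx hxg hw hw1, ← hBc] at h1
    rw [h1, hBs] at hBs'
    have h3 := mul_left_cancel₀ hdz hBs'
    rw [hs', h3]
  have hdvd := Setup.card_dvd_sub (L := Cn g) St s hconst
  rw [M.hdeg] at hdvd
  have hbound := Setup.column_bound St M.hSt g
  rw [hs] at hbound
  have hnorm : ‖((s : ℤ) : ℂ)‖ ^ 2 = ((s : ℝ)) ^ 2 := by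
    rw [Complex.norm_intCast, sq_abs]
  rw [hnorm] at hbound
  have hbound' : 1 + s ^ 2 ≤ (Nat.card (Cn g) : ℤ) := by exact_mod_cast hbound
  have hl : (Nat.card (Cn g) : ℤ) = d * s := by
    rw [← hBc]; exact hBs
  rw [hl] at hbound' hdvd
  have hs0 : 0 < s := by
    by_contra hcon
    push Not at hcon
    nlinarith [sq_nonneg s]
  have hsd : s < d := by
    by_contra hcon
    push Not at hcon
    nlinarith
  have hs1 : s = 1 := by
    by_contra hne
    have hs2 : 2 ≤ s := by omega
    have h3 := Int.le_of_dvd (by omega) hdvd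
    nlinarith
  have : (Nat.card (Cn g) : ℤ) = d := by rw [hl, hs1, mul_one]
  exact_mod_cast this

end Minus

namespace Setup

variable (S : Setup G)

/-- An element inverted by an involution. -/
def Re (g : G) : Prop := ∃ x, orderOf x = 2 ∧ x * g * x = g⁻¹

/-- The elements of `A` which are not real. -/
noncomputable def A1 : Finset G := S.AA.filter fun g => ¬ Re g

variable {S}

theorem mem_A1 {g : G} : g ∈ S.A1 ↔ S.IsA g ∧ ¬ Re g := by
  simp [A1, mem_AA]

theorem Re.conj {g : G} (h : Re g) (y : G) : Re (y * g * y⁻¹) := by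
  obtain ⟨x, hx, hxg⟩ := h
  have hxx := mul_self_of_two hx
  refine ⟨y * x * y⁻¹, by rw [orderOf_conj']; exact hx, ?_⟩
  calc y * x * y⁻¹ * (y * g * y⁻¹) * (y * x * y⁻¹) = y * (x * g * x) * y⁻¹ := by group
    _ = y * g⁻¹ * y⁻¹ := by rw [hxg]
    _ = _ := by group

theorem Re.of_conj {g y : G} (h : Re (y * g * y⁻¹)) : Re g := by
  have := Re.conj h y⁻¹
  have e : y⁻¹ * (y * g * y⁻¹) * y⁻¹⁻¹ = g := by group
  rwa [e] at this

theorem A1_conj {g : G} (h : g ∈ S.A1) (y : G) : y * g * y⁻¹ ∈ S.A1 := by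
  rw [mem_A1] at h ⊢
  exact ⟨h.1.conj y, fun h2 => h.2 (Re.of_conj h2)⟩

theorem Re.inv {g : G} (h : Re g) : Re g⁻¹ := by
  obtain ⟨x, hx, hxg⟩ := h
  have hxx := mul_self_of_two hx
  refine ⟨x, hx, ?_⟩
  rw [inv_inv]
  calc x * g⁻¹ * x = (x * g * x)⁻¹ * (x * x) ^ 2 * 1 := by
        rw [hxx]
        have hxi := inv_of_two hx
        simp only [mul_inv_rev, hxi, one_pow, mul_one]
        group
    _ = g := by rw [hxg, hxx]; simp

theorem A1_inv {g : G} (h : g ∈ S.A1) : g⁻¹ ∈ S.A1 := by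
  rw [mem_A1] at h ⊢
  refine ⟨h.1.inv, fun h2 => h.2 ?_⟩
  have := Re.inv h2
  simpa using this

theorem A1_of_mem {g w : G} (h : g ∈ S.A1) (hw : w ∈ Cn g) (hw1 : w ≠ 1) : w ∈ S.A1 := by
  rw [mem_A1] at h ⊢
  have hwA := h.1.of_mem (mem_Cn.mp hw) hw1
  refine ⟨hwA, ?_⟩
  rintro ⟨x, hx, hxw⟩
  apply h.2
  have hgw : g ∈ Cn w := by rw [mem_Cn]; exact (mem_Cn.mp hw).symm
  exact ⟨x, hx, hwA.inverts hx hxw g hgw⟩

theorem Re_or_A1 {g : G} (hg : S.IsA g) : Re g ∨ g ∈ S.A1 := by
  by_cases h : Re g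
  · exact Or.inl h
  · exact Or.inr (mem_A1.mpr ⟨hg, h⟩)

end Setup

namespace Minus

variable {S : Setup G} {d : ℕ} {St : IrrCharacter G} (M : Minus S d St)

include M

theorem card_WW : S.WW.card + 1 = d ^ 2 := by
  have h := S.card_WW_rel
  rw [M.hk, M.hm] at h
  simp only [Nat.add_sub_cancel] at h
  have : (S.WW.card + 1 : ℤ) = (d : ℤ) ^ 2 := by
    have h2 : ((S.WW.card : ℤ) + 1 + d * (d + 1)) = (2 * d + 1) * d := by exact_mod_cast h
    linarith
  exact_mod_cast this

theorem exists_W : ∃ g₀, S.IsA g₀ ∧ S.t * g₀ * S.t = g₀⁻¹ := by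
  have h := M.card_WW
  have hd3 := M.hd3
  have h1 : 0 < S.WW.card := by nlinarith
  obtain ⟨g, hg⟩ := Finset.card_pos.mp h1
  exact ⟨g, (S.mem_WW.mp hg).1, (S.mem_WW.mp hg).2⟩

theorem card_A1 : S.A1.card = 4 * d * (d + 1) := by
  have hd3 := M.hd3
  have hd0 : 0 < d := by omega
  -- the sum of `BB`
  have h1 : ∀ g ∈ S.AA, BB g • (1 : ℕ) = if Setup.Re g then d else 0 := by
    intro g hg
    rw [S.mem_AA] at hg
    simp only [smul_eq_mul, mul_one]
    split_ifs with h
    · obtain ⟨x, hx, hxg⟩ := h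
      rw [S.BB_A_eq_card hg hx hxg, M.real_card hg hx hxg]
    · refine S.BB_A_eq_zero hg ?_
      intro x hx hxg
      exact h ⟨x, hx, hxg⟩
  have hD := S.sum_AA_BB_smul (fun _ => (1 : ℕ)) (fun _ _ => rfl)
  rw [Finset.sum_congr rfl h1, Finset.sum_ite] at hD
  simp only [Finset.sum_const, smul_eq_mul, mul_one, Finset.sum_const_zero, add_zero] at hD
  rw [M.hm] at hD
  have h2 : (S.AA.filter Setup.Re).card = (2 * d + 1) * S.WW.card := by
    have h3 : d * (S.AA.filter Setup.Re).card = d * ((2 * d + 1) * S.WW.card) := by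
      calc d * (S.AA.filter Setup.Re).card = (S.AA.filter Setup.Re).card * d := mul_comm _ _
        _ = _ := hD
        _ = _ := by ring
    exact Nat.eq_of_mul_eq_mul_left hd0 h3
  have h3 := Finset.card_filter_add_card_filter_not (s := S.AA) Setup.Re
  have h4 := S.card_AA
  rw [S.card_G, M.hk, M.hm] at h4
  simp only [Nat.add_sub_cancel] at h4
  have h5 := M.card_WW
  have h6 : S.A1.card = (S.AA.filter fun g => ¬ Setup.Re g).card := rfl
  rw [h6]
  rw [h2] at h3
  have : (((S.AA.filter fun g => ¬ Setup.Re g).card : ℕ) : ℤ) = 4 * d * (d + 1) := by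
    have e1 : ((2 * d + 1) * (S.WW.card : ℤ)) + ((S.AA.filter fun g => ¬ Setup.Re g).card : ℤ) = (S.AA.card : ℤ) := by
      exact_mod_cast h3
    have e2 : (S.AA.card : ℤ) + 1 + ((2 * d + 1) * d) * d = 2 * (d + 1) * ((2 * d + 1) * d) := by
      exact_mod_cast h4
    have e3 : (S.WW.card : ℤ) + 1 = (d : ℤ) ^ 2 := by exact_mod_cast h5
    have e4 : (S.WW.card : ℤ) = (d : ℤ) ^ 2 - 1 := by linarith
    rw [e4] at e1
    linear_combination e1 + e2
  exact_mod_cast this

/-- The index of `F` argument: the normalizer of a real centralizer. -/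
theorem normalizer_real {g y : G} (hg : S.IsA g) (ht : S.t * g * S.t = g⁻¹)
    (hy : y ∈ Subgroup.normalizer ((Cn g : Subgroup G) : Set G)) :
    y ∈ Cn g ∨ ∃ v ∈ Cn g, y = v * S.t := by
  obtain ⟨v, hv, hc⟩ := hg.frattini S.ht ht hy
  have hvN : v ∈ Subgroup.normalizer ((Cn g : Subgroup G) : Set G) := Subgroup.le_normalizer hv
  have hcN : v⁻¹ * y ∈ Subgroup.normalizer ((Cn g : Subgroup G) : Set G) :=
    Subgroup.mul_mem _ (Subgroup.inv_mem _ hvN) hy
  have hcK := hg.normalizer_comm ht hcN hc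
  -- the group `F`
  let F : Subgroup G := S.K ⊓ Subgroup.normalizer ((Cn g : Subgroup G) : Set G)
  have hFK : F ≤ S.K := inf_le_left
  have htF : S.t ∈ F := ⟨S.htK, hg.inv_normalizer S.ht ht⟩
  have hcF : v⁻¹ * y ∈ F := ⟨hcK, hcN⟩
  let X := {w : G // w ∈ Cn g ∧ w ≠ 1}
  have hmem : ∀ (a : F) (w : X), (a : G) * w.1 * (a : G)⁻¹ ∈ Cn g ∧ (a : G) * w.1 * (a : G)⁻¹ ≠ 1 := by
    intro a w
    refine ⟨(Subgroup.mem_normalizer_iff.mp a.2.2 w.1).mp w.2.1, ?_⟩
    intro h0
    apply w.2.2
    have e : w.1 = (a : G)⁻¹ * ((a : G) * w.1 * (a : G)⁻¹) * a := by group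
    rw [e, h0]
    group
  letI : MulAction F X :=
    { smul := fun a w => ⟨(a : G) * w.1 * (a : G)⁻¹, hmem a w⟩
      one_smul := fun w => Subtype.ext (by
        show ((1 : F) : G) * w.1 * ((1 : F) : G)⁻¹ = w.1
        simp)
      mul_smul := fun a b w => Subtype.ext (by
        show ((a * b : F) : G) * w.1 * ((a * b : F) : G)⁻¹ =
          (a : G) * ((b : G) * w.1 * (b : G)⁻¹) * (a : G)⁻¹
        push_cast
        group) }
  have hfree : ∀ (a : F) (w : X), a • w = w → a = 1 := by
    intro a w h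
    have h1 : (a : G) * w.1 * (a : G)⁻¹ = w.1 := congrArg Subtype.val h
    have h2 : (a : G) * w.1 = w.1 * a := by
      calc (a : G) * w.1 = ((a : G) * w.1 * (a : G)⁻¹) * a := by group
        _ = _ := by rw [h1]
    have hwA := hg.of_mem (mem_Cn.mp w.2.1) w.2.2
    by_contra hne
    exact hwA.not_comm_K (hFK a.2) (fun h0 => hne (Subtype.ext h0)) h2.symm
  have hdvd := card_dvd_of_free hfree
  have hX : Nat.card X = d - 1 := by
    have hx : Nat.card (Cn g) = d := M.real_card hg S.ht ht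
    rw [Nat.card_eq_fintype_card, Fintype.card_subtype]
    have h0 : (univ.filter fun w : G => w ∈ Cn g ∧ w ≠ 1) = (univ.filter (· ∈ Cn g)).erase 1 := by
      ext w
      simp only [mem_filter, mem_univ, true_and, mem_erase]
      tauto
    rw [h0, card_erase_of_mem (by simp [Subgroup.one_mem]), card_filter_mem, hx]
  have hFk : Nat.card F ∣ d + 1 := by
    rw [← M.hk]
    exact Subgroup.card_dvd_of_le hFK
  rw [hX] at hdvd
  have hF2 : Nat.card F ≤ 2 := by
    have hd3 := M.hd3
    have h1 : Nat.card F ∣ 2 := by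
      have h2 := Nat.dvd_sub hFk hdvd
      have h3 : d + 1 - (d - 1) = 2 := by omega
      rwa [h3] at h2
    exact Nat.le_of_dvd (by norm_num) h1
  have hcases : v⁻¹ * y = 1 ∨ v⁻¹ * y = S.t := by
    by_contra hcon
    push Not at hcon
    let s3 : Finset F := {1, ⟨S.t, htF⟩, ⟨v⁻¹ * y, hcF⟩}
    have h3 : s3.card = 3 := by
      rw [card_insert_of_notMem, card_insert_of_notMem, card_singleton]
      · simp only [mem_singleton, Subtype.mk.injEq]
        exact fun h0 => hcon.2 h0.symm
      · simp only [mem_insert, mem_singleton, not_or]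
        constructor
        · intro h0
          exact S.t_ne_one (congrArg Subtype.val h0).symm
        · intro h0
          exact hcon.1 (congrArg Subtype.val h0).symm
    have h4 : s3.card ≤ Nat.card F := by
      haveI : Fintype F := Fintype.ofFinite F
      rw [Nat.card_eq_fintype_card]
      exact Finset.card_le_univ _
    omega
  rcases hcases with h | h
  · left
    have : y = v := by
      have e : y = v * (v⁻¹ * y) := by group
      rw [e, h, mul_one]
    rw [this]
    exact hv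
  · right
    refine ⟨v, hv, ?_⟩
    rw [← h]
    group

/-- Such elements of the normalizer are either in the centralizer or involutions. -/
theorem normalizer_real' {g y : G} (hg : S.IsA g) (ht : S.t * g * S.t = g⁻¹)
    (hy : y ∈ Subgroup.normalizer ((Cn g : Subgroup G) : Set G)) (hy2 : orderOf y ≠ 2) :
    y ∈ Cn g := by
  rcases M.normalizer_real hg ht hy with h | ⟨v, hv, rfl⟩
  · exact h
  · exfalso
    apply hy2
    have h1 := hg.inverts S.ht ht v hv
    have htt := mul_self_of_two S.ht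
    refine two_of_mul_self ?_ ?_
    · calc v * S.t * (v * S.t) = v * (S.t * v * S.t) := by group
        _ = 1 := by rw [h1]; group
    · intro h0
      have h2 : S.t = v⁻¹ := eq_inv_of_mul_eq_one_right h0
      have h3 : S.t ∈ Cn g := by
        rw [h2]
        exact Subgroup.inv_mem _ hv
      exact hg.no_invol S.ht (mem_Cn.mp h3)

end Minus

end Cfsg.Agent.Lib.BSW
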