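import Cfsg.Agent.Lib.BSW.Minus2

/-!
# Abstract Brauer–Suzuki–Wall: the case `q = 2k - 1`, the Sylow subgroups for the nonreal elements
-/

set_option autoImplicit false
set_option linter.unusedSectionVars false
set_option linter.unusedVariables false
set_option linter.unusedSimpArgs false
set_option linter.unnecessarySimpa false

namespace Cfsg.Agent.Lib.BSW

open Classical Finset
open Cfsg (IrrCharacter)

universe u

theorem cop_of_comb {a b x y : ℕ} (h : x * a = y * b + 1) : Nat.Coprime a b := by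
  have h1 : Nat.gcd a b ∣ x * a := (Nat.gcd_dvd_left a b).mul_left x
  have h2 : Nat.gcd a b ∣ y * b := (Nat.gcd_dvd_right a b).mul_left y
  rw [h] at h1
  have h3 : Nat.gcd a b ∣ 1 := (Nat.dvd_add_right h2).mp h1
  exact Nat.dvd_one.mp h3

theorem cop_a (d : ℕ) : Nat.Coprime (d + 1) d := cop_of_comb (x := 1) (y := 1) (by ring)

theorem cop_b (d : ℕ) : Nat.Coprime (d + 1) (2 * d + 1) := cop_of_comb (x := 2) (y := 1) (by ring)

theorem cop_c (d : ℕ) : Nat.Coprime (2 * d + 1) d := cop_of_comb (x := 1) (y := 2) (by ring)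

theorem cop_2a (d : ℕ) : Nat.Coprime 2 (2 * d + 1) := by
  rw [Nat.coprime_two_left]
  exact ⟨d, rfl⟩

variable {G : Type u} [Group G] [Fintype G]

theorem Cn_inv (g : G) : Cn g⁻¹ = Cn g := by
  ext w
  rw [mem_Cn, mem_Cn]
  constructor
  · intro h
    calc w * g = g * (g⁻¹ * w) * g := by group
      _ = g * (w * g⁻¹) * g := by rw [h]
      _ = _ := by group
  · intro h
    calc w * g⁻¹ = g⁻¹ * (g * w) * g⁻¹ := by group
      _ = g⁻¹ * (w * g) * g⁻¹ := by rw [h]
      _ = _ := by group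

namespace Minus

variable {S : Setup G} {d : ℕ} {St : IrrCharacter G} (M : Minus S d St)

include M

theorem index_Cn_t : (Cn S.t).index = mm G := by
  rw [mm, S.Invs_eq, Char.card_filter_isConj]

theorem index_K : S.K.index = 2 * ((2 * d + 1) * d) := by
  have h1 := Subgroup.index_mul_card S.K
  rw [Nat.card_eq_fintype_card (α := G), M.card_G, M.hk] at h1
  have h2 : S.K.index * (d + 1) = (2 * ((2 * d + 1) * d)) * (d + 1) := by
    rw [h1]; ring
  exact Nat.eq_of_mul_eq_mul_right (by omega) h2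

theorem index_real {g : G} (hc : Nat.card (Cn g) = d) : (Cn g).index = 2 * (d + 1) * (2 * d + 1) := by
  have h1 := Subgroup.index_mul_card (Cn g)
  rw [Nat.card_eq_fintype_card (α := G), M.card_G, hc] at h1
  have hd3 := M.hd3
  have h2 : (Cn g).index * d = (2 * (d + 1) * (2 * d + 1)) * d := by
    rw [h1]; ring
  exact Nat.eq_of_mul_eq_mul_right (by omega) h2

theorem A1_not_dvd {w : G} (hw : w ∈ S.A1) {r : ℕ} [hr : Fact r.Prime] (ho : orderOf w = r) :
    ¬ r ∣ 2 * (d + 1) ∧ ¬ r ∣ d := by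
  have hrp := hr.out
  have hT : IsPGroup r (Subgroup.zpowers w) :=
    IsPGroup.of_card (n := 1) (by rw [Nat.card_zpowers, ho, pow_one])
  have hwT : w ∈ Subgroup.zpowers w := Subgroup.mem_zpowers w
  have hodd := M.d_odd
  obtain ⟨hA, hRe⟩ := Setup.mem_A1.mp hw
  constructor
  · intro hdvd
    have hcop : Nat.Coprime (2 * (d + 1)) ((2 * d + 1) * d) := by
      refine Nat.Coprime.mul_left ?_ ?_
      · exact Nat.Coprime.mul_right (cop_2a d) (Nat.coprime_two_left.mpr hodd)
      · exact Nat.Coprime.mul_right (cop_b d) (cop_a d)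
    have hnot : ¬ r ∣ (Cn S.t).index := by
      rw [M.index_Cn_t, M.hm]
      intro h2
      exact hrp.one_lt.ne' (Nat.eq_one_of_dvd_coprimes hcop hdvd h2)
    obtain ⟨y, hy⟩ := exists_conj_le hT (Cn S.t) hnot
    have h3 := hy w hwT
    rcases S.hH _ (mem_Cn.mp h3) with h4 | ⟨a, ha, h4⟩
    · exact hA y h4
    · apply hA.not_two
      have h5 := S.ks_two ha
      rw [← h4] at h5
      have e : w = y * (y⁻¹ * w * y) * y⁻¹ := by group
      rw [e, orderOf_conj']
      exact h5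
  · intro hdvd
    obtain ⟨g₀, hg₀, ht₀⟩ := M.exists_W
    have hc := M.real_card hg₀ S.ht ht₀
    have hcop : Nat.Coprime d (2 * (d + 1) * (2 * d + 1)) := by
      refine Nat.Coprime.mul_right (Nat.Coprime.mul_right ?_ ?_) ?_
      · exact (Nat.coprime_two_left.mpr hodd).symm
      · exact (cop_a d).symm
      · exact (cop_c d).symm
    have hnot : ¬ r ∣ (Cn g₀).index := by
      rw [M.index_real hc]
      intro h2
      exact hrp.one_lt.ne' (Nat.eq_one_of_dvd_coprimes hcop hdvd h2)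
    obtain ⟨y, hy⟩ := exists_conj_le hT (Cn g₀) hnot
    have h3 := hy w hwT
    have h4 : y⁻¹ * w * y ≠ 1 := by
      intro h0
      apply hA.ne_one
      have e : w = y * (y⁻¹ * w * y) * y⁻¹ := by group
      rw [e, h0]; group
    apply hRe
    have h5 : Setup.Re (y⁻¹ * w * y) := ⟨S.t, S.ht, hg₀.inverts S.ht ht₀ _ h3⟩
    have h6 := Setup.Re.conj h5 y
    have e : y * (y⁻¹ * w * y) * y⁻¹ = w := by group
    rwa [e] at h6

theorem card_dvd_q {g : G} (hg : g ∈ S.A1) : Nat.card (Cn g) ∣ 2 * d + 1 := by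
  have hcop : Nat.Coprime (Nat.card (Cn g)) (2 * (d + 1) * d) := by
    refine Nat.Coprime.symm (Nat.coprime_of_dvd ?_)
    intro r hr h1 h2
    haveI : Fact r.Prime := ⟨hr⟩
    obtain ⟨z, hz⟩ := exists_prime_orderOf_dvd_card' (G := Cn g) r h2
    have hz' : orderOf (z : G) = r := by
      rw [Subgroup.orderOf_coe]; exact hz
    have hz1 : (z : G) ≠ 1 := by
      intro h0
      rw [h0, orderOf_one] at hz'
      exact hr.one_lt.ne hz'
    have hzA := Setup.A1_of_mem hg z.2 hz1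
    obtain ⟨h3, h4⟩ := M.A1_not_dvd hzA hz'
    rcases (Nat.Prime.dvd_mul hr).mp h1 with h5 | h5
    · exact h3 h5
    · exact h4 h5
  have h1 : Nat.card (Cn g) ∣ Fintype.card G := by
    rw [← Nat.card_eq_fintype_card]
    exact Subgroup.card_subgroup_dvd_card _
  rw [M.card_G] at h1
  have e : 2 * (d + 1) * ((2 * d + 1) * d) = (2 * (d + 1) * d) * (2 * d + 1) := by ring
  rw [e] at h1
  exact hcop.dvd_of_dvd_mul_left h1

theorem class_struct {g : G} (hg : g ∈ S.A1) :
    Nat.card (Cn g) = 2 * d + 1 ∧ ∀ w ∈ S.A1, IsConj g w ∨ IsConj g⁻¹ w := by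
  have hd3 := M.hd3
  obtain ⟨hA, hRe⟩ := Setup.mem_A1.mp hg
  obtain ⟨e, he⟩ := M.card_dvd_q hg
  set c := Nat.card (Cn g) with hc
  have hcpos : 0 < c := Nat.card_pos
  have hidx : (Cn g).index = 2 * (d + 1) * d * e := by
    have h1 := Subgroup.index_mul_card (Cn g)
    rw [Nat.card_eq_fintype_card (α := G), M.card_G, ← hc, mul_comm (2 * d + 1) d, he] at h1
    have h2 : (Cn g).index * c = (2 * (d + 1) * d * e) * c := by
      rw [h1]; ring
    exact Nat.eq_of_mul_eq_mul_right hcpos h2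
  let cl : G → Finset G := fun h => univ.filter (fun x => IsConj h x)
  have hcl : ∀ h, (cl h).card = (Cn h).index := fun h => Char.card_filter_isConj h
  have hsub : ∀ h ∈ S.A1, cl h ⊆ S.A1 := by
    intro h hh x hx
    simp only [cl, mem_filter, mem_univ, true_and] at hx
    obtain ⟨y, rfl⟩ := isConj_iff.mp hx
    exact Setup.A1_conj hh y
  have hdisj : Disjoint (cl g) (cl g⁻¹) := by
    rw [Finset.disjoint_left]
    intro x h1 h2
    simp only [cl, mem_filter, mem_univ, true_and] at h1 h2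
    have h3 : IsConj g g⁻¹ := h1.trans h2.symm
    obtain ⟨y, hy⟩ := isConj_iff.mp h3
    exact hRe (hA.exists_invol hy)
  have hunion : (cl g ∪ cl g⁻¹).card = 2 * (2 * (d + 1) * d * e) := by
    rw [card_union_of_disjoint hdisj, hcl, hcl, Cn_inv, hidx]
    ring
  have hsubU : cl g ∪ cl g⁻¹ ⊆ S.A1 := Finset.union_subset (hsub g hg) (hsub _ (Setup.A1_inv hg))
  have hle := card_le_card hsubU
  rw [hunion, M.card_A1] at hle
  have he1 : e = 1 := by
    have hpos : 0 < e := by
      rcases Nat.eq_zero_or_pos e with h | h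
      · rw [h] at he; omega
      · exact h
    have h5 : 4 * d * (d + 1) * e ≤ 4 * d * (d + 1) * 1 := by
      calc 4 * d * (d + 1) * e = 2 * (2 * (d + 1) * d * e) := by ring
        _ ≤ _ := by linarith
    have h6 := Nat.le_of_mul_le_mul_left h5 (by positivity)
    omega
  refine ⟨by rw [he, he1, mul_one], ?_⟩
  rw [he1] at hunion
  have heq : cl g ∪ cl g⁻¹ = S.A1 := by
    apply Finset.eq_of_subset_of_card_le hsubU
    rw [hunion, M.card_A1]
    apply le_of_eq
    ring
  intro w hw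
  rw [← heq, mem_union] at hw
  simpa [cl] using hw

theorem A1_nonempty : S.A1.Nonempty := by
  have h := M.card_A1
  have hd3 := M.hd3
  apply Finset.card_pos.mp
  rw [h]
  positivity

theorem exists_p : ∃ p : ℕ, p.Prime ∧ ∀ w ∈ S.A1, orderOf w = p := by
  obtain ⟨g, hg⟩ := M.A1_nonempty
  have hall : ∀ w ∈ S.A1, orderOf w = orderOf g := by
    intro w hw
    rcases (M.class_struct hg).2 w hw with h | h
    · obtain ⟨y, rfl⟩ := isConj_iff.mp h
      rw [orderOf_conj']
    · obtain ⟨y, rfl⟩ := isConj_iff.mp h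
      rw [orderOf_conj', orderOf_inv]
  have hne : orderOf g ≠ 1 := by
    intro h
    exact (Setup.mem_A1.mp hg).1.ne_one (orderOf_eq_one_iff.mp h)
  have hpos : orderOf g ≠ 0 := (orderOf_pos g).ne'
  refine ⟨(orderOf g).minFac, Nat.minFac_prime hne, ?_⟩
  have h1 := Nat.minFac_dvd (orderOf g)
  have h2 := orderOf_pow_orderOf_div hpos h1
  have hp := Nat.minFac_prime hne
  have h3 : g ^ (orderOf g / (orderOf g).minFac) ≠ 1 := by
    intro h0
    rw [h0, orderOf_one] at h2
    exact hp.one_lt.ne h2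
  have h4 : g ^ (orderOf g / (orderOf g).minFac) ∈ Cn g := by
    apply Subgroup.pow_mem
    exact Setup.mem_Cn_self g
  have h5 := hall _ (Setup.A1_of_mem hg h4 h3)
  have h6 : orderOf g = (orderOf g).minFac := h5.symm.trans h2
  intro w hw
  rw [hall w hw, ← h6]

section P

variable {p : ℕ} [hp : Fact p.Prime] (hord : ∀ w ∈ S.A1, orderOf w = p)

include hord

theorem p_not : ¬ p ∣ 2 * (d + 1) ∧ ¬ p ∣ d := by
  obtain ⟨g, hg⟩ := M.A1_nonempty
  exact M.A1_not_dvd hg (hord g hg)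

theorem A1_of_order {w : G} (hw : orderOf w = p) : w ∈ S.A1 := by
  obtain ⟨h1, h2⟩ := M.p_not hord
  rw [Setup.mem_A1]
  constructor
  · intro y hy
    apply h1
    have h3 : orderOf (⟨_, hy⟩ : S.K) = p := by
      rw [Subgroup.orderOf_mk, show y⁻¹ * w * y = y⁻¹ * w * y⁻¹⁻¹ by group, orderOf_conj']
      exact hw
    have h4 : p ∣ Nat.card S.K := by
      rw [← h3]
      exact orderOf_dvd_natCard _
    rw [M.hk] at h4
    exact h4.mul_left 2
  · rintro ⟨x, hx, hxw⟩
    have hwA : S.IsA w := by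
      intro y hy
      apply h1
      have h3 : orderOf (⟨_, hy⟩ : S.K) = p := by
        rw [Subgroup.orderOf_mk, show y⁻¹ * w * y = y⁻¹ * w * y⁻¹⁻¹ by group, orderOf_conj']
        exact hw
      have h4 : p ∣ Nat.card S.K := by
        rw [← h3]
        exact orderOf_dvd_natCard _
      rw [M.hk] at h4
      exact h4.mul_left 2
    have h3 := M.real_card hwA hx hxw
    apply h2
    rw [← h3, ← hw]
    have h4 : orderOf (⟨w, Setup.mem_Cn_self w⟩ : Cn w) = orderOf w := Subgroup.orderOf_mk _ _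
    rw [← h4]
    exact orderOf_dvd_natCard _

theorem A1_of_pgroup {T : Subgroup G} (hT : IsPGroup p T) {w : G} (hw : w ∈ T) (hw1 : w ≠ 1) :
    w ∈ S.A1 := by
  obtain ⟨n, hn⟩ := (IsPGroup.iff_orderOf.mp hT) ⟨w, hw⟩
  rw [Subgroup.orderOf_mk] at hn
  have hne : orderOf w ≠ 1 := fun h => hw1 (orderOf_eq_one_iff.mp h)
  have hpd : p ∣ orderOf w := by
    rw [hn]
    apply dvd_pow_self
    rintro rfl
    simp [hn] at hne
  have hpos : orderOf w ≠ 0 := (orderOf_pos w).ne'
  have h2 := orderOf_pow_orderOf_div hpos hpd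
  have h3 := M.A1_of_order hord h2
  have h4 : w ∈ Cn (w ^ (orderOf w / p)) := by
    rw [mem_Cn]
    exact (Commute.pow_right (Commute.refl w) _)
  exact Setup.A1_of_mem h3 h4 hw1

theorem order_of_pgroup {T : Subgroup G} (hT : IsPGroup p T) {w : G} (hw : w ∈ T) (hw1 : w ≠ 1) :
    orderOf w = p := hord w (M.A1_of_pgroup hord hT hw hw1)

theorem Cn_pgroup {g : G} (hg : g ∈ S.A1) : IsPGroup p (Cn g) := by
  rw [IsPGroup.iff_orderOf]
  rintro ⟨w, hw⟩
  rw [Subgroup.orderOf_mk]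
  by_cases h1 : w = 1
  · exact ⟨0, by simp [h1]⟩
  · exact ⟨1, by rw [hord w (Setup.A1_of_mem hg hw h1), pow_one]⟩

theorem card_sylow (P : Sylow p G) : Nat.card P = 2 * d + 1 := by
  obtain ⟨h1, h2⟩ := M.p_not hord
  obtain ⟨g, hg⟩ := M.A1_nonempty
  obtain ⟨P₀, hP₀⟩ := (M.Cn_pgroup hord hg).exists_le_sylow
  have hc := (M.class_struct hg).1
  have hsame : Nat.card P₀ = Nat.card P := by
    rw [Sylow.card_eq_multiplicity, Sylow.card_eq_multiplicity]
  apply le_antisymm
  · obtain ⟨n, hn⟩ := IsPGroup.iff_card.mp P.2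
    have hcop : Nat.Coprime (Nat.card P) (2 * (d + 1) * d) := by
      rw [hn]
      apply Nat.Coprime.pow_left
      rw [Nat.Prime.coprime_iff_not_dvd hp.out]
      intro h3
      rcases (Nat.Prime.dvd_mul hp.out).mp h3 with h4 | h4
      · exact h1 h4
      · exact h2 h4
    have h3 : Nat.card P ∣ Fintype.card G := by
      rw [← Nat.card_eq_fintype_card]
      exact Subgroup.card_subgroup_dvd_card _
    rw [M.card_G] at h3
    have e : 2 * (d + 1) * ((2 * d + 1) * d) = (2 * (d + 1) * d) * (2 * d + 1) := by ring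
    rw [e] at h3
    exact Nat.le_of_dvd (by omega) (hcop.dvd_of_dvd_mul_left h3)
  · rw [← hsame, ← hc]
    exact Subgroup.card_le_of_le hP₀

theorem Cn_eq_sylow {g : G} (hg : g ∈ S.A1) : ∃ P : Sylow p G, (P : Subgroup G) = Cn g := by
  obtain ⟨P₀, hP₀⟩ := (M.Cn_pgroup hord hg).exists_le_sylow
  refine ⟨P₀, ?_⟩
  symm
  apply Subgroup.eq_of_le_of_card_ge hP₀
  rw [M.card_sylow hord, (M.class_struct hg).1]

/-- The normalizer of a nontrivial `p`-subgroup has no involution. -/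
theorem no_invol {R : Subgroup G} (hR : IsPGroup p R) (hR1 : R ≠ ⊥) {u : G}
    (hu : u ∈ Subgroup.normalizer (R : Set G)) (hu2 : orderOf u = 2) : False := by
  obtain ⟨⟨a, ha⟩, ha1⟩ := (Subgroup.ne_bot_iff_exists_ne_one).mp hR1
  have ha1' : a ≠ 1 := fun h => ha1 (Subtype.ext h)
  have hui := inv_of_two hu2
  have hinv : ∀ w ∈ R, u * w * u = w⁻¹ := by
    refine Setup.inverts_of_fpf (mul_self_of_two hu2) ?_ ?_
    · intro w hw
      have := (Subgroup.mem_normalizer_iff.mp hu w).mp hw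
      rwa [hui] at this
    · intro w hw hwu
      by_contra h1
      have h2 := M.A1_of_pgroup hord hR hw h1
      exact h1 ((Setup.mem_A1.mp h2).1.fpf hu2 rfl hwu)
  have h3 := M.A1_of_pgroup hord hR ha ha1'
  exact (Setup.mem_A1.mp h3).2 ⟨u, hu2, hinv a ha⟩

/-- Commutation in normalizers of `p`-subgroups: the Burnside condition. -/
theorem local_comm {Y : Subgroup G} (hY : ∀ u ∈ Y, orderOf u ≠ 2) {r : ℕ} [hr : Fact r.Prime]
    (hrp : r ≠ p) {T : Subgroup G} (hT : IsPGroup r T) (hTY : T ≤ Y) {z : G} (hzY : z ∈ Y)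
    (hz : ∀ x ∈ T, z * x * z⁻¹ ∈ T) {w : G} (hw : w ∈ T) (hw1 : w ≠ 1) : z * w = w * z := by
  have hr' := hr.out
  obtain ⟨n, hn⟩ := (IsPGroup.iff_orderOf.mp hT) ⟨w, hw⟩
  rw [Subgroup.orderOf_mk] at hn
  have hne : orderOf w ≠ 1 := fun h => hw1 (orderOf_eq_one_iff.mp h)
  have hpd : r ∣ orderOf w := by
    rw [hn]
    apply dvd_pow_self
    rintro rfl
    simp [hn] at hne
  have hpos : orderOf w ≠ 0 := (orderOf_pos w).ne'
  have hr2 : r ≠ 2 := by
    rintro rfl
    have h2 := orderOf_pow_orderOf_div hpos hpd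
    exact hY _ (hTY (T.pow_mem hw _)) h2
  have hrG : r ∣ Fintype.card G := by
    rw [← Nat.card_eq_fintype_card]
    exact hpd.trans (orderOf_dvd_natCard w)
  rw [M.card_G] at hrG
  have hrq : ¬ r ∣ 2 * d + 1 := by
    obtain ⟨P⟩ : Nonempty (Sylow p G) := inferInstance
    rw [← M.card_sylow hord P]
    obtain ⟨m, hm⟩ := IsPGroup.iff_card.mp P.2
    rw [hm]
    intro h3
    have h4 := (Nat.prime_dvd_prime_iff_eq hr' hp.out).mp (hr'.dvd_of_dvd_pow h3)
    exact hrp h4
  have hnot2 : ¬ r ∣ 2 := by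
    intro h3
    exact hr2 ((Nat.prime_dvd_prime_iff_eq hr' Nat.prime_two).mp h3)
  have hcase : r ∣ d + 1 ∨ r ∣ d := by
    rcases (Nat.Prime.dvd_mul hr').mp hrG with h3 | h3
    · rcases (Nat.Prime.dvd_mul hr').mp h3 with h4 | h4
      · exact absurd h4 hnot2
      · exact Or.inl h4
    · rcases (Nat.Prime.dvd_mul hr').mp h3 with h4 | h4
      · exact absurd h4 hrq
      · exact Or.inr h4
  have hzT := hz w hw
  have hz2 : orderOf z ≠ 2 := hY z hzY
  -- reduction to conjugates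
  have hred : ∀ y : G, (y⁻¹ * z * y) * (y⁻¹ * w * y) = (y⁻¹ * w * y) * (y⁻¹ * z * y) → z * w = w * z := by
    intro y h
    have e1 : (y⁻¹ * z * y) * (y⁻¹ * w * y) = y⁻¹ * (z * w) * y := by group
    have e2 : (y⁻¹ * w * y) * (y⁻¹ * z * y) = y⁻¹ * (w * z) * y := by group
    rw [e1, e2] at h
    exact mul_left_cancel (mul_right_cancel h)
  have ha1 : ∀ y : G, y⁻¹ * w * y ≠ 1 := by
    intro y h0
    apply hw1
    have e : w = y * (y⁻¹ * w * y) * y⁻¹ := by group
    rw [e, h0]; group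
  have hconj2 : ∀ y : G, (y⁻¹ * z * y) * (y⁻¹ * w * y) * (y⁻¹ * z * y)⁻¹ = y⁻¹ * (z * w * z⁻¹) * y := by
    intro y; group
  have hz2' : ∀ y : G, orderOf (y⁻¹ * z * y) ≠ 2 := by
    intro y
    have e : y⁻¹ * z * y = y⁻¹ * z * y⁻¹⁻¹ := by group
    rw [e, orderOf_conj']
    exact hz2
  rcases hcase with hcd | hcd
  · -- inside a conjugate of `K`
    have hnot : ¬ r ∣ S.K.index := by
      rw [M.index_K]
      intro h3
      rcases (Nat.Prime.dvd_mul hr').mp h3 with h4 | h4
      · exact hnot2 h4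
      · rcases (Nat.Prime.dvd_mul hr').mp h4 with h5 | h5
        · exact hrq h5
        · exact hr'.one_lt.ne' (Nat.eq_one_of_dvd_coprimes (cop_a d) hcd h5)
    obtain ⟨y, hy⟩ := exists_conj_le hT S.K hnot
    apply hred y
    have ha := hy w hw
    have ha' : (y⁻¹ * z * y) * (y⁻¹ * w * y) * (y⁻¹ * z * y)⁻¹ ∈ S.K := by
      rw [hconj2]
      exact hy _ hzT
    have hcomm := S.comm_of_conj_mem ha (ha1 y) ha'
    rcases S.hH _ hcomm with h5 | ⟨b, hb, h5⟩
    · exact S.hab _ h5 _ ha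
    · exfalso
      apply hz2' y
      rw [h5]
      exact S.ks_two hb
  · -- inside a real centralizer
    obtain ⟨g₀, hg₀, ht₀⟩ := M.exists_W
    have hc := M.real_card hg₀ S.ht ht₀
    have hnot : ¬ r ∣ (Cn g₀).index := by
      rw [M.index_real hc]
      intro h3
      rcases (Nat.Prime.dvd_mul hr').mp h3 with h4 | h4
      · rcases (Nat.Prime.dvd_mul hr').mp h4 with h5 | h5
        · exact hnot2 h5
        · exact hr'.one_lt.ne' (Nat.eq_one_of_dvd_coprimes (cop_a d) h5 hcd)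
      · exact hrq h4
    obtain ⟨y, hy⟩ := exists_conj_le hT (Cn g₀) hnot
    apply hred y
    have ha := hy w hw
    have ha' : (y⁻¹ * z * y) * (y⁻¹ * w * y) * (y⁻¹ * z * y)⁻¹ ∈ Cn g₀ := by
      rw [hconj2]
      exact hy _ hzT
    have hne' : (y⁻¹ * z * y) * (y⁻¹ * w * y) * (y⁻¹ * z * y)⁻¹ ≠ 1 := by
      rw [hconj2]
      intro h0
      apply hw1
      have e : z * w * z⁻¹ = 1 := by
        have e2 : z * w * z⁻¹ = y * (y⁻¹ * (z * w * z⁻¹) * y) * y⁻¹ := by group
        rw [e2, h0]; group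
      have e3 : w = z⁻¹ * (z * w * z⁻¹) * z := by group
      rw [e3, e]; group
    have e1 := hg₀.cn_eq S.ht ht₀ ha (ha1 y)
    have e2 := hg₀.cn_eq S.ht ht₀ ha' hne'
    have h5 := normalizer_of_Cn_eq (e2.trans e1.symm)
    rw [e1] at h5
    have h6 := M.normalizer_real' hg₀ ht₀ h5 (hz2' y)
    exact hg₀.comm S.ht ht₀ _ h6 _ ha

end P

end Minus

end Cfsg.Agent.Lib.BSW
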