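import Cfsg.Agent.Lib.BSW.Minus3

/-!
# Abstract Brauer–Suzuki–Wall: the case `q = 2k - 1`, the Sylow subgroups are TI
-/

set_option autoImplicit false
set_option linter.unusedSectionVars false
set_option linter.unusedVariables false
set_option linter.unusedSimpArgs false
set_option linter.unnecessarySimpa false

namespace Cfsg.Agent.Lib.BSW

open Classical Finset
open Cfsg (IrrCharacter)

universe u

variable {G : Type u} [Group G] [Fintype G]

namespace Minus

variable {S : Setup G} {d : ℕ} {St : IrrCharacter G} (M : Minus S d St)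

include M

section P

variable {p : ℕ} [hp : Fact p.Prime] (hord : ∀ w ∈ S.A1, orderOf w = p)

include hord

theorem local_p_closed {R : Subgroup G} (hR : IsPGroup p R) (hR1 : R ≠ ⊥) :
    ∃ N : Subgroup G, IsPGroup p N ∧
      ∀ w ∈ Subgroup.normalizer (R : Set G), orderOf w = p → w ∈ N := by
  set Y : Subgroup G := Subgroup.normalizer (R : Set G) with hYdef
  have hY2 : ∀ u ∈ Y, orderOf u ≠ 2 := fun u hu h2 => M.no_invol hord hR hR1 hu h2
  have hb : ∃ N : Subgroup Y, IsPGroup p N ∧ ∀ w : Y, orderOf w = p → w ∈ N := by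
    apply burnside_all (Y := Y) (p := p)
    intro r hr hrp R₀ z hz
    haveI : Fact r.Prime := ⟨hr⟩
    rw [Subgroup.mem_centralizer_iff]
    intro w hw
    by_cases hw1 : w = 1
    · rw [hw1, one_mul, mul_one]
    · have h1 : (z : G) * w = w * z := by
        refine M.local_comm hord hY2 hrp (T := (R₀ : Subgroup Y).map Y.subtype)
          (R₀.2.map Y.subtype) (Subgroup.map_subtype_le _) z.2 ?_
          (w := (w : G)) ⟨w, hw, rfl⟩ (fun h0 => hw1 (Subtype.ext h0))
        rintro x ⟨x', hx', rfl⟩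
        refine ⟨z * x' * z⁻¹, ?_, by simp⟩
        exact (Subgroup.mem_normalizer_iff.mp hz x').mp hx'
      exact (Subtype.ext h1).symm
  obtain ⟨N', hN1, hN2⟩ := hb
  refine ⟨N'.map Y.subtype, hN1.map Y.subtype, ?_⟩
  intro w hw ho
  exact ⟨⟨w, hw⟩, hN2 ⟨w, hw⟩ (by rw [Subgroup.orderOf_mk]; exact ho), rfl⟩

theorem sylow_lt {A B : Sylow p G} (hAB : A ≠ B) :
    (A : Subgroup G) ⊓ B < (A : Subgroup G) := by
  apply lt_of_le_of_ne inf_le_left
  intro h
  apply hAB
  have h1 : (A : Subgroup G) ≤ B := by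
    rw [← h]
    exact inf_le_right
  apply Sylow.ext
  apply Subgroup.eq_of_le_of_card_ge h1
  rw [M.card_sylow hord, M.card_sylow hord]

/-- The Sylow `p`-subgroups have pairwise trivial intersections. -/
theorem sylow_TI {A B : Sylow p G} (hAB : A ≠ B) : (A : Subgroup G) ⊓ B = ⊥ := by
  by_contra hne
  haveI : Nonempty {x : Sylow p G × Sylow p G // x.1 ≠ x.2} := ⟨⟨(A, B), hAB⟩⟩
  obtain ⟨⟨⟨A₀, B₀⟩, h₀⟩, hmax⟩ := Finite.exists_max
    (fun x : {x : Sylow p G × Sylow p G // x.1 ≠ x.2} =>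
      Nat.card ↥((x.1.1 : Subgroup G) ⊓ (x.1.2 : Subgroup G)))
  simp only at h₀ hmax
  set R : Subgroup G := (A₀ : Subgroup G) ⊓ B₀ with hRdef
  have hR1 : R ≠ ⊥ := by
    intro h0
    apply hne
    have h1 := hmax ⟨(A, B), hAB⟩
    simp only at h1
    rw [h0, Subgroup.card_bot] at h1
    exact (Subgroup.eq_bot_of_card_le _) h1
  have hRp : IsPGroup p R := A₀.2.to_le inf_le_left
  have hlt1 : R < (A₀ : Subgroup G) := M.sylow_lt hord h₀
  have hlt2 : R < (B₀ : Subgroup G) := by
    have := M.sylow_lt hord h₀.symm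
    rwa [inf_comm] at this
  obtain ⟨w₁, hw₁, hw₁R, hw₁N⟩ := exists_mem_normalizer_of_lt A₀.2 hlt1
  obtain ⟨w₂, hw₂, hw₂R, hw₂N⟩ := exists_mem_normalizer_of_lt B₀.2 hlt2
  obtain ⟨N, hNp, hN⟩ := M.local_p_closed hord hRp hR1
  have hord1 : orderOf w₁ = p := M.order_of_pgroup hord A₀.2 hw₁ (fun h0 => hw₁R (h0 ▸ R.one_mem))
  have hord2 : orderOf w₂ = p := M.order_of_pgroup hord B₀.2 hw₂ (fun h0 => hw₂R (h0 ▸ R.one_mem))
  have hRN : R ≤ N := by
    intro x hx
    by_cases hx1 : x = 1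
    · rw [hx1]; exact N.one_mem
    · exact hN x (Subgroup.le_normalizer hx) (M.order_of_pgroup hord hRp hx hx1)
  obtain ⟨C, hC⟩ := hNp.exists_le_sylow
  have key : ∀ E : Sylow p G, R ≤ (E : Subgroup G) → ∀ w ∈ (E : Subgroup G), w ∉ R → w ∈ N → C = E := by
    intro E hRE w hwE hwR hwN
    by_contra hCE
    have h1 := hmax ⟨(E, C), Ne.symm hCE⟩
    simp only at h1
    have h2 : R ≤ (E : Subgroup G) ⊓ C := le_inf hRE (hRN.trans hC)
    have h3 : R = (E : Subgroup G) ⊓ C := Subgroup.eq_of_le_of_card_ge h2 h1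
    apply hwR
    rw [h3]
    exact ⟨hwE, hC hwN⟩
  have h1 := key A₀ hlt1.le w₁ hw₁ hw₁R (hN w₁ hw₁N hord1)
  have h2 := key B₀ hlt2.le w₂ hw₂ hw₂R (hN w₂ hw₂N hord2)
  exact h₀ (h1.symm.trans h2)

theorem Cn_eq_of_mem (P : Sylow p G) {x : G} (hx : x ∈ (P : Subgroup G)) (hx1 : x ≠ 1) :
    Cn x = (P : Subgroup G) := by
  obtain ⟨P', hP'⟩ := M.Cn_eq_sylow hord (M.A1_of_pgroup hord P.2 hx hx1)
  have h1 : x ∈ (P' : Subgroup G) := by
    rw [hP']
    exact Setup.mem_Cn_self x
  by_cases h : P = P'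
  · rw [h, hP']
  · exfalso
    have h2 := M.sylow_TI hord h
    have h3 : x ∈ (P : Subgroup G) ⊓ P' := ⟨hx, h1⟩
    rw [h2, Subgroup.mem_bot] at h3
    exact hx1 h3

/-- The number of Sylow `p`-subgroups. -/
theorem card_sylows : Nat.card (Sylow p G) = 2 * d + 2 := by
  haveI : Fintype (Sylow p G) := Fintype.ofFinite _
  have hd3 := M.hd3
  let f : Sylow p G → Finset G := fun P => (univ.filter (fun x => x ∈ (P : Subgroup G))).erase 1
  have hcard : ∀ P, (f P).card = 2 * d := by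
    intro P
    have h1 : (univ.filter (fun x => x ∈ (P : Subgroup G))).card = 2 * d + 1 := by
      rw [← M.card_sylow hord P]
      simpa [Nat.card_eq_fintype_card] using (card_filter_mem (P : Subgroup G))
    have h2 : (1 : G) ∈ univ.filter (fun x => x ∈ (P : Subgroup G)) := by
      simp [(P : Subgroup G).one_mem]
    rw [Finset.card_erase_of_mem h2, h1]
    simp
  have hU : S.A1 = univ.biUnion f := by
    ext w
    simp only [Finset.mem_biUnion, Finset.mem_univ, true_and, f, Finset.mem_erase, Finset.mem_filter]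
    constructor
    · intro hw
      obtain ⟨P, hP⟩ := M.Cn_eq_sylow hord hw
      refine ⟨P, (Setup.mem_A1.mp hw).1.ne_one, ?_⟩
      rw [hP]
      exact Setup.mem_Cn_self w
    · rintro ⟨P, h1, h2⟩
      exact M.A1_of_pgroup hord P.2 h2 h1
  have hdisj : ((univ : Finset (Sylow p G)) : Set (Sylow p G)).PairwiseDisjoint f := by
    intro P _ P' _ hne
    rw [Function.onFun, Finset.disjoint_left]
    intro x hx hx'
    simp only [f, Finset.mem_erase, Finset.mem_filter, Finset.mem_univ, true_and] at hx hx'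
    have h3 : x ∈ (P : Subgroup G) ⊓ P' := ⟨hx.2, hx'.2⟩
    rw [M.sylow_TI hord hne, Subgroup.mem_bot] at h3
    exact hx.1 h3
  have h1 := Finset.card_biUnion hdisj
  rw [← hU, M.card_A1, Finset.sum_congr rfl (fun P _ => hcard P), Finset.sum_const,
    Finset.card_univ, smul_eq_mul] at h1
  rw [Nat.card_eq_fintype_card]
  have h2 : (2 * d + 2) * (2 * d) = Fintype.card (Sylow p G) * (2 * d) := by
    rw [← h1]; ring
  exact (Nat.eq_of_mul_eq_mul_right (by omega) h2).symm

end P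

end Minus

end Cfsg.Agent.Lib.BSW
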