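import Cfsg.Agent.Lib.BSW.Minus4

/-!
# Abstract Brauer–Suzuki–Wall: the case `q = 2k - 1`, the conclusion
-/

set_option autoImplicit false
set_option linter.unusedSectionVars false
set_option linter.unusedVariables false
set_option linter.unusedSimpArgs false
set_option linter.unnecessarySimpa false

namespace Cfsg.Agent.Lib.BSW

open Classical Finset
open Cfsg (IrrCharacter)

universe u

variable {G : Type u} [Group G] [Fintype G]

/-- The stabilizer of a pair of Sylow subgroups swapped by `t`. -/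
noncomputable def Setup.DD {p : ℕ} (S : Setup G) (Q : Sylow p G) : Subgroup G :=
  Subgroup.normalizer (Q : Set G) ⊓ Subgroup.normalizer ((S.t • Q : Sylow p G) : Set G)

theorem Setup.mem_DD {p : ℕ} {S : Setup G} {Q : Sylow p G} {y : G} :
    y ∈ S.DD Q ↔ y • Q = Q ∧ y • (S.t • Q) = S.t • Q := by
  rw [Sylow.smul_eq_iff_mem_normalizer, Sylow.smul_eq_iff_mem_normalizer]
  rfl

namespace Minus

variable {S : Setup G} {d : ℕ} {St : IrrCharacter G} (M : Minus S d St)

include M

section P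

variable {p : ℕ} [hp : Fact p.Prime] (hord : ∀ w ∈ S.A1, orderOf w = p)

include hord

theorem card_normalizer (Q : Sylow p G) :
    Nat.card (Subgroup.normalizer (Q : Set G)) = (2 * d + 1) * d := by
  have h1 := Sylow.card_eq_index_normalizer Q
  have h2 := Subgroup.card_mul_index (Subgroup.normalizer (Q : Set G))
  rw [← h1, M.card_sylows hord, Nat.card_eq_fintype_card (α := G), M.card_G] at h2
  have h3 : Nat.card (Subgroup.normalizer (Q : Set G)) * (2 * d + 2) = ((2 * d + 1) * d) * (2 * d + 2) := by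
    rw [h2]; ring
  exact Nat.eq_of_mul_eq_mul_right (by omega) h3

theorem sylow_ne_bot (Q : Sylow p G) : (Q : Subgroup G) ≠ ⊥ := by
  intro h
  have h1 := M.card_sylow hord Q
  rw [h, Subgroup.card_bot] at h1
  have := M.hd3
  omega

theorem t_smul_ne (Q : Sylow p G) : S.t • Q ≠ Q := by
  intro h
  have h1 := Sylow.smul_eq_iff_mem_normalizer.mp h
  exact M.no_invol hord Q.2 (M.sylow_ne_bot hord Q) h1 S.ht

theorem not_invol_norm (Q : Sylow p G) {y : G} (hy : y ∈ Subgroup.normalizer (Q : Set G)) :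
    orderOf y ≠ 2 := fun h => M.no_invol hord Q.2 (M.sylow_ne_bot hord Q) hy h

theorem inf_DD (Q : Sylow p G) : (Q : Subgroup G) ⊓ S.DD Q = ⊥ := by
  rw [eq_bot_iff]
  rintro x ⟨hx, -, hx2⟩
  have h1 : x ∈ (Q : Subgroup G) ⊓ Subgroup.normalizer ((S.t • Q : Sylow p G) : Set G) := ⟨hx, hx2⟩
  rw [IsPGroup.inf_normalizer_sylow Q.2 (S.t • Q), M.sylow_TI hord (M.t_smul_ne hord Q).symm] at h1
  exact h1

theorem card_DD_ge (Q : Sylow p G) : d ≤ Nat.card (S.DD Q) := by
  set H : Subgroup G := Subgroup.normalizer (Q : Set G) with hH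
  haveI : Fintype (Sylow p G) := Fintype.ofFinite _
  have h1 := Subgroup.card_mul_index (MulAction.stabilizer H (S.t • Q))
  rw [MulAction.index_stabilizer, M.card_normalizer hord] at h1
  have hne := M.t_smul_ne hord Q
  have h2 : (MulAction.orbit H (S.t • Q)).ncard ≤ 2 * d + 1 := by
    have hsub : MulAction.orbit H (S.t • Q) ⊆ ({Q} : Set (Sylow p G))ᶜ := by
      rintro _ ⟨y, rfl⟩
      simp only [Set.mem_compl_iff, Set.mem_singleton_iff]
      intro h0
      have h3 : ((y : H) : G) • (S.t • Q) = Q := h0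
      have h4 : ((y : H) : G) • Q = Q := Sylow.smul_eq_iff_mem_normalizer.mpr y.2
      apply hne
      have h5 : ((y : H) : G) • (S.t • Q) = ((y : H) : G) • Q := by rw [h3, h4]
      exact MulAction.injective _ h5
    have h6 := Set.ncard_le_ncard hsub (Set.toFinite _)
    have h7 := Set.ncard_add_ncard_compl ({Q} : Set (Sylow p G))
    rw [Set.ncard_singleton, M.card_sylows hord] at h7
    omega
  have h3 : Nat.card (MulAction.stabilizer H (S.t • Q)) ≤ Nat.card (S.DD Q) := by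
    refine Nat.card_le_card_of_injective
      (fun y => (⟨(y : H), ?_⟩ : S.DD Q)) ?_
    · refine ⟨(y : H).2, ?_⟩
      exact Sylow.smul_eq_iff_mem_normalizer.mp y.2
    · intro a b hab
      apply Subtype.ext
      apply Subtype.ext
      exact congrArg (fun z : S.DD Q => (z : G)) hab
  have hd3 := M.hd3
  have h4 : (2 * d + 1) * d ≤ (2 * d + 1) * Nat.card (S.DD Q) := by
    rw [← h1]
    calc _ ≤ Nat.card (S.DD Q) * (2 * d + 1) := Nat.mul_le_mul h3 h2
      _ = _ := by ring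
  exact Nat.le_of_mul_le_mul_left h4 (by omega)

theorem card_DD_le (Q : Sylow p G) : Nat.card (S.DD Q) ≤ d := by
  have hd3 := M.hd3
  have h1 : Nat.card (S.DD Q) ∣ (2 * d + 1) * d := by
    rw [← M.card_normalizer hord Q]
    exact Subgroup.card_dvd_of_le inf_le_left
  have hcop : Nat.Coprime (Nat.card (S.DD Q)) (2 * d + 1) := by
    refine Nat.Coprime.symm (Nat.coprime_of_dvd ?_)
    intro r hr h2 h3
    obtain ⟨n, hn⟩ := IsPGroup.iff_card.mp Q.2
    rw [M.card_sylow hord Q] at hn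
    rw [hn] at h2
    have h4 : r = p := (Nat.prime_dvd_prime_iff_eq hr hp.out).mp (hr.dvd_of_dvd_pow h2)
    subst h4
    obtain ⟨z, hz⟩ := exists_prime_orderOf_dvd_card' (G := S.DD Q) r h3
    have hz' : orderOf (z : G) = r := by
      rw [Subgroup.orderOf_coe]; exact hz
    have hT : IsPGroup r (Subgroup.zpowers (z : G)) :=
      IsPGroup.of_card (n := 1) (by rw [Nat.card_zpowers, hz', pow_one])
    have h5 : (z : G) ∈ Subgroup.zpowers (z : G) ⊓ Subgroup.normalizer (Q : Set G) :=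
      ⟨Subgroup.mem_zpowers _, z.2.1⟩
    rw [IsPGroup.inf_normalizer_sylow hT Q] at h5
    have h6 : (z : G) ∈ (Q : Subgroup G) ⊓ S.DD Q := ⟨h5.2, z.2⟩
    rw [M.inf_DD hord, Subgroup.mem_bot] at h6
    rw [h6, orderOf_one] at hz'
    exact hr.one_lt.ne hz'
  exact Nat.le_of_dvd (by omega) (hcop.dvd_of_dvd_mul_left h1)

theorem card_DD (Q : Sylow p G) : Nat.card (S.DD Q) = d :=
  le_antisymm (M.card_DD_le hord Q) (M.card_DD_ge hord Q)

theorem tt_eq : S.t * S.t = 1 := mul_self_of_two S.ht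

theorem DD_t (Q : Sylow p G) {y : G} (hy : y ∈ S.DD Q) : S.t * y * S.t ∈ S.DD Q := by
  obtain ⟨h1, h2⟩ := Setup.mem_DD.mp hy
  have ht := mul_self_of_two S.ht
  rw [Setup.mem_DD]
  constructor
  · rw [mul_smul, mul_smul, h2, ← mul_smul, ht, one_smul]
  · rw [mul_smul, mul_smul, ← mul_smul S.t S.t Q, ht, one_smul, h1]

theorem order_dvd_DD (Q : Sylow p G) {y : G} (hy : y ∈ S.DD Q) : orderOf y ∣ d := by
  rw [← M.card_DD hord Q]
  have h3 : orderOf (⟨y, hy⟩ : S.DD Q) = orderOf y := Subgroup.orderOf_mk _ _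
  rw [← h3]
  exact orderOf_dvd_natCard _

theorem eq_one_of_mem_K_DD (Q : Sylow p G) {y : G} (hy : y ∈ S.DD Q) (hK : y ∈ S.K) : y = 1 := by
  have h1 := M.order_dvd_DD hord Q hy
  have h2 : orderOf y ∣ d + 1 := by
    rw [← M.hk]
    have h3 : orderOf (⟨y, hK⟩ : S.K) = orderOf y := Subgroup.orderOf_mk _ _
    rw [← h3]
    exact orderOf_dvd_natCard _
  exact orderOf_eq_one_iff.mp (Nat.eq_one_of_dvd_coprimes (cop_a d) h2 h1)

theorem fpf_DD (Q : Sylow p G) {y : G} (hy : y ∈ S.DD Q) (hyt : y * S.t = S.t * y) : y = 1 := by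
  rcases S.hH y hyt with h | ⟨a, ha, h⟩
  · exact M.eq_one_of_mem_K_DD hord Q hy h
  · exfalso
    apply M.not_invol_norm hord Q hy.1
    rw [h]
    exact S.ks_two ha

theorem inv_DD (Q : Sylow p G) : ∀ w ∈ S.DD Q, S.t * w * S.t = w⁻¹ :=
  Setup.inverts_of_fpf (mul_self_of_two S.ht) (fun _ hw => M.DD_t hord Q hw)
    (fun _ hw h => M.fpf_DD hord Q hw h)

theorem comm_DD (Q : Sylow p G) : ∀ a ∈ S.DD Q, ∀ b ∈ S.DD Q, a * b = b * a :=
  Setup.comm_of_inverted (mul_self_of_two S.ht) (M.inv_DD hord Q)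

theorem IsA_DD (Q : Sylow p G) {w : G} (hw : w ∈ S.DD Q) (hw1 : w ≠ 1) : S.IsA w := by
  intro y hy
  apply hw1
  have h1 := M.order_dvd_DD hord Q hw
  have h2 : orderOf w ∣ d + 1 := by
    rw [← M.hk]
    have h3 : orderOf (⟨_, hy⟩ : S.K) = orderOf w := by
      rw [Subgroup.orderOf_mk, show y⁻¹ * w * y = y⁻¹ * w * y⁻¹⁻¹ by group, orderOf_conj']
    rw [← h3]
    exact orderOf_dvd_natCard _
  exact orderOf_eq_one_iff.mp (Nat.eq_one_of_dvd_coprimes (cop_a d) h2 h1)

theorem Cn_DD (Q : Sylow p G) {w : G} (hw : w ∈ S.DD Q) (hw1 : w ≠ 1) : Cn w = S.DD Q := by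
  have hA := M.IsA_DD hord Q hw hw1
  have h1 := M.real_card hA S.ht (M.inv_DD hord Q w hw)
  symm
  apply Subgroup.eq_of_le_of_card_ge
  · intro x hx
    rw [mem_Cn]
    exact M.comm_DD hord Q x hx w hw
  · rw [h1, M.card_DD hord Q]

theorem norm_DD_cases (Q : Sylow p G) {y : G}
    (hy : y ∈ Subgroup.normalizer ((S.DD Q : Subgroup G) : Set G)) :
    y ∈ S.DD Q ∨ ∃ v ∈ S.DD Q, y = v * S.t := by
  have hne : S.DD Q ≠ ⊥ := by
    intro h
    have h1 := M.card_DD hord Q
    rw [h, Subgroup.card_bot] at h1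
    have := M.hd3
    omega
  obtain ⟨⟨a, ha⟩, ha1⟩ := (Subgroup.ne_bot_iff_exists_ne_one).mp hne
  have ha1' : a ≠ 1 := fun h => ha1 (Subtype.ext h)
  have hc := M.Cn_DD hord Q ha ha1'
  have hA := M.IsA_DD hord Q ha ha1'
  rw [← hc] at hy
  have h2 := M.normalizer_real hA (M.inv_DD hord Q a ha) hy
  rwa [hc] at h2

theorem t_not_DD (Q : Sylow p G) : S.t ∉ S.DD Q := fun h =>
  M.not_invol_norm hord Q h.1 S.ht

theorem t_norm_DD (Q : Sylow p G) : S.t ∈ Subgroup.normalizer ((S.DD Q : Subgroup G) : Set G) := by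
  rw [Subgroup.mem_normalizer_iff]
  have hti := inv_of_two S.ht
  intro w
  rw [hti]
  constructor
  · exact M.DD_t hord Q
  · intro h
    have h1 := M.DD_t hord Q h
    have ht := mul_self_of_two S.ht
    have e : S.t * (S.t * w * S.t) * S.t = w := by
      calc _ = (S.t * S.t) * w * (S.t * S.t) := by group
        _ = w := by rw [ht]; group
    rwa [e] at h1

/-- Subgroups of `D` are normalized by the normalizer of `D`. -/
theorem norm_sub (Q : Sylow p G) {X : Subgroup G} (hX : X ≤ S.DD Q) {y : G}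
    (hy : y ∈ Subgroup.normalizer ((S.DD Q : Subgroup G) : Set G)) {w : G} (hw : w ∈ X) :
    y * w * y⁻¹ ∈ X := by
  rcases M.norm_DD_cases hord Q hy with h | ⟨v, hv, rfl⟩
  · have h1 := M.comm_DD hord Q y h w (hX hw)
    rw [h1]
    have e : w * y * y⁻¹ = w := by group
    rwa [e]
  · have h1 := M.inv_DD hord Q w (hX hw)
    have hti := inv_of_two S.ht
    have e : v * S.t * w * (v * S.t)⁻¹ = v * (S.t * w * S.t) * v⁻¹ := by
      rw [mul_inv_rev, hti]; group
    rw [e, h1]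
    have h2 := M.comm_DD hord Q v hv w⁻¹ ((S.DD Q).inv_mem (hX hw))
    rw [h2]
    have e2 : w⁻¹ * v * v⁻¹ = w⁻¹ := by group
    rw [e2]
    exact X.inv_mem hw

theorem last (Q : Sylow p G) (X : Subgroup G) (hX : X ≤ S.DD Q) (hX1 : X ≠ ⊥) :
    Subgroup.normalizer (X : Set G) = Subgroup.normalizer ((S.DD Q : Subgroup G) : Set G) := by
  obtain ⟨⟨a, ha⟩, ha1⟩ := (Subgroup.ne_bot_iff_exists_ne_one).mp hX1
  have ha1' : a ≠ 1 := fun h => ha1 (Subtype.ext h)
  have hc := M.Cn_DD hord Q (hX ha) ha1'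
  apply le_antisymm
  · intro y hy
    have h1 := (Subgroup.mem_normalizer_iff.mp hy a).mp ha
    have h2 : y * a * y⁻¹ ≠ 1 := by
      intro h0
      apply ha1'
      have e : a = y⁻¹ * (y * a * y⁻¹) * y := by group
      rw [e, h0]; group
    have hc2 := M.Cn_DD hord Q (hX h1) h2
    have h3 := normalizer_of_Cn_eq (hc2.trans hc.symm)
    rwa [hc] at h3
  · intro y hy
    rw [Subgroup.mem_normalizer_iff]
    intro w
    constructor
    · intro hw
      exact M.norm_sub hord Q hX hy hw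
    · intro hw
      have h1 := M.norm_sub hord Q hX (Subgroup.inv_mem _ hy) hw
      have e : y⁻¹ * (y * w * y⁻¹) * y⁻¹⁻¹ = w := by group
      rwa [e] at h1

theorem norm_DD_eq (Q : Sylow p G) :
    Subgroup.normalizer ((S.DD Q : Subgroup G) : Set G) = S.DD Q ⊔ Subgroup.zpowers S.t := by
  apply le_antisymm
  · intro y hy
    rcases M.norm_DD_cases hord Q hy with h | ⟨v, hv, rfl⟩
    · exact Subgroup.mem_sup_left h
    · exact Subgroup.mul_mem _ (Subgroup.mem_sup_left hv)
        (Subgroup.mem_sup_right (Subgroup.mem_zpowers _))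
  · refine sup_le Subgroup.le_normalizer ?_
    rw [Subgroup.zpowers_le]
    exact M.t_norm_DD hord Q

theorem sup_eq (Q : Sylow p G) :
    Subgroup.normalizer (Q : Set G) = (Q : Subgroup G) ⊔ S.DD Q := by
  symm
  have hd3 := M.hd3
  apply Subgroup.eq_of_le_of_card_ge
  · exact sup_le Subgroup.le_normalizer inf_le_left
  · rw [M.card_normalizer hord Q]
    have h1 : Nat.card (Q : Subgroup G) ∣ Nat.card ↥((Q : Subgroup G) ⊔ S.DD Q) :=
      Subgroup.card_dvd_of_le le_sup_left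
    have h2 : Nat.card (S.DD Q) ∣ Nat.card ↥((Q : Subgroup G) ⊔ S.DD Q) :=
      Subgroup.card_dvd_of_le le_sup_right
    rw [M.card_sylow hord Q] at h1
    rw [M.card_DD hord Q] at h2
    exact Nat.le_of_dvd Nat.card_pos (Nat.Coprime.mul_dvd_of_dvd_of_dvd (cop_c d) h1 h2)

theorem concl_of_p : Concl G := by
  obtain ⟨Q⟩ : Nonempty (Sylow p G) := inferInstance
  have hq := M.card_sylow hord Q
  have hD := M.card_DD hord Q
  have hd3 := M.hd3
  refine ⟨Q, S.DD Q, ?_, ?_, ⟨⟨fun a b => Subtype.ext (M.comm_DD hord Q a a.2 b b.2)⟩⟩, ?_,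
    M.inf_DD hord Q, M.sup_eq hord Q, ?_⟩
  · rw [hq, Nat.card_eq_fintype_card, M.card_G]
    simp only [Nat.add_sub_cancel]
    ring
  · intro x hx hx1
    exact M.Cn_eq_of_mem hord Q hx hx1
  · rw [hq, hD]
  · intro X hX hX1
    refine ⟨M.last hord Q X hX hX1, S.t, S.ht, M.t_not_DD hord Q, ?_, M.norm_DD_eq hord Q⟩
    intro w hw
    rw [inv_of_two S.ht]
    exact M.inv_DD hord Q w hw

end P

theorem concl : Concl G := by
  obtain ⟨p, hp, hord⟩ := M.exists_p
  haveI : Fact p.Prime := ⟨hp⟩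
  exact M.concl_of_p hord

end Minus

end Cfsg.Agent.Lib.BSW
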