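import Cfsg.Agent.Lib.BSW.Final1

/-!
# Abstract Brauer–Suzuki–Wall: the case `q = 2k + 1`
-/

set_option autoImplicit false
set_option linter.unusedSectionVars false
set_option linter.unusedVariables false
set_option linter.unusedSimpArgs false
set_option linter.unnecessarySimpa false

open scoped ComplexConjugate

namespace Cfsg.Agent.Lib.BSW

open Classical Finset
open Cfsg (classInner IsCharacter IsIrrCharacter IrrCharacter IsClassFunction indFun
  extendByZero charDegree IsGeneralizedCharacter)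
open Cfsg.Agent.Lib.Char

universe u

variable {G : Type u} [Group G] [Fintype G]

namespace Setup

variable (S : Setup G)

/-- The centralizers of the elements of `A` inverted by `t`. -/
noncomputable def LL : Finset (Subgroup G) := S.WW.image Cn

theorem mem_LL {L : Subgroup G} : L ∈ S.LL ↔ ∃ g, S.IsA g ∧ S.t * g * S.t = g⁻¹ ∧ Cn g = L := by
  simp only [LL, mem_image, mem_WW]
  constructor
  · rintro ⟨g, ⟨h1, h2⟩, h3⟩
    exact ⟨g, h1, h2, h3⟩
  · rintro ⟨g, h1, h2, h3⟩
    exact ⟨g, ⟨h1, h2⟩, h3⟩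

theorem fiber {g : G} (hg : S.IsA g) (ht : S.t * g * S.t = g⁻¹) :
    (S.WW.filter fun w => Cn w = Cn g).card = Nat.card (Cn g) - 1 := by
  have h : S.WW.filter (fun w => Cn w = Cn g) = (univ.filter (· ∈ Cn g)).erase 1 := by
    ext w
    simp only [mem_filter, mem_WW, mem_erase, mem_univ, true_and]
    constructor
    · rintro ⟨⟨h1, h2⟩, h3⟩
      refine ⟨h1.ne_one, ?_⟩
      rw [← h3]
      exact mem_Cn_self w
    · rintro ⟨h1, h2⟩
      refine ⟨⟨hg.of_mem (mem_Cn.mp h2) h1, hg.inverts S.ht ht w h2⟩, hg.cn_eq S.ht ht h2 h1⟩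
  rw [h, card_erase_of_mem (by simp [Subgroup.one_mem]), card_filter_mem]

theorem sum_WW {R : Type*} [AddCommMonoid R] (f : Subgroup G → R) :
    ∑ g ∈ S.WW, f (Cn g) = ∑ L ∈ S.LL, (Nat.card L - 1) • f L := by
  rw [Finset.sum_comp f Cn]
  refine Finset.sum_congr rfl fun L hL => ?_
  obtain ⟨g, h1, h2, rfl⟩ := S.mem_LL.mp hL
  rw [S.fiber h1 h2]

theorem card_WW_rel : S.WW.card + 1 + (Nat.card S.K - 1) * Nat.card S.K = mm G := by
  have h1 := S.sum_AA_BB_smul (fun _ => (1 : ℕ)) (fun _ _ => rfl)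
  have h2 := S.sum_AA_BB
  simp only [smul_eq_mul, mul_one, Finset.sum_const] at h1
  rw [h1] at h2
  have hm := S.mm_pos
  have h3 : mm G * (S.WW.card + 1 + (Nat.card S.K - 1) * Nat.card S.K) = mm G * mm G := by
    calc mm G * (S.WW.card + 1 + (Nat.card S.K - 1) * Nat.card S.K)
        = mm G * S.WW.card + mm G + mm G * (Nat.card S.K - 1) * Nat.card S.K := by ring
      _ = mm G ^ 2 := h2
      _ = _ := by ring
  exact Nat.eq_of_mul_eq_mul_left hm h3

theorem IsA_conj_WW {g y : G} (hg : S.IsA g) (ht : S.t * g * S.t = g⁻¹) (hy : y * S.t = S.t * y) :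
    S.IsA (y * g * y⁻¹) ∧ S.t * (y * g * y⁻¹) * S.t = (y * g * y⁻¹)⁻¹ := by
  refine ⟨hg.conj y, ?_⟩
  have h1 : S.t * y = y * S.t := hy.symm
  have h2 : y⁻¹ * S.t = S.t * y⁻¹ := by
    calc y⁻¹ * S.t = y⁻¹ * (S.t * y) * y⁻¹ := by group
      _ = y⁻¹ * (y * S.t) * y⁻¹ := by rw [h1]
      _ = _ := by group
  calc S.t * (y * g * y⁻¹) * S.t = (S.t * y) * g * (y⁻¹ * S.t) := by group
    _ = (y * S.t) * g * (S.t * y⁻¹) := by rw [h1, h2]
    _ = y * (S.t * g * S.t) * y⁻¹ := by group
    _ = _ := by rw [ht]; group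

/-- The case `ε = 1`. -/
theorem plus_case (hk : 4 ≤ Nat.card S.K) (St : IrrCharacter G) (hSt : St ≠ oneG G)
    (hm : (mm G : ℤ) = (2 * (Nat.card S.K : ℤ) + 1) * ((Nat.card S.K : ℤ) + 1))
    (hd : dd St = 2 * (Nat.card S.K : ℤ) + 1)
    (hB : ∀ g, S.IsA g → (BB g : ℂ) = (2 * (Nat.card S.K : ℂ) + 1) + (Nat.card S.K : ℂ) * St.1 g) :
    Concl G := by
  set c := Nat.card S.K with hc
  have hc0 : c ≠ 0 := by omega
  have hcz : (c : ℤ) ≠ 0 := by exact_mod_cast hc0
  have hcge : (4 : ℤ) ≤ c := by exact_mod_cast hk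
  have hval : ∀ g, S.IsA g → ∃ s : ℤ, St.1 g = s ∧ (BB g : ℤ) = 2 * c + 1 + c * s := by
    intro g hg
    obtain ⟨s, hs⟩ := int_of_mul (IsCharacter.isIntegral' (IsIrrCharacter.isCharacter St.2) g) hc0
      (N := (BB g : ℤ) - 2 * c - 1) (by
        have := hB g hg
        push_cast
        rw [this]
        ring)
    refine ⟨s, hs, ?_⟩
    have h1 := hB g hg
    rw [hs] at h1
    exact_mod_cast h1
  have hreal : ∀ g, S.IsA g → ∃ x, orderOf x = 2 ∧ x * g * x = g⁻¹ := by
    intro g hg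
    by_contra hcon
    push Not at hcon
    have h0 := S.BB_A_eq_zero hg hcon
    obtain ⟨s, -, hs⟩ := hval g hg
    rw [h0] at hs
    push_cast at hs
    have h1 : (c : ℤ) * (2 + s) = -1 := by linarith
    rcases le_or_gt 0 (2 + s) with h2 | h2
    · nlinarith
    · nlinarith
  have hcard : ∀ g, S.IsA g → BB g = Nat.card (Cn g) ∧
      (Nat.card (Cn g) = c + 1 ∨ Nat.card (Cn g) = 2 * c + 1) := by
    intro g hg
    obtain ⟨x, hx, hxg⟩ := hreal g hg
    have hBc := S.BB_A_eq_card hg hx hxg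
    refine ⟨hBc, ?_⟩
    obtain ⟨s, hs, hBs⟩ := hval g hg
    have hconst : ∀ w ∈ Cn g, w ≠ 1 → St.1 w = s := by
      intro w hw hw1
      have hwA := hg.of_mem (mem_Cn.mp hw) hw1
      obtain ⟨s', hs', hBs'⟩ := hval w hwA
      have h1 := S.BB_A_eq_card hwA hx (hg.inverts hx hxg w hw)
      rw [hg.cn_eq hx hxg hw hw1, ← hBc] at h1
      rw [h1, hBs] at hBs'
      have h2 : (c : ℤ) * s = c * s' := by linarith
      have h3 := mul_left_cancel₀ hcz h2
      rw [hs', h3]
    have hdvd := card_dvd_sub (L := Cn g) St s hconst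
    rw [hd] at hdvd
    have hbound := column_bound St hSt g
    rw [hs] at hbound
    have hnorm : ‖((s : ℤ) : ℂ)‖ ^ 2 = ((s : ℝ)) ^ 2 := by
      rw [Complex.norm_intCast, sq_abs]
    rw [hnorm] at hbound
    have hbound' : 1 + s ^ 2 ≤ (Nat.card (Cn g) : ℤ) := by exact_mod_cast hbound
    have hl : (Nat.card (Cn g) : ℤ) = 2 * c + 1 + c * s := by
      rw [← hBc]; exact hBs
    have hgt : 1 < Nat.card (Cn g) := by
      haveI : Nontrivial (Cn g) :=
        ⟨⟨⟨g, mem_Cn_self g⟩, 1, fun h => hg.ne_one (congrArg Subtype.val h)⟩⟩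
      exact Finite.one_lt_card
    have hgt' : (1 : ℤ) < Nat.card (Cn g) := by exact_mod_cast hgt
    have hs1 : -1 ≤ s := by
      by_contra hcon
      push Not at hcon
      have : (c : ℤ) * s ≤ c * (-2) := by
        apply mul_le_mul_of_nonneg_left (by omega) (by omega)
      omega
    have hs2 : s ≤ 0 := by
      by_contra hcon
      push Not at hcon
      rw [hl] at hdvd
      rcases lt_trichotomy (2 * (c : ℤ) + 1 - s) 0 with h1 | h1 | h1
      · have h2 : (2 * (c : ℤ) + 1 + c * s) ∣ s - (2 * c + 1) := by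
          have := (dvd_neg (a := 2 * (c : ℤ) + 1 + c * s)).mpr hdvd
          rwa [neg_sub] at this
        have h3 := Int.le_of_dvd (by omega) h2
        nlinarith
      · have hs3 : s = 2 * c + 1 := by omega
        rw [hl, hs3] at hbound'
        nlinarith
      · have h3 := Int.le_of_dvd h1 hdvd
        nlinarith
    have hs3 : s = -1 ∨ s = 0 := by omega
    rcases hs3 with rfl | rfl
    · left
      have : (Nat.card (Cn g) : ℤ) = c + 1 := by rw [hl]; ring
      exact_mod_cast this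
    · right
      have : (Nat.card (Cn g) : ℤ) = 2 * c + 1 := by rw [hl]; ring
      exact_mod_cast this
  have hmN : mm G = (2 * c + 1) * (c + 1) := by exact_mod_cast hm
  have hne : c + 1 ≠ 2 * c + 1 := by omega
  -- the two kinds of members of `LL`
  have hLL : ∀ L ∈ S.LL, Nat.card L = c + 1 ∨ Nat.card L = 2 * c + 1 := by
    intro L hL
    obtain ⟨g, h1, h2, rfl⟩ := S.mem_LL.mp hL
    exact (hcard g h1).2
  set a := (S.LL.filter fun L : Subgroup G => Nat.card L = c + 1).card with ha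
  set LLb := S.LL.filter fun L : Subgroup G => ¬ Nat.card L = c + 1 with hLLb
  set b := LLb.card with hb
  -- first count
  have h1 : S.WW.card = a * c + b * (2 * c) := by
    have := S.sum_WW (fun _ => (1 : ℕ))
    simp only [smul_eq_mul, mul_one, Finset.sum_const] at this
    rw [this]
    have h2 : ∀ L ∈ S.LL, Nat.card L - 1 = if Nat.card L = c + 1 then c else 2 * c := by
      intro L hL
      split_ifs with h3
      · rw [h3]; simp
      · rcases hLL L hL with h4 | h4
        · exact absurd h4 h3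
        · rw [h4]; simp
    rw [Finset.sum_congr rfl h2, Finset.sum_ite, Finset.sum_const, Finset.sum_const]
    simp only [smul_eq_mul]
    rfl
  -- second count
  have h2 : S.AA.card = a * (c * (2 * c + 1)) + b * (2 * c * (c + 1)) := by
    let F' : Subgroup G → ℕ := fun L => if Nat.card L = c + 1 then 2 * c + 1 else c + 1
    have hD := S.sum_AA_BB_smul (fun g => F' (Cn g)) (by
      intro h g
      simp only [F', card_Cn_conj])
    have h3 : ∀ g ∈ S.AA, BB g • F' (Cn g) = mm G := by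
      intro g hg
      rw [S.mem_AA] at hg
      obtain ⟨h4, h5⟩ := hcard g hg
      rw [h4, smul_eq_mul, hmN]
      simp only [F']
      rcases h5 with h5 | h5
      · rw [if_pos h5, h5]
        ring
      · rw [if_neg (by omega), h5]
    rw [Finset.sum_congr rfl h3, Finset.sum_const, smul_eq_mul, smul_eq_mul, S.sum_WW F'] at hD
    have hm0 := S.mm_pos
    have h4 : mm G * S.AA.card = mm G * ∑ L ∈ S.LL, (Nat.card L - 1) • F' L := by
      rw [mul_comm]
      exact hD
    have h5 := Nat.eq_of_mul_eq_mul_left hm0 h4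
    rw [h5]
    have h6 : ∀ L ∈ S.LL, (Nat.card L - 1) • F' L =
        if Nat.card L = c + 1 then c * (2 * c + 1) else 2 * c * (c + 1) := by
      intro L hL
      simp only [F', smul_eq_mul]
      split_ifs with h3
      · rw [h3]; simp
      · rcases hLL L hL with h4 | h4
        · exact absurd h4 h3
        · rw [h4]; simp
    rw [Finset.sum_congr rfl h6, Finset.sum_ite, Finset.sum_const, Finset.sum_const]
    simp only [smul_eq_mul]
    rfl
  have h3 := S.card_WW_rel
  have h4 := S.card_AA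
  rw [S.card_G, ← hc] at h4
  rw [← hc] at h3
  have hb2 : b = 2 := by
    obtain ⟨c', hc'⟩ : ∃ c', c = c' + 1 := ⟨c - 1, by omega⟩
    rw [h1, hmN] at h3
    rw [h2, hmN] at h4
    simp only [hc', Nat.add_sub_cancel] at h3 h4
    have e1 : (a : ℤ) + 2 * b = (c' + 1 : ℤ) + 4 := by
      have h5 : ((a : ℤ) * (c' + 1) + b * (2 * (c' + 1)) + 1 + c' * (c' + 1)) =
          (2 * (c' + 1) + 1) * ((c' + 1) + 1) := by exact_mod_cast h3
      have h6 : ((c' : ℤ) + 1) * ((a : ℤ) + 2 * b) = ((c' : ℤ) + 1) * ((c' + 1 : ℤ) + 4) := by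
        linear_combination h5
      exact mul_left_cancel₀ (by positivity) h6
    have e2 : ((a : ℤ) * ((c' + 1) * (2 * (c' + 1) + 1)) + b * (2 * (c' + 1) * ((c' + 1) + 1))) + 1 +
        ((2 * (c' + 1) + 1) * ((c' + 1) + 1)) * c' = 2 * (c' + 1) * ((2 * (c' + 1) + 1) * ((c' + 1) + 1)) := by
      exact_mod_cast h4
    have e3 : ((c' : ℤ) + 1) * ((c' : ℤ) + 1) * (((b : ℤ) - 2) * 2) = 0 := by
      linear_combination (-1) * e2 + ((c' : ℤ) + 1) * (2 * ((c' : ℤ) + 1) + 1) * e1
    have e4 : (b : ℤ) - 2 = 0 := by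
      have h5 : ((c' : ℤ) + 1) * ((c' : ℤ) + 1) ≠ 0 := by positivity
      have h6 := (mul_eq_zero.mp e3).resolve_left h5
      linarith
    have : (b : ℤ) = 2 := by linarith
    exact_mod_cast this
  -- the two subgroups of order `2c + 1`
  obtain ⟨L₁, L₂, hL12, hLeq⟩ := Finset.card_eq_two.mp hb2
  have hL₁ : L₁ ∈ LLb := by rw [hLeq]; simp
  have hmemb : ∀ {g : G}, S.IsA g → S.t * g * S.t = g⁻¹ → Nat.card (Cn g) = 2 * c + 1 → Cn g ∈ LLb := by
    intro g h1' h2' h3'
    rw [hLLb, mem_filter, S.mem_LL]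
    refine ⟨⟨g, h1', h2', rfl⟩, ?_⟩
    rw [h3']
    omega
  have hcase : ∀ {L}, L ∈ LLb → L = L₁ ∨ L = L₂ := by
    intro L hL
    rw [hLeq] at hL
    simpa using hL
  rw [hLLb, mem_filter, S.mem_LL] at hL₁
  obtain ⟨⟨g₁, hA, ht, rfl⟩, hcard1⟩ := hL₁
  have hcard₁ : Nat.card (Cn g₁) = 2 * c + 1 := by
    rcases (hcard g₁ hA).2 with h5 | h5
    · exact absurd h5 hcard1
    · exact h5
  have hss := mul_self_of_two S.hs
  have hsi := inv_of_two S.hs
  -- conjugate by `s`
  have hsA := S.IsA_conj_WW hA ht S.hst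
  set g₂ := S.s * g₁ * S.s⁻¹ with hg₂
  have hcard₂ : Nat.card (Cn g₂) = 2 * c + 1 := by rw [hg₂, card_Cn_conj]; exact hcard₁
  have hne₂ : Cn g₂ ≠ Cn g₁ := by
    intro h0
    have h5 := normalizer_of_Cn_eq h0
    apply hA.not_ks ht S.K.one_mem
    rwa [one_mul]
  have hL₂ : Cn g₂ = L₂ := by
    rcases hcase (hmemb hsA.1 hsA.2 hcard₂) with h5 | h5
    · exact absurd h5 hne₂
    · exact h5
  refine S.final_plus hA ht (by rw [hcard₁]) ?_ hmN
  intro x hx
  have hxA := S.IsA_conj_WW hA ht (S.hKt x hx)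
  have hcardx : Nat.card (Cn (x * g₁ * x⁻¹)) = 2 * c + 1 := by rw [card_Cn_conj]; exact hcard₁
  rcases hcase (hmemb hxA.1 hxA.2 hcardx) with h5 | h5
  · exact h5
  · exfalso
    have e : x * g₁ * x⁻¹ = (x * S.s) * g₂ * (x * S.s)⁻¹ := by
      rw [hg₂, mul_inv_rev, hsi]
      calc x * g₁ * x⁻¹ = x * (S.s * S.s) * g₁ * (S.s * S.s) * x⁻¹ := by rw [hss]; group
        _ = _ := by group
    rw [e, ← hL₂] at h5
    have h6 := normalizer_of_Cn_eq h5
    exact hsA.1.not_ks hsA.2 hx h6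

end Setup

end Cfsg.Agent.Lib.BSW
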