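import Mathlib

/-!
# Abstract Brauer–Suzuki–Wall: the basic configuration
-/

set_option autoImplicit false
set_option linter.unusedSectionVars false
set_option linter.unusedVariables false

namespace Cfsg.Agent.Lib.BSW

/-- The centralizer of an element. -/
abbrev Cn {G : Type*} [Group G] (g : G) : Subgroup G := Subgroup.centralizer ({g} : Set G)

theorem mem_Cn {G : Type*} [Group G] {g w : G} : w ∈ Cn g ↔ w * g = g * w :=
  Subgroup.mem_centralizer_singleton_iff

/-- The hypotheses of the abstract Brauer–Suzuki–Wall theorem, elementwise. -/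
structure Setup (G : Type*) [Group G] where
  t : G
  K : Subgroup G
  s : G
  ht : orderOf t = 2
  hab : ∀ a ∈ K, ∀ b ∈ K, a * b = b * a
  hKt : ∀ a ∈ K, a * t = t * a
  htK : t ∈ K
  hs : orderOf s = 2
  hst : s * t = t * s
  hsK : s ∉ K
  hH : ∀ y, y * t = t * y → y ∈ K ∨ ∃ a ∈ K, y = a * s
  hCK : ∀ a ∈ K, a * s = s * a → a = 1 ∨ a = t
  hinv : ∀ a ∈ K, s * a * s = a⁻¹
  hTI : ∀ g, g * t ≠ t * g → ∀ a ∈ K, g * a * g⁻¹ ∈ K → a = 1
  hconj : ∀ x y : G, orderOf x = 2 → orderOf y = 2 → IsConj x y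

variable {G : Type*} [Group G]

theorem mul_self_of_two {x : G} (h : orderOf x = 2) : x * x = 1 := by
  rw [← pow_two, ← h, pow_orderOf_eq_one]

theorem inv_of_two {x : G} (h : orderOf x = 2) : x⁻¹ = x :=
  inv_eq_of_mul_eq_one_left (mul_self_of_two h)

theorem two_of_mul_self {x : G} (h : x * x = 1) (h1 : x ≠ 1) : orderOf x = 2 :=
  orderOf_eq_prime (by rwa [pow_two]) h1

theorem ne_one_of_two {x : G} (h : orderOf x = 2) : x ≠ 1 := by
  rintro rfl
  simp at h

theorem orderOf_conj' (h x : G) : orderOf (h * x * h⁻¹) = orderOf x := by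
  simpa using MulEquiv.orderOf_eq (MulAut.conj h) x

namespace Setup

variable (S : Setup G)

/-- The elements off the conjugates of `K`. -/
def IsA (g : G) : Prop := ∀ y : G, y⁻¹ * g * y ∉ S.K

theorem t_ne_one : S.t ≠ 1 := ne_one_of_two S.ht

theorem ks_sq {a : G} (ha : a ∈ S.K) : (a * S.s) * (a * S.s) = 1 := by
  have h := S.hinv a ha
  have hs := mul_self_of_two S.hs
  calc a * S.s * (a * S.s) = a * (S.s * a * S.s) := by group
    _ = 1 := by rw [h]; group

theorem ks_ne_one {a : G} (ha : a ∈ S.K) : a * S.s ≠ 1 := by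
  intro h
  apply S.hsK
  have : S.s = a⁻¹ := eq_inv_of_mul_eq_one_right h
  rw [this]
  exact S.K.inv_mem ha

theorem ks_two {a : G} (ha : a ∈ S.K) : orderOf (a * S.s) = 2 :=
  two_of_mul_self (S.ks_sq ha) (S.ks_ne_one ha)

theorem ks_not_mem {a : G} (ha : a ∈ S.K) : a * S.s ∉ S.K := by
  intro h
  apply S.hsK
  have : S.s = a⁻¹ * (a * S.s) := by group
  rw [this]
  exact S.K.mul_mem (S.K.inv_mem ha) h

theorem ks_comm {a : G} (ha : a ∈ S.K) : (a * S.s) * S.t = S.t * (a * S.s) := by
  rw [mul_assoc, S.hst, ← mul_assoc, S.hKt a ha, mul_assoc]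

theorem eq_of_two_mem {a : G} (ha : a ∈ S.K) (h : orderOf a = 2) : a = S.t := by
  have h1 := S.hinv a ha
  rw [inv_of_two h] at h1
  have hs := mul_self_of_two S.hs
  have h2 : a * S.s = S.s * a := by
    calc a * S.s = (S.s * a * S.s) * S.s := by rw [h1]
      _ = S.s * a * (S.s * S.s) := by group
      _ = S.s * a := by rw [hs, mul_one]
  rcases S.hCK a ha h2 with h3 | h3
  · exact absurd h3 (ne_one_of_two h)
  · exact h3

theorem exists_conj {x : G} (hx : orderOf x = 2) : ∃ h : G, x = h * S.t * h⁻¹ := by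
  obtain ⟨h, hh⟩ := isConj_iff.mp (S.hconj S.t x S.ht hx)
  exact ⟨h, hh.symm⟩

/-- An element conjugating a nontrivial element of `K` into `K` commutes with `t`. -/
theorem comm_of_conj_mem {a y : G} (ha : a ∈ S.K) (ha1 : a ≠ 1) (h : y * a * y⁻¹ ∈ S.K) :
    y * S.t = S.t * y := by
  by_contra hc
  exact ha1 (S.hTI y hc a ha h)

theorem IsA.conj {S : Setup G} {g : G} (h : S.IsA g) (y : G) : S.IsA (y * g * y⁻¹) := by
  intro z hz
  apply h (y⁻¹ * z)
  have : (y⁻¹ * z)⁻¹ * g * (y⁻¹ * z) = z⁻¹ * (y * g * y⁻¹) * z := by group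
  rwa [this]

theorem IsA.ne_one {S : Setup G} {g : G} (h : S.IsA g) : g ≠ 1 := by
  rintro rfl
  apply h 1
  simp [S.K.one_mem]

theorem IsA.inv {S : Setup G} {g : G} (h : S.IsA g) : S.IsA g⁻¹ := by
  intro y hy
  apply h y
  have : y⁻¹ * g * y = (y⁻¹ * g⁻¹ * y)⁻¹ := by group
  rw [this]
  exact S.K.inv_mem hy

theorem IsA.not_two {S : Setup G} {g : G} (h : S.IsA g) : orderOf g ≠ 2 := by
  intro h2
  obtain ⟨y, hy⟩ := S.exists_conj h2
  apply h y
  rw [hy]
  have : y⁻¹ * (y * S.t * y⁻¹) * y = S.t := by group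
  rw [this]
  exact S.htK

/-- No involution commutes with an element of `A`. -/
theorem IsA.no_invol {S : Setup G} {g z : G} (h : S.IsA g) (hz : orderOf z = 2) :
    z * g ≠ g * z := by
  intro hc
  obtain ⟨y, hy⟩ := S.exists_conj hz
  set g' := y⁻¹ * g * y with hg'
  have hc' : g' * S.t = S.t * g' := by
    subst hy
    have : y⁻¹ * (y * S.t * y⁻¹ * g * (y * S.t * y⁻¹)⁻¹) * y = S.t * (y⁻¹ * g * y) * S.t⁻¹ := by group
    have h3 : y * S.t * y⁻¹ * g * (y * S.t * y⁻¹)⁻¹ = g := by rw [hc]; group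
    rw [h3] at this
    have h4 : g' = S.t * g' * S.t⁻¹ := this
    calc g' * S.t = S.t * g' * S.t⁻¹ * S.t := by rw [← h4]
      _ = S.t * g' := by group
  rcases S.hH _ hc' with hmem | ⟨a, ha, hEq⟩
  · exact h y hmem
  · have h5 : orderOf g' = 2 := by rw [hEq]; exact S.ks_two ha
    have h6 : orderOf g = 2 := by
      have : g = y * g' * y⁻¹ := by rw [hg']; group
      rw [this, orderOf_conj']; exact h5
    exact h.not_two h6

theorem IsA.not_comm_K {S : Setup G} {g a : G} (h : S.IsA g) (ha : a ∈ S.K) (ha1 : a ≠ 1)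
    (hc : g * a = a * g) : False := by
  have h1 : g * a * g⁻¹ ∈ S.K := by rw [hc]; simpa using ha
  have h2 := S.comm_of_conj_mem ha ha1 h1
  exact h.no_invol S.ht h2.symm

/-- Elements commuting with `g ∈ A` and with an involution are trivial. -/
theorem IsA.fpf {S : Setup G} {g x w : G} (h : S.IsA g) (hx : orderOf x = 2) (hw : w * g = g * w)
    (hwx : w * x = x * w) : w = 1 := by
  obtain ⟨y, rfl⟩ := S.exists_conj hx
  set w' := y⁻¹ * w * y with hw'
  set g' := y⁻¹ * g * y with hg'
  have hA' : S.IsA g' := by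
    have := h.conj y⁻¹
    simpa [hg'] using this
  have h1 : w' * g' = g' * w' := by
    rw [hw', hg']
    calc y⁻¹ * w * y * (y⁻¹ * g * y) = y⁻¹ * (w * g) * y := by group
      _ = y⁻¹ * (g * w) * y := by rw [hw]
      _ = _ := by group
  have h2 : w' * S.t = S.t * w' := by
    rw [hw']
    have : y⁻¹ * (w * (y * S.t * y⁻¹)) * y = y⁻¹ * ((y * S.t * y⁻¹) * w) * y := by rw [hwx]
    calc y⁻¹ * w * y * S.t = y⁻¹ * (w * (y * S.t * y⁻¹)) * y := by group
      _ = y⁻¹ * ((y * S.t * y⁻¹) * w) * y := this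
      _ = _ := by group
  have hw1 : w' = 1 := by
    rcases S.hH _ h2 with hmem | ⟨a, ha, hEq⟩
    · by_contra hne
      exact hA'.not_comm_K hmem hne h1.symm
    · exfalso
      have h5 : orderOf w' = 2 := by rw [hEq]; exact S.ks_two ha
      exact hA'.no_invol h5 h1
  have : w = y * w' * y⁻¹ := by rw [hw']; group
  rw [this, hw1]; group

/-- A fixed point free involutory action on a finite subgroup is inversion. -/
theorem inverts_of_fpf [Finite G] {L : Subgroup G} {x : G} (hxx : x * x = 1)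
    (hn : ∀ w ∈ L, x * w * x ∈ L) (hf : ∀ w ∈ L, w * x = x * w → w = 1) :
    ∀ w ∈ L, x * w * x = w⁻¹ := by
  have hxi : x⁻¹ = x := inv_eq_of_mul_eq_one_left hxx
  let f : L → L := fun u => ⟨u⁻¹ * (x * u * x), L.mul_mem (L.inv_mem u.2) (hn u u.2)⟩
  have hinj : Function.Injective f := by
    intro u v huv
    have h1 : (u : G)⁻¹ * (x * u * x) = (v : G)⁻¹ * (x * v * x) := congrArg Subtype.val huv
    have h2 : ((v : G) * (u : G)⁻¹) * x = x * ((v : G) * (u : G)⁻¹) := by
      have h3 : (u : G)⁻¹ * x * u = (v : G)⁻¹ * x * v := by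
        have := congrArg (· * x) h1
        simp only [mul_assoc, hxx, mul_one] at this
        simpa [mul_assoc] using this
      calc (v : G) * (u : G)⁻¹ * x = v * ((u : G)⁻¹ * x * u) * (u : G)⁻¹ := by group
        _ = v * ((v : G)⁻¹ * x * v) * (u : G)⁻¹ := by rw [h3]
        _ = _ := by group
    have h4 := hf _ (L.mul_mem v.2 (L.inv_mem u.2)) h2
    apply Subtype.ext
    have : (v : G) = u := by
      have := eq_of_mul_inv_eq_one h4
      exact this
    exact this.symm
  have hsurj : Function.Surjective f := Finite.injective_iff_surjective.mp hinj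
  intro w hw
  obtain ⟨u, hu⟩ := hsurj ⟨w, hw⟩
  have h1 : (u : G)⁻¹ * (x * u * x) = w := congrArg Subtype.val hu
  rw [← h1]
  calc x * ((u : G)⁻¹ * (x * u * x)) * x = x * (u : G)⁻¹ * x * u * (x * x) := by group
    _ = x * (u : G)⁻¹ * x * u := by rw [hxx, mul_one]
    _ = ((u : G)⁻¹ * (x⁻¹ * u * x⁻¹))⁻¹ := by group
    _ = _ := by rw [hxi]

/-- If an involution inverts `g ∈ A` it inverts all of `C(g)`. -/
theorem IsA.inverts [Finite G] {S : Setup G} {g x : G} (h : S.IsA g) (hx : orderOf x = 2)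
    (hxg : x * g * x = g⁻¹) : ∀ w ∈ Cn g, x * w * x = w⁻¹ := by
  have hxx := mul_self_of_two hx
  refine inverts_of_fpf hxx ?_ ?_
  · intro w hw
    rw [mem_Cn] at hw ⊢
    have h1 : g * x = x * g⁻¹ := by
      calc g * x = x * (x * g * x) := by
            calc g * x = (x * x) * g * x := by rw [hxx, one_mul]
              _ = _ := by group
        _ = x * g⁻¹ := by rw [hxg]
    have h2 : x * g = g⁻¹ * x := by
      calc x * g = (x * g * x) * x := by
            calc x * g = x * g * (x * x) := by rw [hxx, mul_one]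
              _ = _ := by group
        _ = g⁻¹ * x := by rw [hxg]
    have h3 : w * g⁻¹ = g⁻¹ * w := by
      calc w * g⁻¹ = g⁻¹ * (g * w) * g⁻¹ := by group
        _ = g⁻¹ * (w * g) * g⁻¹ := by rw [hw]
        _ = _ := by group
    calc x * w * x * g = x * w * (x * g) := by group
      _ = x * w * (g⁻¹ * x) := by rw [h2]
      _ = x * (w * g⁻¹) * x := by group
      _ = x * (g⁻¹ * w) * x := by rw [h3]
      _ = (x * g⁻¹) * (w * x) := by group
      _ = (g * x) * (w * x) := by rw [h1]
      _ = _ := by group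
  · intro w hw hwx
    exact h.fpf hx (mem_Cn.mp hw) hwx

theorem comm_of_inverted {L : Subgroup G} {x : G} (hxx : x * x = 1)
    (hi : ∀ w ∈ L, x * w * x = w⁻¹) : ∀ a ∈ L, ∀ b ∈ L, a * b = b * a := by
  intro a ha b hb
  have h1 := hi _ (L.mul_mem ha hb)
  have h2 : x * (a * b) * x = (x * a * x) * (x * b * x) := by
    calc x * (a * b) * x = x * a * 1 * b * x := by group
      _ = x * a * (x * x) * b * x := by rw [hxx]
      _ = _ := by group
  rw [h2, hi a ha, hi b hb] at h1
  have h3 : a⁻¹ * b⁻¹ = b⁻¹ * a⁻¹ := by rw [h1]; group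
  have h4 : (a⁻¹ * b⁻¹)⁻¹ = (b⁻¹ * a⁻¹)⁻¹ := by rw [h3]
  simpa using h4.symm

theorem IsA.comm [Finite G] {S : Setup G} {g x : G} (h : S.IsA g) (hx : orderOf x = 2)
    (hxg : x * g * x = g⁻¹) : ∀ a ∈ Cn g, ∀ b ∈ Cn g, a * b = b * a :=
  comm_of_inverted (mul_self_of_two hx) (h.inverts hx hxg)

theorem IsA.of_mem {S : Setup G} {g w : G} (h : S.IsA g) (hw : w * g = g * w) (hw1 : w ≠ 1) :
    S.IsA w := by
  intro y hy
  have h1 : S.IsA (y⁻¹ * g * y) := by simpa using h.conj y⁻¹
  refine h1.not_comm_K hy ?_ ?_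
  · intro h0
    apply hw1
    have : w = y * (y⁻¹ * w * y) * y⁻¹ := by group
    rw [this, h0]; group
  · calc y⁻¹ * g * y * (y⁻¹ * w * y) = y⁻¹ * (g * w) * y := by group
      _ = y⁻¹ * (w * g) * y := by rw [hw]
      _ = _ := by group

theorem IsA.cn_eq [Finite G] {S : Setup G} {g x w : G} (h : S.IsA g) (hx : orderOf x = 2)
    (hxg : x * g * x = g⁻¹) (hw : w ∈ Cn g) (hw1 : w ≠ 1) : Cn w = Cn g := by
  have hwA := h.of_mem (mem_Cn.mp hw) hw1
  have hxw := h.inverts hx hxg w hw
  have hgw : g ∈ Cn w := by rw [mem_Cn]; exact (mem_Cn.mp hw).symm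
  apply le_antisymm
  · intro z hz
    rw [mem_Cn]
    exact hwA.comm hx hxw z hz g hgw
  · intro z hz
    rw [mem_Cn]
    exact h.comm hx hxg z hz w hw

theorem mem_Cn_self (g : G) : g ∈ Cn g := by rw [mem_Cn]

/-- The inverting involutions form a coset. -/
theorem IsA.inverter_iff [Finite G] {S : Setup G} {g x y : G} (h : S.IsA g) (hx : orderOf x = 2)
    (hxg : x * g * x = g⁻¹) : (orderOf y = 2 ∧ y * g * y = g⁻¹) ↔ x * y ∈ Cn g := by
  have hxx := mul_self_of_two hx
  constructor
  · rintro ⟨hy, hyg⟩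
    rw [mem_Cn]
    have hyy := mul_self_of_two hy
    have h1 : y * g = g⁻¹ * y := by
      calc y * g = y * g * (y * y) := by rw [hyy, mul_one]
        _ = (y * g * y) * y := by group
        _ = _ := by rw [hyg]
    have h2 : x * g⁻¹ = g * x := by
      have : g⁻¹ = x * g * x := hxg.symm
      rw [this]
      calc x * (x * g * x) = (x * x) * g * x := by group
        _ = _ := by rw [hxx, one_mul]
    calc x * y * g = x * (y * g) := by group
      _ = x * (g⁻¹ * y) := by rw [h1]
      _ = (x * g⁻¹) * y := by group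
      _ = (g * x) * y := by rw [h2]
      _ = _ := by group
  · intro hw
    have h1 := h.inverts hx hxg _ hw
    have hy : y = x * (x * y) := by
      calc y = (x * x) * y := by rw [hxx, one_mul]
        _ = _ := by group
    have hyy : y * y = 1 := by
      rw [hy]
      have := (x * y : G)
      calc x * (x * y) * (x * (x * y)) = (x * (x * y) * x) * (x * y) := by group
        _ = (x * y)⁻¹ * (x * y) := by rw [h1]
        _ = 1 := by group
    have hy1 : y ≠ 1 := by
      rintro rfl
      rw [mul_one] at hw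
      exact h.no_invol hx (mem_Cn.mp hw)
    refine ⟨two_of_mul_self hyy hy1, ?_⟩
    have h3 := mem_Cn.mp hw
    have hyi : y⁻¹ = y := inv_eq_of_mul_eq_one_left hyy
    -- `y g y = x (x y) g y`
    have h4 : y * g = x * g * (x * y) := by
      calc y * g = x * ((x * y) * g) := by
            calc y * g = (x * x) * y * g := by rw [hxx, one_mul]
              _ = _ := by group
        _ = x * (g * (x * y)) := by rw [h3]
        _ = _ := by group
    calc y * g * y = x * g * (x * y) * y := by rw [h4]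
      _ = x * g * x * (y * y) := by group
      _ = _ := by rw [hyy, mul_one, hxg]

end Setup

end Cfsg.Agent.Lib.BSW
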