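import Cfsg.Agent.Lib.BSW.CharC

/-!
# Abstract Brauer–Suzuki–Wall: normalizers of the real centralizers
-/

set_option autoImplicit false
set_option linter.unusedSectionVars false
set_option linter.unusedVariables false
set_option linter.unusedSimpArgs false
set_option linter.unnecessarySimpa false

namespace Cfsg.Agent.Lib.BSW

open Classical Finset

universe u

/-- The conclusion of the theorem. -/
def Concl (G : Type*) [Group G] : Prop :=
  ∃ Q D : Subgroup G, 2 * Nat.card G = Nat.card ↥Q * (Nat.card ↥Q + 1) * (Nat.card ↥Q - 1) ∧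
    (∀ x ∈ Q, x ≠ 1 → Subgroup.centralizer ({x} : Set G) = Q) ∧
    IsMulCommutative ↥D ∧ 2 * Nat.card ↥D + 1 = Nat.card ↥Q ∧ Q ⊓ D = ⊥ ∧
    Subgroup.normalizer (Q : Set G) = Q ⊔ D ∧
    ∀ X : Subgroup G, X ≤ D → X ≠ ⊥ →
      Subgroup.normalizer (X : Set G) = Subgroup.normalizer (D : Set G) ∧
      ∃ u : G, orderOf u = 2 ∧ u ∉ D ∧ (∀ d ∈ D, u * d * u⁻¹ = d⁻¹) ∧
        Subgroup.normalizer (D : Set G) = D ⊔ Subgroup.zpowers u

variable {G : Type u} [Group G]

theorem mem_Cn_conj {g w y : G} : y * w * y⁻¹ ∈ Cn (y * g * y⁻¹) ↔ w ∈ Cn g := by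
  rw [mem_Cn, mem_Cn]
  constructor
  · intro h
    have e1 : y * w * y⁻¹ * (y * g * y⁻¹) = y * (w * g) * y⁻¹ := by group
    have e2 : y * g * y⁻¹ * (y * w * y⁻¹) = y * (g * w) * y⁻¹ := by group
    rw [e1, e2] at h
    exact mul_left_cancel (mul_right_cancel h)
  · intro h
    have e1 : y * w * y⁻¹ * (y * g * y⁻¹) = y * (w * g) * y⁻¹ := by group
    have e2 : y * g * y⁻¹ * (y * w * y⁻¹) = y * (g * w) * y⁻¹ := by group
    rw [e1, e2, h]

theorem normalizer_of_Cn_eq {g y : G} (h : Cn (y * g * y⁻¹) = Cn g) :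
    y ∈ Subgroup.normalizer ((Cn g : Subgroup G) : Set G) := by
  rw [Subgroup.mem_normalizer_iff]
  intro w
  constructor
  · intro hw
    have := mem_Cn_conj (g := g) (w := w) (y := y) |>.mpr hw
    rw [h] at this
    exact this
  · intro hw
    apply mem_Cn_conj (g := g) (w := w) (y := y) |>.mp
    rw [h]
    exact hw

theorem card_Cn_conj [Finite G] (y g : G) : Nat.card (Cn (y * g * y⁻¹)) = Nat.card (Cn g) := by
  have : Fintype G := Fintype.ofFinite G
  exact Char.card_centralizer_of_isConj (isConj_iff.mpr ⟨y, rfl⟩).symm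

namespace Setup

variable {S : Setup G} [Finite G]

theorem IsA.odd_card_aux {g : G} (h : S.IsA g) : Odd (Nat.card (Cn g)) := by
  have : Fintype G := Fintype.ofFinite G
  rw [← Nat.not_even_iff_odd, even_iff_two_dvd]
  exact IsA.odd_card h

theorem IsA.inverts_of_normalizer {g z : G} (h : S.IsA g) (hz : orderOf z = 2)
    (hn : z ∈ Subgroup.normalizer ((Cn g : Subgroup G) : Set G)) :
    ∀ w ∈ Cn g, z * w * z = w⁻¹ := by
  have hzi := inv_of_two hz
  refine inverts_of_fpf (mul_self_of_two hz) ?_ ?_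
  · intro w hw
    have := (Subgroup.mem_normalizer_iff.mp hn w).mp hw
    rwa [hzi] at this
  · intro w hw hwz
    exact h.fpf hz (mem_Cn.mp hw) hwz

theorem IsA.inv_normalizer {g x : G} (h : S.IsA g) (hx : orderOf x = 2)
    (hxg : x * g * x = g⁻¹) : x ∈ Subgroup.normalizer ((Cn g : Subgroup G) : Set G) := by
  have hi := h.inverts hx hxg
  have hxi := inv_of_two hx
  have hxx := mul_self_of_two hx
  rw [Subgroup.mem_normalizer_iff]
  intro w
  rw [hxi]
  constructor
  · intro hw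
    have hw' : w ∈ Cn g := hw
    have e1 : (x * w * x)  = w⁻¹ := hi w hw'
    show x * w * x ∈ Cn g
    rw [e1]
    exact Subgroup.inv_mem _ hw'
  · intro hw
    have hw' : x * w * x ∈ Cn g := hw
    show w ∈ Cn g
    have e1 := hi _ hw'
    have e2 : x * (x * w * x) * x = w := by
      calc x * (x * w * x) * x = (x * x) * w * (x * x) := by group
        _ = w := by rw [hxx]; simp
    rw [e2] at e1
    rw [e1]
    exact Subgroup.inv_mem _ hw'

theorem two_mul_mem {g x z : G} (hx : orderOf x = 2) (hxg : x * g * x = g⁻¹)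
    (hz : orderOf z = 2) (hzg : z * g * z = g⁻¹) : x * z ∈ Cn g := by
  rw [mem_Cn]
  have hzz := mul_self_of_two hz
  have hxx := mul_self_of_two hx
  have h1 : z * g = g⁻¹ * z := by
    calc z * g = (z * g * z) * z := by
          calc z * g = z * g * (z * z) := by rw [hzz, mul_one]
            _ = _ := by group
      _ = _ := by rw [hzg]
  have h2 : x * g⁻¹ = g * x := by
    rw [← hxg]
    calc x * (x * g * x) = (x * x) * g * x := by group
      _ = _ := by rw [hxx, one_mul]
  calc x * z * g = x * (z * g) := by group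
    _ = x * (g⁻¹ * z) := by rw [h1]
    _ = (x * g⁻¹) * z := by group
    _ = (g * x) * z := by rw [h2]
    _ = _ := by group

/-- Frattini argument: the normalizer is `C(g) · (N ∩ C(x))`. -/
theorem IsA.frattini {g x y : G} (h : S.IsA g) (hx : orderOf x = 2)
    (hxg : x * g * x = g⁻¹) (hy : y ∈ Subgroup.normalizer ((Cn g : Subgroup G) : Set G)) :
    ∃ v ∈ Cn g, (v⁻¹ * y) * x = x * (v⁻¹ * y) := by
  have hxN := h.inv_normalizer hx hxg
  have hxx := mul_self_of_two hx
  set z := y * x * y⁻¹ with hz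
  have hzo : orderOf z = 2 := by rw [hz, orderOf_conj']; exact hx
  have hzN : z ∈ Subgroup.normalizer ((Cn g : Subgroup G) : Set G) :=
    Subgroup.mul_mem _ (Subgroup.mul_mem _ hy hxN) (Subgroup.inv_mem _ hy)
  have hzi := h.inverts_of_normalizer hzo hzN
  have hw : x * z ∈ Cn g := two_mul_mem hx hxg hzo (hzi g (mem_Cn_self g))
  set w := x * z with hwd
  have hodd := IsA.odd_card_aux h
  obtain ⟨c, hc⟩ : ∃ c, Nat.card (Cn g) = 2 * c + 1 := hodd
  let v : G := (w⁻¹) ^ (c + 1)
  have hv : v ∈ Cn g := Subgroup.pow_mem _ (Subgroup.inv_mem _ hw) _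
  have hv2 : v * v = w⁻¹ := by
    have h1 : ((⟨w, hw⟩ : Cn g) ^ (2 * c + 1)) = 1 := by
      rw [← hc]
      exact pow_card_eq_one'
    have h2 : w ^ (2 * c + 1) = 1 := by
      have := congrArg Subtype.val h1
      simpa using this
    have h3 : (w⁻¹) ^ (2 * c + 1) = 1 := by rw [inv_pow, h2, inv_one]
    calc v * v = (w⁻¹) ^ (2 * c + 1) * w⁻¹ := by
          simp only [v, ← pow_add, ← pow_succ]
          congr 1
          ring
      _ = w⁻¹ := by rw [h3, one_mul]
  refine ⟨v, hv, ?_⟩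
  have hxv := h.inverts hx hxg v hv
  have h4 : v * x * v⁻¹ = z := by
    have h5 : v * x = x * v⁻¹ := by
      calc v * x = x * (x * v * x) := by
            calc v * x = (x * x) * v * x := by rw [hxx, one_mul]
              _ = _ := by group
        _ = _ := by rw [hxv]
    calc v * x * v⁻¹ = x * v⁻¹ * v⁻¹ := by rw [h5]
      _ = x * (v * v)⁻¹ := by group
      _ = x * w := by rw [hv2, inv_inv]
      _ = (x * x) * z := by rw [hwd]; group
      _ = z := by rw [hxx, one_mul]
  have h6 : v⁻¹ * y * x * (v⁻¹ * y)⁻¹ = x := by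
    calc v⁻¹ * y * x * (v⁻¹ * y)⁻¹ = v⁻¹ * (y * x * y⁻¹) * v := by group
      _ = v⁻¹ * z * v := by rw [← hz]
      _ = v⁻¹ * (v * x * v⁻¹) * v := by rw [h4]
      _ = x := by group
  calc v⁻¹ * y * x = (v⁻¹ * y * x * (v⁻¹ * y)⁻¹) * (v⁻¹ * y) := by group
    _ = x * (v⁻¹ * y) := by rw [h6]

/-- An element of `Ks` does not normalize `C(g)` when `t` inverts `g`. -/
theorem IsA.not_ks {g a : G} (h : S.IsA g) (ht : S.t * g * S.t = g⁻¹) (ha : a ∈ S.K)
    (hn : a * S.s ∈ Subgroup.normalizer ((Cn g : Subgroup G) : Set G)) : False := by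
  have h1 := S.ks_two ha
  have h2 := h.inverts_of_normalizer h1 hn g (mem_Cn_self g)
  have h3 := two_mul_mem S.ht ht h1 h2
  have h4 : S.t * (a * S.s) = (S.t * a) * S.s := by group
  rw [h4] at h3
  have h5 := S.ks_two (S.K.mul_mem S.htK ha)
  exact h.no_invol h5 (mem_Cn.mp h3)

theorem IsA.normalizer_comm {g y : G} (h : S.IsA g) (ht : S.t * g * S.t = g⁻¹)
    (hn : y ∈ Subgroup.normalizer ((Cn g : Subgroup G) : Set G)) (hy : y * S.t = S.t * y) :
    y ∈ S.K := by
  rcases S.hH y hy with h1 | ⟨a, ha, rfl⟩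
  · exact h1
  · exact (h.not_ks ht ha hn).elim

/-- Real implies really inverted by an involution. -/
theorem IsA.exists_invol {g y : G} (h : S.IsA g) (hy : y * g * y⁻¹ = g⁻¹) :
    ∃ z, orderOf z = 2 ∧ z * g * z = g⁻¹ := by
  have hodd := IsA.odd_card_aux h
  obtain ⟨c, hc⟩ : ∃ c, Nat.card (Cn g) = 2 * c + 1 := hodd
  have hyy : y * y ∈ Cn g := by
    rw [mem_Cn]
    have h5 : y * y * g * (y * y)⁻¹ = g := by
      have h6 : y * g⁻¹ * y⁻¹ = (y * g * y⁻¹)⁻¹ := by group
      calc y * y * g * (y * y)⁻¹ = y * (y * g * y⁻¹) * y⁻¹ := by group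
        _ = y * g⁻¹ * y⁻¹ := by rw [hy]
        _ = (y * g * y⁻¹)⁻¹ := h6
        _ = g := by rw [hy, inv_inv]
    calc y * y * g = (y * y * g * (y * y)⁻¹) * (y * y) := by group
      _ = g * (y * y) := by rw [h5]
  have hpow : (y * y) ^ (2 * c + 1) = 1 := by
    have h1 : ((⟨y * y, hyy⟩ : Cn g) ^ (2 * c + 1)) = 1 := by
      rw [← hc]
      exact pow_card_eq_one'
    have := congrArg Subtype.val h1
    simpa using this
  -- `z = y ^ (2c+1)`
  let z := y ^ (2 * c + 1)
  have hzz : z * z = 1 := by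
    have : z * z = (y * y) ^ (2 * c + 1) := by
      simp only [z, ← pow_add, ← pow_two, ← pow_mul]
      congr 1
      ring
    rw [this, hpow]
  have hconj : ∀ n : ℕ, y ^ (2 * n + 1) * g * (y ^ (2 * n + 1))⁻¹ = g⁻¹ := by
    intro n
    induction n with
    | zero => simpa using hy
    | succ n ih =>
      have e : y ^ (2 * (n + 1) + 1) = (y * y) * y ^ (2 * n + 1) := by
        rw [show 2 * (n + 1) + 1 = 2 + (2 * n + 1) by ring, pow_add, pow_two]
      rw [e, mul_inv_rev]
      have h5 : y * y * y ^ (2 * n + 1) * g * ((y ^ (2 * n + 1))⁻¹ * (y * y)⁻¹) =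
          (y * y) * (y ^ (2 * n + 1) * g * (y ^ (2 * n + 1))⁻¹) * (y * y)⁻¹ := by group
      rw [h5, ih]
      have h6 : (y * y) * g⁻¹ = g⁻¹ * (y * y) := by
        have := mem_Cn.mp hyy
        calc (y * y) * g⁻¹ = g⁻¹ * (g * (y * y)) * g⁻¹ := by group
          _ = g⁻¹ * ((y * y) * g) * g⁻¹ := by rw [this]
          _ = _ := by group
      rw [h6]
      group
  have hz1 : z ≠ 1 := by
    intro h0
    have := hconj c
    simp only [z] at h0
    rw [h0] at this
    simp only [one_mul, inv_one, mul_one] at this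
    -- `g = g⁻¹`
    have h7 : g * g = 1 := by
      calc g * g = g * g⁻¹ := by rw [← this]
        _ = 1 := by group
    exact h.not_two (two_of_mul_self h7 h.ne_one)
  refine ⟨z, two_of_mul_self hzz hz1, ?_⟩
  have h8 := hconj c
  have hzi : z⁻¹ = z := inv_eq_of_mul_eq_one_left hzz
  simp only [z] at h8 hzi ⊢
  rw [hzi] at h8
  exact h8

end Setup

end Cfsg.Agent.Lib.BSW
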