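import Cfsg.Agent.Lib.BSW.Minus5

/-!
# Abstract Brauer–Suzuki–Wall: the case `|K| = 2`
-/

set_option autoImplicit false
set_option linter.unusedSectionVars false
set_option linter.unusedVariables false
set_option linter.unusedSimpArgs false
set_option linter.unnecessarySimpa false

namespace Cfsg.Agent.Lib.BSW

open Classical Finset

universe u

theorem Cn_conj_congr {G : Type u} [Group G] {g h : G} (y : G) (e : Cn g = Cn h) :
    Cn (y * g * y⁻¹) = Cn (y * h * y⁻¹) := by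
  ext w
  have h1 := @mem_Cn_conj _ _ g (y⁻¹ * w * y) y
  have h2 := @mem_Cn_conj _ _ h (y⁻¹ * w * y) y
  have e2 : y * (y⁻¹ * w * y) * y⁻¹ = w := by group
  rw [e2] at h1 h2
  rw [h1, h2, e]

theorem num_aux (a b : ℕ) (ha : 3 ≤ a) (hb : 3 ≤ b)
    (h : ((a - 1 : ℕ) : ℚ) * (1 / (a : ℚ)) + ((a - 1 : ℕ) : ℚ) * (1 / (a : ℚ)) +
      (((b - 1 : ℕ) : ℚ) * (1 / (b : ℚ)) + ((b - 1 : ℕ) : ℚ) * (1 / (b : ℚ))) < 3) :
    a * b < 2 * a + 2 * b := by
  by_contra hcon
  push Not at hcon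
  have ha0 : (0 : ℚ) < a := by exact_mod_cast (by omega : 0 < a)
  have hb0 : (0 : ℚ) < b := by exact_mod_cast (by omega : 0 < b)
  have hq : (2 : ℚ) * a + 2 * b ≤ a * b := by exact_mod_cast hcon
  have e1 : ((a - 1 : ℕ) : ℚ) * (1 / (a : ℚ)) = 1 - 1 / a := by
    rw [Nat.cast_sub (by omega)]
    push_cast
    field_simp
  have e2 : ((b - 1 : ℕ) : ℚ) * (1 / (b : ℚ)) = 1 - 1 / b := by
    rw [Nat.cast_sub (by omega)]
    push_cast
    field_simp
  rw [e1, e2] at h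
  have key : 2 * (1 / (a : ℚ)) + 2 * (1 / (b : ℚ)) ≤ 1 := by
    have e3 : 2 * (1 / (a : ℚ)) + 2 * (1 / (b : ℚ)) = (2 * a + 2 * b) / (a * b) := by
      field_simp
      ring
    rw [e3, div_le_one (by positivity)]
    exact hq
  linarith

theorem num_main {a b m : ℕ} (ha : Odd a) (hb : Odd b) (ha3 : 3 ≤ a) (hb3 : 3 ≤ b)
    (hm : (a - 1) + (a - 1) + ((b - 1) + (b - 1)) + 3 = m) (had : a ∣ m) (hbd : b ∣ m)
    (hab : a * b < 2 * a + 2 * b) : m = 15 ∧ (a = 5 ∨ b = 5) := by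
  obtain ⟨x, rfl⟩ := ha
  obtain ⟨y, rfl⟩ := hb
  have hc : x = 1 ∨ y = 1 := by
    by_contra hcon
    push Not at hcon
    have hx : 2 ≤ x := by omega
    have hy : 2 ≤ y := by
      have := hcon.2
      omega
    nlinarith
  rcases hc with rfl | rfl
  · have hy : y ≤ 2 := by nlinarith
    have hy1 : 1 ≤ y := by omega
    interval_cases y
    · norm_num at hm
      subst hm
      norm_num at had
    · norm_num at hm
      subst hm
      simp
  · have hx : x ≤ 2 := by nlinarith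
    have hx1 : 1 ≤ x := by omega
    interval_cases x
    · norm_num at hm
      subst hm
      norm_num at had
    · norm_num at hm
      subst hm
      simp

variable {G : Type u} [Group G] [Fintype G]

namespace Setup

variable (S : Setup G)

theorem two_weight (hk : Nat.card S.K = 2) :
    ∑ L ∈ S.LL, (((Nat.card L - 1 : ℕ) : ℚ) * (1 / (Nat.card L : ℚ))) < 3 := by
  have hD := S.sum_AA_BB_smul (R := ℚ) (fun g => 1 / (Nat.card (Cn g) : ℚ))
    (by intro h g; simp only [card_Cn_conj])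
  have hW := S.sum_WW (R := ℚ) (fun L => 1 / (Nat.card L : ℚ))
  rw [hW] at hD
  have h1 : ∀ g ∈ S.AA, BB g • (1 / (Nat.card (Cn g) : ℚ)) ≤ 1 := by
    intro g hg
    rw [S.mem_AA] at hg
    by_cases hr : ∃ x, orderOf x = 2 ∧ x * g * x = g⁻¹
    · obtain ⟨x, hx, hxg⟩ := hr
      rw [S.BB_A_eq_card hg hx hxg, nsmul_eq_mul]
      have h0 : (Nat.card (Cn g) : ℚ) ≠ 0 := by
        exact_mod_cast (Nat.card_pos (α := Cn g)).ne'
      rw [mul_one_div_cancel h0]
    · push Not at hr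
      rw [S.BB_A_eq_zero hg hr]
      simp
  have h2 := Finset.sum_le_card_nsmul S.AA _ 1 h1
  rw [hD] at h2
  have h3 := S.card_AA
  rw [S.card_G, hk] at h3
  have hm0 : (0 : ℚ) < mm G := by exact_mod_cast S.mm_pos
  simp only [nsmul_eq_mul, mul_one] at h2
  have h4 : (S.AA.card : ℚ) + 1 + mm G = 4 * mm G := by
    have : S.AA.card + 1 + mm G = 4 * mm G := by
      simpa using h3
    exact_mod_cast this
  have h5 : (mm G : ℚ) * ∑ L ∈ S.LL, (((Nat.card L - 1 : ℕ) : ℚ) * (1 / (Nat.card L : ℚ))) <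
      mm G * 3 := by
    linarith
  exact lt_of_mul_lt_mul_left h5 hm0.le

theorem two_count (hk : Nat.card S.K = 2) : ∑ L ∈ S.LL, (Nat.card L - 1) + 3 = mm G := by
  have h1 := S.sum_WW (fun _ => (1 : ℕ))
  simp only [smul_eq_mul, mul_one, Finset.sum_const] at h1
  have h2 := S.card_WW_rel
  rw [hk] at h2
  rw [← h1]
  omega

theorem two_props (hk : Nat.card S.K = 2) {g : G} (hA : S.IsA g) :
    Odd (Nat.card (Cn g)) ∧ 3 ≤ Nat.card (Cn g) ∧ Nat.card (Cn g) ∣ mm G := by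
  have hodd := IsA.odd_card_aux hA
  have hgt : 1 < Nat.card (Cn g) := by
    haveI : Nontrivial (Cn g) :=
      ⟨⟨⟨g, mem_Cn_self g⟩, 1, fun h => hA.ne_one (congrArg Subtype.val h)⟩⟩
    exact Finite.one_lt_card
  refine ⟨hodd, ?_, ?_⟩
  · obtain ⟨c, hc⟩ := hodd
    omega
  · have h1 : Nat.card (Cn g) ∣ Fintype.card G := by
      rw [← Nat.card_eq_fintype_card]
      exact Subgroup.card_subgroup_dvd_card _
    rw [S.card_G, hk] at h1
    have hcop : Nat.Coprime (Nat.card (Cn g)) (2 * 2) :=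
      Nat.Coprime.mul_right (Nat.coprime_two_right.mpr hodd) (Nat.coprime_two_right.mpr hodd)
    exact hcop.dvd_of_dvd_mul_left h1

theorem swap_facts {g : G} (hA : S.IsA g) (ht : S.t * g * S.t = g⁻¹) :
    Cn (S.s * g * S.s⁻¹) ∈ S.LL ∧ Cn (S.s * g * S.s⁻¹) ≠ Cn g ∧
      Nat.card (Cn (S.s * g * S.s⁻¹)) = Nat.card (Cn g) := by
  have hsA := S.IsA_conj_WW hA ht S.hst
  refine ⟨S.mem_LL.mpr ⟨_, hsA.1, hsA.2, rfl⟩, ?_, card_Cn_conj _ _⟩
  intro h0
  have h5 := normalizer_of_Cn_eq h0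
  apply hA.not_ks ht S.K.one_mem
  rwa [one_mul]

theorem conj_s_s (g : G) : S.s * (S.s * g * S.s⁻¹) * S.s⁻¹ = g := by
  have hss := mul_self_of_two S.hs
  have hsi := inv_of_two S.hs
  rw [hsi]
  calc S.s * (S.s * g * S.s) * S.s = (S.s * S.s) * g * (S.s * S.s) := by group
    _ = g := by rw [hss]; group

theorem weight_ge {L : Subgroup G} (h3 : 3 ≤ Nat.card L) :
    (2 / 3 : ℚ) ≤ ((Nat.card L - 1 : ℕ) : ℚ) * (1 / (Nat.card L : ℚ)) := by
  have h0 : (3 : ℚ) ≤ Nat.card L := by exact_mod_cast h3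
  have h1 : (0 : ℚ) < Nat.card L := by linarith
  have e1 : ((Nat.card L - 1 : ℕ) : ℚ) * (1 / (Nat.card L : ℚ)) = 1 - 1 / Nat.card L := by
    rw [Nat.cast_sub (by omega)]
    push_cast
    field_simp
  rw [e1]
  have h2 : 1 / (Nat.card L : ℚ) ≤ 1 / 3 := one_div_le_one_div_of_le (by norm_num) h0
  linarith

theorem two_main (hk : Nat.card S.K = 2) :
    mm G = 3 ∨ (mm G = 15 ∧ ∃ g, S.IsA g ∧ S.t * g * S.t = g⁻¹ ∧ Nat.card (Cn g) = 5) := by
  have hw := S.two_weight hk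
  have hc := S.two_count hk
  have hprop : ∀ L ∈ S.LL, Odd (Nat.card L) ∧ 3 ≤ Nat.card L ∧ Nat.card L ∣ mm G := by
    intro L hL
    obtain ⟨g, hA, ht, rfl⟩ := S.mem_LL.mp hL
    exact S.two_props hk hA
  by_cases h0 : S.LL = ∅
  · left
    rw [h0] at hc
    simpa using hc.symm
  obtain ⟨L₁, hL₁⟩ := Finset.nonempty_iff_ne_empty.mpr h0
  obtain ⟨g₁, hA₁, ht₁, rfl⟩ := S.mem_LL.mp hL₁
  obtain ⟨hL₁', hne₁, hcard₁⟩ := S.swap_facts hA₁ ht₁
  by_cases h1 : S.LL ⊆ {Cn g₁, Cn (S.s * g₁ * S.s⁻¹)}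
  · exfalso
    have e : S.LL = {Cn g₁, Cn (S.s * g₁ * S.s⁻¹)} := by
      apply Finset.Subset.antisymm h1
      intro x hx
      simp only [mem_insert, mem_singleton] at hx
      rcases hx with rfl | rfl
      · exact hL₁
      · exact hL₁'
    rw [e, Finset.sum_pair hne₁.symm, hcard₁] at hc
    obtain ⟨hodd, h3, hd⟩ := hprop _ hL₁
    rw [← hc] at hd
    have e2 : (Nat.card (Cn g₁) - 1 + (Nat.card (Cn g₁) - 1) + 3) = Nat.card (Cn g₁) * 2 + 1 := by omega
    rw [e2] at hd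
    have h4 := (Nat.dvd_add_right (dvd_mul_right (Nat.card (Cn g₁)) 2)).mp hd
    have h5 := Nat.dvd_one.mp h4
    omega
  obtain ⟨L₂, hL₂, hL₂n⟩ := Finset.not_subset.mp h1
  obtain ⟨g₂, hA₂, ht₂, rfl⟩ := S.mem_LL.mp hL₂
  obtain ⟨hL₂', hne₂, hcard₂⟩ := S.swap_facts hA₂ ht₂
  simp only [mem_insert, mem_singleton, not_or] at hL₂n
  obtain ⟨hn1, hn2⟩ := hL₂n
  have hn3 : Cn (S.s * g₂ * S.s⁻¹) ≠ Cn g₁ := by
    intro h
    apply hn2
    have := Cn_conj_congr S.s h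
    rwa [S.conj_s_s] at this
  have hn4 : Cn (S.s * g₂ * S.s⁻¹) ≠ Cn (S.s * g₁ * S.s⁻¹) := by
    intro h
    apply hn1
    have := Cn_conj_congr S.s h
    rwa [S.conj_s_s, S.conj_s_s] at this
  have hT : ∀ x, x ∈ ({Cn g₁, Cn (S.s * g₁ * S.s⁻¹), Cn g₂, Cn (S.s * g₂ * S.s⁻¹)} : Finset (Subgroup G)) → x ∈ S.LL := by
    intro x hx
    simp only [mem_insert, mem_singleton] at hx
    rcases hx with rfl | rfl | rfl | rfl
    · exact hL₁
    · exact hL₁'
    · exact hL₂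
    · exact hL₂'
  have hc1 : (Cn g₁) ∉ ({Cn (S.s * g₁ * S.s⁻¹), Cn g₂, Cn (S.s * g₂ * S.s⁻¹)} : Finset (Subgroup G)) := by
    simp only [mem_insert, mem_singleton, not_or]
    exact ⟨hne₁.symm, fun h => hn1 h.symm, hn3.symm⟩
  have hc2 : (Cn (S.s * g₁ * S.s⁻¹)) ∉ ({Cn g₂, Cn (S.s * g₂ * S.s⁻¹)} : Finset (Subgroup G)) := by
    simp only [mem_insert, mem_singleton, not_or]
    exact ⟨fun h => hn2 h.symm, hn4.symm⟩
  by_cases h2 : S.LL ⊆ {Cn g₁, Cn (S.s * g₁ * S.s⁻¹), Cn g₂, Cn (S.s * g₂ * S.s⁻¹)}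
  · right
    have e : S.LL = {Cn g₁, Cn (S.s * g₁ * S.s⁻¹), Cn g₂, Cn (S.s * g₂ * S.s⁻¹)} :=
      Finset.Subset.antisymm h2 hT
    rw [e, Finset.sum_insert hc1, Finset.sum_insert hc2, Finset.sum_pair hne₂.symm,
      hcard₁, hcard₂] at hw hc
    obtain ⟨hodd1, h31, hd1⟩ := hprop _ hL₁
    obtain ⟨hodd2, h32, hd2⟩ := hprop _ hL₂
    have hab := num_aux _ _ h31 h32 (by linarith)
    have hm : Nat.card (Cn g₁) - 1 + (Nat.card (Cn g₁) - 1) + (Nat.card (Cn g₂) - 1 + (Nat.card (Cn g₂) - 1)) + 3 = mm G := by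
      rw [← hc]
      ring
    obtain ⟨hm15, h5⟩ := num_main hodd1 hodd2 h31 h32 hm hd1 hd2 hab
    refine ⟨hm15, ?_⟩
    rcases h5 with h5 | h5
    · exact ⟨g₁, hA₁, ht₁, h5⟩
    · exact ⟨g₂, hA₂, ht₂, h5⟩
  · exfalso
    obtain ⟨L₃, hL₃, hL₃n⟩ := Finset.not_subset.mp h2
    have hsub : insert L₃ ({Cn g₁, Cn (S.s * g₁ * S.s⁻¹), Cn g₂, Cn (S.s * g₂ * S.s⁻¹)} : Finset (Subgroup G)) ⊆ S.LL := by
      intro x hx
      rcases Finset.mem_insert.mp hx with rfl | hx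
      · exact hL₃
      · exact hT x hx
    have hcard5 : 5 ≤ S.LL.card := by
      have h5 := Finset.card_le_card hsub
      rw [Finset.card_insert_of_notMem hL₃n, Finset.card_insert_of_notMem hc1,
        Finset.card_insert_of_notMem hc2, Finset.card_pair hne₂.symm] at h5
      omega
    have h6 := Finset.card_nsmul_le_sum S.LL
      (fun L : Subgroup G => ((Nat.card L - 1 : ℕ) : ℚ) * (1 / (Nat.card L : ℚ))) (2 / 3)
      (fun L hL => weight_ge (hprop L hL).2.1)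
    have h7 : (5 : ℚ) ≤ S.LL.card := by exact_mod_cast hcard5
    rw [nsmul_eq_mul] at h6
    linarith

/-- The case `mm G = 15`. -/
theorem two_fifteen (hk : Nat.card S.K = 2) (hm : mm G = 15) {g : G} (hA : S.IsA g)
    (ht : S.t * g * S.t = g⁻¹) (h5 : Nat.card (Cn g) = 5) : Concl G := by
  refine S.final_plus hA ht (by rw [h5, hk]) ?_ (by rw [hm, hk])
  intro a ha
  by_cases ha1 : a = 1
  · rw [ha1]
    have e : (1 : G) * g * (1 : G)⁻¹ = g := by group
    rw [e]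
  · have h2 : orderOf a = 2 := by
      have h3 : orderOf (⟨a, ha⟩ : S.K) = orderOf a := Subgroup.orderOf_mk _ _
      have h4 : orderOf a ∣ 2 := by
        rw [← h3, ← hk]
        exact orderOf_dvd_natCard _
      rcases (Nat.dvd_prime Nat.prime_two).mp h4 with h6 | h6
      · exact absurd (orderOf_eq_one_iff.mp h6) ha1
      · exact h6
    have h7 := S.eq_of_two_mem ha h2
    rw [h7, inv_of_two S.ht, ht, Cn_inv]

/-- The case `mm G = 3`. -/
theorem two_three (hk : Nat.card S.K = 2) (hm : mm G = 3) : Concl G := by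
  have hG : Fintype.card G = 12 := by rw [S.card_G, hk, hm]
  have hGn : Nat.card G = 12 := by rw [Nat.card_eq_fintype_card, hG]
  have hWW : S.WW = ∅ := by
    have h := S.card_WW_rel
    rw [hk, hm] at h
    apply Finset.card_eq_zero.mp
    omega
  haveI : Fact (Nat.Prime 3) := ⟨Nat.prime_three⟩
  haveI : Fact (Nat.Prime 2) := ⟨Nat.prime_two⟩
  obtain ⟨g, hg⟩ := exists_prime_orderOf_dvd_card' (G := G) 3 (by rw [hGn]; norm_num)
  have hA : S.IsA g := by
    intro y hy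
    have h1 : orderOf (⟨_, hy⟩ : S.K) = orderOf g := by
      rw [Subgroup.orderOf_mk, show y⁻¹ * g * y = y⁻¹ * g * y⁻¹⁻¹ by group, orderOf_conj']
    have h2 : orderOf g ∣ 2 := by
      rw [← h1, ← hk]
      exact orderOf_dvd_natCard _
    rw [hg] at h2
    norm_num at h2
  have hno : ∀ z, orderOf z = 2 → z * g * z ≠ g⁻¹ := by
    intro z hz hzg
    obtain ⟨h, rfl⟩ := S.exists_conj hz
    have h1 : h⁻¹ * g * h ∈ S.WW := by
      rw [S.mem_WW]
      refine ⟨by simpa using hA.conj h⁻¹, ?_⟩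
      calc S.t * (h⁻¹ * g * h) * S.t = h⁻¹ * (h * S.t * h⁻¹ * g * (h * S.t * h⁻¹)) * h := by group
        _ = h⁻¹ * g⁻¹ * h := by rw [hzg]
        _ = _ := by group
    rw [hWW] at h1
    simp at h1
  have hnum : ∀ n : ℕ, n ∣ 12 → ¬ 2 ∣ n → 3 ∣ n → n = 3 := by
    intro n h1 h2 h3
    have h4 := Nat.le_of_dvd (by norm_num) h1
    interval_cases n <;> first | rfl | (exfalso; revert h1 h2 h3; decide)
  have h3dvd : ∀ L : Subgroup G, g ∈ L → 3 ∣ Nat.card L := by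
    intro L hL
    rw [← hg]
    have h1 : orderOf (⟨g, hL⟩ : L) = orderOf g := Subgroup.orderOf_mk _ _
    rw [← h1]
    exact orderOf_dvd_natCard _
  have hd12 : ∀ L : Subgroup G, Nat.card L ∣ 12 := by
    intro L
    rw [← hGn]
    exact Subgroup.card_subgroup_dvd_card _
  have hc3 : ∀ x, S.IsA x → g ∈ Cn x → Nat.card (Cn x) = 3 := fun x hx h =>
    hnum _ (hd12 _) (IsA.odd_card hx) (h3dvd _ h)
  have hQ := hc3 g hA (mem_Cn_self g)
  have hQz : Subgroup.zpowers g = Cn g := by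
    apply Subgroup.eq_of_le_of_card_ge
    · rw [Subgroup.zpowers_le]
      exact mem_Cn_self g
    · rw [hQ, Nat.card_zpowers, hg]
  refine ⟨Cn g, ⊥, ?_, ?_, ?_, ?_, inf_bot_eq _, ?_, ?_⟩
  · rw [hQ, hGn]
  · intro x hx hx1
    have hxA : S.IsA x := hA.of_mem (mem_Cn.mp hx) hx1
    have hgx : g ∈ Cn x := by
      rw [mem_Cn]
      exact (mem_Cn.mp hx).symm
    have h1 := hc3 x hxA hgx
    symm
    apply Subgroup.eq_of_le_of_card_ge
    · rw [← hQz, Subgroup.zpowers_le]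
      exact hgx
    · rw [h1, hQ]
  · refine ⟨⟨fun a b => Subtype.ext ?_⟩⟩
    have ha : (a : G) = 1 := Subgroup.mem_bot.mp a.2
    have hb : (b : G) = 1 := Subgroup.mem_bot.mp b.2
    simp [ha, hb]
  · rw [hQ, Subgroup.card_bot]
  · rw [sup_bot_eq]
    symm
    apply Subgroup.eq_of_le_of_card_ge Subgroup.le_normalizer
    rw [hQ]
    have hnot : ¬ 2 ∣ Nat.card (Subgroup.normalizer ((Cn g : Subgroup G) : Set G)) := by
      intro h2
      obtain ⟨z, hz⟩ := exists_prime_orderOf_dvd_card'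
        (G := Subgroup.normalizer ((Cn g : Subgroup G) : Set G)) 2 h2
      have hz' : orderOf (z : G) = 2 := by
        rw [Subgroup.orderOf_coe]; exact hz
      exact hno z hz' (hA.inverts_of_normalizer hz' z.2 g (mem_Cn_self g))
    have h3 := hnum _ (hd12 _) hnot (h3dvd _ (Subgroup.le_normalizer (mem_Cn_self g)))
    rw [h3]
  · intro X hX hX1
    exact absurd (le_bot_iff.mp hX) hX1

theorem two_case (hk : Nat.card S.K = 2) : Concl G := by
  rcases S.two_main hk with h | ⟨h, g, h1, h2, h3⟩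
  · exact S.two_three hk h
  · exact S.two_fifteen hk h h1 h2 h3

end Setup

end Cfsg.Agent.Lib.BSW
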